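import Mathlib

/-!
Operator lemmas for the P(G,V)-theorem: stabilizers of operators, perfect groups acting
unipotently, the abstract context of a quasisimple subgroup `K` moved by an elementary
abelian group `A`, and restriction to invariant sections.
-/

set_option autoImplicit false

namespace CfsgLib.PGV

open scoped commutatorElement

variable {G : Type*} [Group G] {F : Type*} [CommRing F] {U : Type*} [AddCommGroup U] [Module F U]

/-- The elements fixing an operator under left multiplication. -/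
def kill (σ : G →* Module.End F U) (Z : Module.End F U) : Subgroup G where
  carrier := {g | σ g * Z = Z}
  mul_mem' {a b} ha hb := by
    show σ (a * b) * Z = Z
    rw [map_mul, mul_assoc, show σ b * Z = Z from hb]; exact ha
  one_mem' := by show σ 1 * Z = Z; rw [map_one, one_mul]
  inv_mem' {a} ha := by
    show σ a⁻¹ * Z = Z
    conv_lhs => rw [← show σ a * Z = Z from ha, ← mul_assoc, ← map_mul, inv_mul_cancel, map_one, one_mul]

theorem mem_kill {σ : G →* Module.End F U} {Z : Module.End F U} {g : G} :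
    g ∈ kill σ Z ↔ σ g * Z = Z := Iff.rfl

theorem sigma_inv_mul (σ : G →* Module.End F U) (g : G) : σ g⁻¹ * σ g = 1 := by
  rw [← map_mul, inv_mul_cancel, map_one]

theorem sigma_mul_inv (σ : G →* Module.End F U) (g : G) : σ g * σ g⁻¹ = 1 := by
  rw [← map_mul, mul_inv_cancel, map_one]

/-- The value `σ (g h g⁻¹)`. -/
theorem sigma_conj (σ : G →* Module.End F U) (g h : G) :
    σ (g * h * g⁻¹) = σ g * σ h * σ g⁻¹ := by rw [map_mul, map_mul]

/-- A perfect group fixing all `σ k Z - Z` fixes `Z`. -/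
theorem perfect_kill (σ : G →* Module.End F U) {K : Subgroup G} (hK : ⁅K, K⁆ = K)
    {Z : Module.End F U} (h : ∀ f ∈ K, ∀ k ∈ K, σ f * (σ k * Z - Z) = σ k * Z - Z) :
    ∀ k ∈ K, σ k * Z = Z := by
  have hle : K ≤ kill σ Z := by
    rw [← hK, Subgroup.commutator_le]
    intro a ha b hb
    have e1 : ∀ f ∈ K, ∀ k ∈ K, σ (f * k) * Z = σ k * Z + (σ f * Z - Z) := by
      intro f hf k hk
      rw [map_mul, mul_assoc, ← sub_eq_zero]
      have := h f hf k hk
      rw [mul_sub] at this
      linear_combination (norm := abel) this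
    have hcomm : σ (a * b) * Z = σ (b * a) * Z := by
      rw [e1 a ha b hb, e1 b hb a ha]; abel
    have hc : ⁅a, b⁆ ∈ K := by
      rw [← hK]; exact Subgroup.commutator_mem_commutator ha hb
    have hfix : σ ⁅a, b⁆ * (σ (b * a) * Z - Z) = σ (b * a) * Z - Z :=
      h _ hc _ (K.mul_mem hb ha)
    have e2 : σ ⁅a, b⁆ * (σ (b * a) * Z) = σ (a * b) * Z := by
      rw [← mul_assoc, ← map_mul]
      congr 2
      rw [commutatorElement_def]; group
    rw [mul_sub, e2, hcomm] at hfix
    rw [mem_kill]
    exact sub_right_injective hfix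
  exact fun k hk => hle hk

/-- A perfect group whose image is abelian acts trivially. -/
theorem perfect_abelian (σ : G →* Module.End F U) {K : Subgroup G} (hK : ⁅K, K⁆ = K)
    (h : ∀ f ∈ K, ∀ k ∈ K, σ f * σ k = σ k * σ f) : ∀ k ∈ K, σ k = 1 := by
  have hle : K ≤ kill σ (1 : Module.End F U) := by
    rw [← hK, Subgroup.commutator_le]
    intro a ha b hb
    rw [mem_kill, mul_one, commutatorElement_def, map_mul, map_mul, map_mul, h a ha b hb,
      mul_assoc (σ b) (σ a), sigma_mul_inv, mul_one, sigma_mul_inv]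
  intro k hk
  simpa [mem_kill] using hle hk

/-- `a` moves `K`. -/
def Moves (a : G) (K : Subgroup G) : Prop := ∃ k ∈ K, a * k * a⁻¹ ∉ K

/-- `c` is not central in `K`. -/
def Noncentral (K : Subgroup G) (c : G) : Prop := ∃ g ∈ K, g * c ≠ c * g

/-- The abstract situation: `K` perfect with every normal subgroup central or everything,
`A` elementary abelian, and `K` commutes with every conjugate under `A` different from it. -/
structure Ctx (p : ℕ) (K A : Subgroup G) : Prop where
  perfect : ⁅K, K⁆ = K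
  qs : ∀ N : Subgroup ↥K, N.Normal → N ≤ Subgroup.center ↥K ∨ N = ⊤
  comm : ∀ a ∈ A, ∀ b ∈ A, a * b = b * a
  pow : ∀ a ∈ A, a ^ p = 1
  disj : ∀ a ∈ A, Moves a K → ∀ k ∈ K, ∀ l ∈ K, Commute k (a * l * a⁻¹)

theorem not_moves {a : G} {K : Subgroup G} (h : ¬ Moves a K) {k : G} (hk : k ∈ K) :
    a * k * a⁻¹ ∈ K := by
  by_contra hc; exact h ⟨k, hk, hc⟩

/-- A homomorphism of a perfect group into its centre is trivial. -/
theorem hom_central_trivial {K : Subgroup G} (hK : ⁅K, K⁆ = K) (f : ↥K → ↥K)
    (hc : ∀ g, f g ∈ Subgroup.center ↥K) (hf : ∀ g h, f (g * h) = f g * f h) : ∀ g, f g = 1 := by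
  let ψ : ↥K →* ↥K := MonoidHom.mk' f hf
  have hle : ⁅K, K⁆ ≤ ψ.ker.map K.subtype := by
    rw [Subgroup.commutator_le]
    intro a ha b hb
    refine ⟨⁅(⟨a, ha⟩ : ↥K), ⟨b, hb⟩⁆, ?_, rfl⟩
    rw [SetLike.mem_coe, MonoidHom.mem_ker, map_commutatorElement, commutatorElement_eq_one_iff_commute]
    exact (Subgroup.mem_center_iff.mp (hc ⟨a, ha⟩) (f ⟨b, hb⟩)).symm
  intro g
  rw [hK] at hle
  obtain ⟨u, hu, hug⟩ := hle g.2
  rw [← Subtype.ext hug]
  exact MonoidHom.mem_ker.mp hu

namespace Ctx

variable {p : ℕ} {K A : Subgroup G}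

/-- If a noncentral element of `K` fixes an operator commuting with `K`, all of `K` does. -/
theorem kill_all (C : Ctx p K A) (σ : G →* Module.End F U) {Z : Module.End F U}
    (hZ : ∀ k ∈ K, σ k * Z = Z * σ k) {c : G} (hc : c ∈ K) (hnc : Noncentral K c)
    (hcZ : σ c * Z = Z) : ∀ k ∈ K, σ k * Z = Z := by
  have hN : ((kill σ Z).subgroupOf K).Normal := ⟨fun n hn g => by
    rw [Subgroup.mem_subgroupOf, mem_kill] at hn ⊢
    simp only [Subgroup.coe_mul, Subgroup.coe_inv]
    rw [sigma_conj, mul_assoc, hZ _ (K.inv_mem g.2), ← mul_assoc, mul_assoc (σ g), hn, hZ _ g.2,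
      mul_assoc, sigma_mul_inv, mul_one]⟩
  rcases C.qs _ hN with h | h
  · exfalso
    have := Subgroup.mem_center_iff.mp (h (x := ⟨c, hc⟩) (by rw [Subgroup.mem_subgroupOf, mem_kill]; exact hcZ))
    obtain ⟨g, hg, hne⟩ := hnc
    exact hne (congrArg Subtype.val (this ⟨g, hg⟩))
  · intro k hk
    have : (⟨k, hk⟩ : ↥K) ∈ (kill σ Z).subgroupOf K := h ▸ Subgroup.mem_top _
    simpa [Subgroup.mem_subgroupOf, mem_kill] using this

theorem exists_noncentral (C : Ctx p K A) (σ : G →* Module.End F U) {k : G} (hk : k ∈ K)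
    (hne : σ k ≠ 1) : ∃ c ∈ K, Noncentral K c := by
  by_contra h
  push_neg at h
  refine hne (perfect_abelian σ C.perfect (fun f hf g hg => ?_) k hk)
  have : ¬ Noncentral K f := h f hf
  simp only [Noncentral, not_exists, not_and, not_not] at this
  rw [← map_mul, ← map_mul, this g hg]

theorem exists_comm_noncentral (C : Ctx p K A) {k : G} (hk : k ∈ K) (hnc : Noncentral K k) :
    ∃ g ∈ K, Noncentral K (g * k * g⁻¹ * k⁻¹) := by
  by_contra h
  push_neg at h
  let f : ↥K → ↥K := fun g => g * ⟨k, hk⟩ * g⁻¹ * ⟨k, hk⟩⁻¹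
  have hc : ∀ g, f g ∈ Subgroup.center ↥K := fun g => by
    rw [Subgroup.mem_center_iff]
    intro u
    apply Subtype.ext
    have := h g g.2
    simp only [Noncentral, not_exists, not_and, not_not] at this
    exact this u u.2
  have hf : ∀ g g', f (g * g') = f g * f g' := fun g g' => by
    have e : f (g * g') = g * f g' * g⁻¹ * f g := by simp only [f]; group
    rw [e, Subgroup.mem_center_iff.mp (hc g') g, mul_assoc (f g') g g⁻¹, mul_inv_cancel, mul_one,
      Subgroup.mem_center_iff.mp (hc g) (f g')]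
  obtain ⟨g, hg, hne⟩ := hnc
  have := hom_central_trivial C.perfect f hc hf ⟨g, hg⟩
  have h1 : g * k * g⁻¹ * k⁻¹ = 1 := congrArg Subtype.val this
  exact hne (by rwa [mul_inv_eq_one, mul_inv_eq_iff_eq_mul] at h1)

theorem exists_twist_noncentral (C : Ctx p K A) {b : G} (hb : ¬ Moves b K)
    (hne : ∃ k ∈ K, b * k ≠ k * b) : ∃ k ∈ K, Noncentral K (k⁻¹ * (b * k * b⁻¹)) := by
  by_contra h
  push_neg at h
  let f : ↥K → ↥K := fun g => g⁻¹ * ⟨b * g * b⁻¹, not_moves hb g.2⟩
  have hc : ∀ g, f g ∈ Subgroup.center ↥K := fun g => by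
    rw [Subgroup.mem_center_iff]
    intro u
    apply Subtype.ext
    have := h g g.2
    simp only [Noncentral, not_exists, not_and, not_not] at this
    exact this u u.2
  have hf : ∀ g g', f (g * g') = f g * f g' := fun g g' => by
    have e : f (g * g') = g'⁻¹ * f g * (g' * f g') := by
      apply Subtype.ext
      simp only [f, Subgroup.coe_mul, Subgroup.coe_inv]; group
    rw [e, Subgroup.mem_center_iff.mp (hc g) g'⁻¹, mul_assoc, inv_mul_cancel_left]
  obtain ⟨k, hk, hk'⟩ := hne
  have := congrArg Subtype.val (hom_central_trivial C.perfect f hc hf ⟨k, hk⟩)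
  apply hk'
  simp only [f, Subgroup.coe_mul, Subgroup.coe_inv, Subgroup.coe_one] at this
  rwa [inv_mul_eq_one, eq_comm, mul_inv_eq_iff_eq_mul] at this

/-- Restrict the context to a subgroup containing `K`. -/
theorem restrict (C : Ctx p K A) {H : Subgroup G} (hK : K ≤ H) :
    Ctx p (K.subgroupOf H) (A.subgroupOf H) where
  perfect := by
    rw [← Subgroup.map_injective H.subtype_injective |>.eq_iff, Subgroup.map_commutator,
      Subgroup.map_subgroupOf_eq_of_le hK, C.perfect]
  qs N hN := by
    let e := (Subgroup.subgroupOfEquivOfLe hK : K.subgroupOf H ≃* K)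
    rcases C.qs (N.map e.toMonoidHom) (hN.map _ e.surjective) with h | h
    · refine Or.inl fun n hn => ?_
      rw [Subgroup.mem_center_iff]
      intro g
      have h' := h (Subgroup.mem_map_of_mem e.toMonoidHom hn)
      rw [Subgroup.mem_center_iff] at h'
      exact e.injective (by rw [map_mul, map_mul]; exact h' (e g))
    · refine Or.inr ?_
      apply Subgroup.map_injective (f := e.toMonoidHom) e.injective
      rw [h, Subgroup.map_top_of_surjective _ e.surjective]
  comm a ha b hb := Subtype.ext (C.comm a ha b hb)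
  pow a ha := Subtype.ext (C.pow a ha)
  disj a ha hm k hk l hl := by
    obtain ⟨m, hm1, hm2⟩ := hm
    exact Subtype.ext (C.disj a ha ⟨m, hm1, hm2⟩ k hk l hl)

end Ctx

/-- The restriction of a representation to a subgroup and an invariant submodule. -/
def subRep (σ : G →* Module.End F U) (H : Subgroup G) (W : Submodule F U)
    (h : ∀ g ∈ H, ∀ w ∈ W, σ g w ∈ W) : ↥H →* Module.End F ↥W where
  toFun g := (σ g).restrict (h g g.2)
  map_one' := by ext w; simp
  map_mul' a b := by ext w; simp [LinearMap.restrict_apply]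

theorem subRep_apply (σ : G →* Module.End F U) (H : Subgroup G) (W : Submodule F U)
    (h : ∀ g ∈ H, ∀ w ∈ W, σ g w ∈ W) (g : ↥H) (w : ↥W) :
    ((subRep σ H W h g w : ↥W) : U) = σ g w := rfl

/-- The representation on the quotient by an invariant submodule. -/
def quotRep (σ : G →* Module.End F U) (W : Submodule F U) (h : ∀ g, ∀ w ∈ W, σ g w ∈ W) :
    G →* Module.End F (U ⧸ W) where
  toFun g := W.mapQ W (σ g) (fun w hw => h g w hw)
  map_one' := by ext u; simp
  map_mul' a b := by ext u; simp

theorem quotRep_apply (σ : G →* Module.End F U) (W : Submodule F U)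
    (h : ∀ g, ∀ w ∈ W, σ g w ∈ W) (g : G) (u : U) :
    quotRep σ W h g (Submodule.Quotient.mk u) = Submodule.Quotient.mk (σ g u) := rfl

end CfsgLib.PGV
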