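import Cfsg.Agent.PGVTheorem.Replacement

/-!
Invariant submodules, minimal ones on which `K` acts, and passage to them.
-/

set_option autoImplicit false

open scoped commutatorElement

namespace CfsgLib.PGV

variable {G : Type*} [Group G] {F : Type*} [CommRing F] {U : Type*} [AddCommGroup U] [Module F U]
  {p : ℕ} {K A : Subgroup G}

/-- `K` acts nontrivially on `W`. -/
def ActsOn (σ : G →* Module.End F U) (K : Subgroup G) (W : Submodule F U) : Prop :=
  ∃ k ∈ K, ∃ w ∈ W, σ k w ≠ w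

theorem actsOn_top {σ : G →* Module.End F U} {K : Subgroup G} :
    ActsOn σ K ⊤ ↔ ∃ k ∈ K, σ k ≠ 1 := by
  constructor
  · rintro ⟨k, hk, w, -, hw⟩
    exact ⟨k, hk, fun h => hw (by rw [h]; rfl)⟩
  · rintro ⟨k, hk, h⟩
    by_contra hn
    exact h (LinearMap.ext fun w => by
      by_contra hw; exact hn ⟨k, hk, w, Submodule.mem_top, hw⟩)

theorem Ctx.mono (C : Ctx p K A) {B : Subgroup G} (h : B ≤ A) : Ctx p K B where
  perfect := C.perfect
  qs := C.qs
  comm a ha b hb := C.comm a (h ha) b (h hb)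
  pow a ha := C.pow a (h ha)
  disj a ha := C.disj a (h ha)

/-- The setting after reduction to a minimal invariant submodule. -/
structure Minimal (σ : G →* Module.End F U) (K : Subgroup G) : Prop where
  acts : ∃ k ∈ K, σ k ≠ 1
  fixed : ∀ W : Submodule F U, (∀ g, ∀ w ∈ W, σ g w ∈ W) → W ≠ ⊤ → ∀ k ∈ K, ∀ w ∈ W, σ k w = w

/-- In a minimal module an element centralizing the image with `(σ b - 1)² = 0` acts trivially. -/
theorem Minimal.eq_one {σ : G →* Module.End F U} (M : Minimal σ K) (hK : ⁅K, K⁆ = K) {b : G}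
    (hb : ∀ g, σ b * σ g = σ g * σ b) (hq : (σ b - 1) * (σ b - 1) = 0) : σ b = 1 := by
  by_contra hne
  have hinv : ∀ g, ∀ w ∈ LinearMap.ker (σ b - 1), σ g w ∈ LinearMap.ker (σ b - 1) := by
    intro g w hw
    rw [LinearMap.mem_ker] at hw ⊢
    rw [← Module.End.mul_apply, sub_mul, one_mul, hb g, show σ g * σ b - σ g = σ g * (σ b - 1) by
      rw [mul_sub, mul_one], Module.End.mul_apply, hw, map_zero]
  have htop : LinearMap.ker (σ b - 1) ≠ ⊤ := fun h => hne (sub_eq_zero.mp (LinearMap.ext fun u => by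
    have : u ∈ LinearMap.ker (σ b - 1) := h ▸ Submodule.mem_top
    exact this))
  have hfix := M.fixed _ hinv htop
  have h1 : ∀ k ∈ K, σ k * (σ b - 1) = σ b - 1 := fun k hk => LinearMap.ext fun u =>
    hfix k hk _ (LinearMap.mem_ker.mpr (by rw [← Module.End.mul_apply, hq]; rfl))
  have h2 : ∀ k ∈ K, ∀ u, (σ k - 1) u ∈ LinearMap.ker (σ b - 1) := fun k hk u => by
    rw [LinearMap.mem_ker, ← Module.End.mul_apply, mul_sub, mul_one]
    have : (σ b - 1) * σ k = σ k * (σ b - 1) := by rw [sub_mul, mul_sub, hb k, mul_one, one_mul]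
    rw [this, h1 k hk, sub_self]; rfl
  obtain ⟨k, hk, hk1⟩ := M.acts
  refine hk1 ?_
  have := perfect_kill σ hK (Z := 1) (fun f hf g hg => by
    rw [mul_one]; exact LinearMap.ext fun u => hfix f hf _ (h2 g hg u)) k hk
  rwa [mul_one] at this

variable [Finite G] [Finite U]

/-- The elements leaving a submodule invariant. -/
noncomputable def stab (σ : G →* Module.End F U) (W : Submodule F U) : Subgroup G where
  carrier := {g | ∀ w ∈ W, σ g w ∈ W}
  mul_mem' {a b} ha hb w hw := by rw [map_mul, Module.End.mul_apply]; exact ha _ (hb w hw)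
  one_mem' w hw := by simpa using hw
  inv_mem' {g} hg w hw := by
    have hpow : ∀ i : ℕ, σ (g ^ i) w ∈ W := by
      intro i
      induction i with
      | zero => simpa using hw
      | succ i ih => rw [pow_succ', map_mul, Module.End.mul_apply]; exact hg _ ih
    have e : g⁻¹ = g ^ (orderOf g - 1) :=
      (eq_inv_of_mul_eq_one_left (by
        rw [← pow_succ, Nat.sub_add_cancel (orderOf_pos g), pow_orderOf_eq_one])).symm
    rw [e]; exact hpow _

/-- A minimal `H`-invariant submodule of `W₀` on which `K` acts. -/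
theorem exists_minimal (σ : G →* Module.End F U) (H : Subgroup G) {W₀ : Submodule F U}
    (h₀ : H ≤ stab σ W₀) (ha : ActsOn σ K W₀) :
    ∃ W ≤ W₀, H ≤ stab σ W ∧ ActsOn σ K W ∧
      ∀ W' ≤ W, H ≤ stab σ W' → ActsOn σ K W' → W' = W := by
  have hfin : Finite (Submodule F U) := Finite.of_injective (fun W => (W : Set U)) SetLike.coe_injective
  obtain ⟨W, ⟨hW0, hWH, hWa⟩, hmin⟩ := (Set.toFinite {W | W ≤ W₀ ∧ H ≤ stab σ W ∧ ActsOn σ K W}).exists_minimal
    ⟨W₀, le_rfl, h₀, ha⟩
  exact ⟨W, hW0, hWH, hWa, fun W' hle h1 h2 => le_antisymm hle (hmin ⟨hle.trans hW0, h1, h2⟩ hle)⟩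

/-- The minimal submodule as a module for `H`. -/
theorem minimal_subRep (σ : G →* Module.End F U) {H : Subgroup G} (hKH : K ≤ H) {W : Submodule F U}
    (hW : H ≤ stab σ W) (ha : ActsOn σ K W)
    (hmin : ∀ W' ≤ W, H ≤ stab σ W' → ActsOn σ K W' → W' = W) :
    Minimal (subRep σ H W fun _ hg => hW hg) (K.subgroupOf H) where
  acts := by
    obtain ⟨k, hk, w, hw, hne⟩ := ha
    refine ⟨⟨k, hKH hk⟩, hk, fun h => hne ?_⟩
    exact congrArg Subtype.val (LinearMap.congr_fun h ⟨w, hw⟩)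
  fixed V hV hne k hk v hv := by
    by_contra hkv
    apply hne
    have h := hmin (V.map W.subtype) (Submodule.map_subtype_le W V)
      (fun g hg => by
        rintro _ ⟨u, hu, rfl⟩
        exact ⟨_, hV ⟨g, hg⟩ u hu, rfl⟩)
      ⟨k, hk, v, ⟨v, hv, rfl⟩, fun e => hkv (Subtype.ext e)⟩
    refine eq_top_iff.mpr fun u _ => ?_
    have hu : (u : U) ∈ V.map W.subtype := h.symm ▸ u.2
    obtain ⟨u', hu', e⟩ := hu
    rwa [← Subtype.ext e]

theorem card_fixSub_subRep (σ : G →* Module.End F U) {H X : Subgroup G} (hX : X ≤ H)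
    {W : Submodule F U} (hW : ∀ g ∈ H, ∀ w ∈ W, σ g w ∈ W) :
    Nat.card (fixSub (subRep σ H W hW) (X.subgroupOf H)) = Nat.card ↥(fixSub σ X ⊓ W) := by
  refine Nat.card_congr
    { toFun := fun u => ⟨(u.1 : U), fun g hg => congrArg Subtype.val (u.2 ⟨g, hX hg⟩ hg), u.1.2⟩
      invFun := fun u => ⟨⟨u.1, u.2.2⟩, fun g hg => Subtype.ext (u.2.1 g hg)⟩
      left_inv := fun u => rfl
      right_inv := fun u => rfl }

omit [Finite G] in
theorem isBest_inf {σ : G →* Module.End F U} (h : IsBest σ A) (W : Submodule F U) {B : Subgroup G}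
    (hB : B ≤ A) :
    Nat.card B * Nat.card ↥(fixSub σ B ⊓ W) ≤ Nat.card A * Nat.card ↥(fixSub σ A ⊓ W) := by
  have h1 := card_sup_mul_inf (fixSub σ B ⊓ W) (fixSub σ A)
  have h2 : (fixSub σ B ⊓ W) ⊓ fixSub σ A = fixSub σ A ⊓ W :=
    le_antisymm (fun u hu => ⟨hu.2, hu.1.2⟩) fun u hu => ⟨⟨fixSub_anti σ hB hu.1, hu.2⟩, hu.1⟩
  have h3 : Nat.card ↥((fixSub σ B ⊓ W) ⊔ fixSub σ A) ≤ Nat.card (fixSub σ B) :=
    Nat.card_mono (Set.toFinite _) (sup_le inf_le_left (fixSub_anti σ hB) :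
      (fixSub σ B ⊓ W) ⊔ fixSub σ A ≤ fixSub σ B)
  rw [h2] at h1
  refine Nat.le_of_mul_le_mul_right ?_ (Nat.card_pos : 0 < Nat.card (fixSub σ A))
  calc Nat.card B * Nat.card ↥(fixSub σ B ⊓ W) * Nat.card (fixSub σ A)
      ≤ Nat.card B * (Nat.card (fixSub σ B) * Nat.card ↥(fixSub σ A ⊓ W)) := by
        rw [mul_assoc, h1]; gcongr
    _ = meas σ B * Nat.card ↥(fixSub σ A ⊓ W) := by rw [meas, mul_assoc]
    _ ≤ meas σ A * Nat.card ↥(fixSub σ A ⊓ W) := Nat.mul_le_mul_right _ (h B hB)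
    _ = _ := by rw [meas]; ring

theorem isBest_subRep {σ : G →* Module.End F U} (h : IsBest σ A) {H : Subgroup G} (hA : A ≤ H)
    {W : Submodule F U} (hW : ∀ g ∈ H, ∀ w ∈ W, σ g w ∈ W) :
    IsBest (subRep σ H W hW) (A.subgroupOf H) := by
  intro Y hY
  set X := Y.map H.subtype
  have hXA : X ≤ A := by
    rintro _ ⟨y, hy, rfl⟩; exact hY hy
  have hXH : X ≤ H := Subgroup.map_subtype_le Y
  have e : X.subgroupOf H = Y := by
    rw [Subgroup.subgroupOf, Subgroup.comap_map_eq_self_of_injective H.subtype_injective]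
  rw [← e, meas, meas, card_fixSub_subRep σ hXH hW, card_fixSub_subRep σ hA hW,
    Nat.card_congr (Subgroup.subgroupOfEquivOfLe hXH).toEquiv,
    Nat.card_congr (Subgroup.subgroupOfEquivOfLe hA).toEquiv]
  exact isBest_inf h W hXA

/-- The kernel of `σ` on `A` gives the bound `|U| ≤ |σ A| |C_U(A)|`. -/
theorem card_le_of_isBest {σ : G →* Module.End F U} (h : IsBest σ A) :
    Nat.card U ≤ Nat.card (σ '' (A : Set G)) * Nat.card (fixSub σ A) := by
  let K0 : Subgroup G := A ⊓ kill σ 1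
  have hK0 : ∀ b ∈ K0, σ b = 1 := fun b hb => by
    have := hb.2
    simpa [mem_kill] using this
  have hfix : fixSub σ K0 = ⊤ := eq_top_iff.mpr fun u _ b hb => by rw [hK0 b hb]; rfl
  have h1 := h K0 inf_le_left
  rw [meas, meas, hfix, Nat.card_congr (Submodule.topEquiv (R := F) (M := U)).toEquiv] at h1
  have h2 : Nat.card A ≤ Nat.card K0 * Nat.card (σ '' (A : Set G)) := by
    rw [← Nat.card_prod]
    let f : A → (σ '' (A : Set G)) := fun a => ⟨σ a, a, a.2, rfl⟩
    let r : (σ '' (A : Set G)) → A := fun s => ⟨s.2.choose, s.2.choose_spec.1⟩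
    have hr : ∀ s, σ (r s : G) = s.1 := fun s => s.2.choose_spec.2
    refine Nat.card_le_card_of_injective (fun a =>
      (⟨((r (f a) : G))⁻¹ * a, A.mul_mem (A.inv_mem (r (f a)).2) a.2, by
        show σ ((r (f a) : G)⁻¹ * a) * 1 = 1
        rw [mul_one, map_mul, show σ (a : G) = σ (r (f a) : G) from (hr (f a)).symm, sigma_inv_mul]⟩,
        f a) : A → ↥K0 × (σ '' (A : Set G))) ?_
    intro a b hab
    simp only [Prod.mk.injEq] at hab
    have e := congrArg Subtype.val hab.1
    simp only at e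
    rw [show (r (f a) : G) = (r (f b) : G) from congrArg (fun s => (r s : G)) hab.2] at e
    exact Subtype.ext (mul_left_cancel e)
  refine Nat.le_of_mul_le_mul_left ?_ (Nat.card_pos : 0 < Nat.card K0)
  calc Nat.card K0 * Nat.card U ≤ Nat.card A * Nat.card (fixSub σ A) := h1
    _ ≤ Nat.card K0 * Nat.card (σ '' (A : Set G)) * Nat.card (fixSub σ A) :=
        Nat.mul_le_mul_right _ h2
    _ = _ := mul_assoc _ _ _

/-- A commuting family of unipotents with `U = [U, A] + C_U(A)` is trivial. -/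
theorem trivial_of_top_eq (σ : G →* Module.End F U) (hcomm : ∀ a ∈ A, ∀ b ∈ A, a * b = b * a)
    (hnil : ∀ a ∈ A, ∃ i, (σ a - 1) ^ i = 0)
    (h : Submodule.span F {v | ∃ u, ∃ a ∈ A, v = (σ a - 1) u} ⊔ fixSub σ A = ⊤) :
    ∀ a ∈ A, σ a = 1 := by
  by_contra hne
  push_neg at hne
  have hfix : fixSub σ A ≠ ⊤ := fun e => by
    obtain ⟨a, ha, ha1⟩ := hne
    exact ha1 (LinearMap.ext fun u => (show u ∈ fixSub σ A from e ▸ Submodule.mem_top) a ha)
  have hfin : Finite (Submodule F U) := Finite.of_injective (fun W => (W : Set U)) SetLike.coe_injective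
  have hinvfix : ∀ a ∈ A, ∀ w ∈ fixSub σ A, σ a w ∈ fixSub σ A := fun a ha w hw => by
    rw [hw a ha]; exact hw
  obtain ⟨W, ⟨hWfix, hWA, hWtop⟩, hmax⟩ := (Set.toFinite {W : Submodule F U |
    fixSub σ A ≤ W ∧ (∀ a ∈ A, ∀ w ∈ W, σ a w ∈ W) ∧ W ≠ ⊤}).exists_maximal
    ⟨_, le_rfl, hinvfix, hfix⟩
  obtain ⟨u₀, hu₀⟩ : ∃ u, u ∉ W := by
    by_contra hc; push_neg at hc; exact hWtop (eq_top_iff.mpr fun u _ => hc u)
  haveI := Fintype.ofFinite U
  classical
  let good : U → Finset G := fun u => (Set.toFinite {a | a ∈ A ∧ (σ a - 1) u ∈ W}).toFinset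
  obtain ⟨u, hu, humax⟩ := Finset.exists_max_image (Finset.univ.filter (· ∉ W))
    (fun u => (good u).card) ⟨u₀, by simpa using hu₀⟩
  rw [Finset.mem_filter] at hu
  have hall : ∀ a ∈ A, (σ a - 1) u ∈ W := by
    intro a ha
    by_contra hau
    obtain ⟨i, hi⟩ := hnil a ha
    have hex : ∃ i : ℕ, ((σ a - 1 : Module.End F U) ^ i) u ∈ W := ⟨i, by rw [hi]; exact W.zero_mem⟩
    set j := Nat.find hex with hj
    have hj0 : j ≠ 0 := fun e => by
      have := Nat.find_spec hex
      rw [← hj, e, pow_zero] at this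
      exact hu.2 this
    obtain ⟨l, hl⟩ := Nat.exists_eq_succ_of_ne_zero hj0
    set v := ((σ a - 1) ^ l) u
    have hv : v ∉ W := Nat.find_min hex (by omega)
    have hsub : good u ⊂ good v := by
      rw [Finset.ssubset_iff_of_subset]
      · refine ⟨a, ?_, ?_⟩
        · simp only [good, Set.Finite.mem_toFinset, Set.mem_setOf_eq]
          refine ⟨ha, ?_⟩
          rw [← Module.End.mul_apply, ← pow_succ', show l + 1 = j from hl.symm]
          exact Nat.find_spec hex
        · simp only [good, Set.Finite.mem_toFinset, Set.mem_setOf_eq]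
          exact fun h => hau h.2
      · intro c hc
        simp only [good, Set.Finite.mem_toFinset, Set.mem_setOf_eq] at hc ⊢
        refine ⟨hc.1, ?_⟩
        have hcom : Commute (σ c - 1) (σ a - 1) := by
          refine (Commute.sub_left ?_ (Commute.one_left _))
          refine Commute.sub_right ?_ (Commute.one_right _)
          exact (Commute.map (hcomm c hc.1 a ha : Commute c a) σ)
        rw [← Module.End.mul_apply, (hcom.pow_right l).eq, Module.End.mul_apply]
        have hWn : ∀ w ∈ W, (σ a - 1) w ∈ W := fun w hw => W.sub_mem (hWA a ha w hw) hw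
        have hp : ∀ m : ℕ, ((σ a - 1 : Module.End F U) ^ m) ((σ c - 1) u) ∈ W := by
          intro m
          induction m with
          | zero => simpa using hc.2
          | succ m ih => rw [pow_succ', Module.End.mul_apply]; exact hWn _ ih
        exact hp l
    exact absurd (humax v (by simpa using hv)) (not_le.mpr (Finset.card_lt_card hsub))
  have hWu : W ⊔ Submodule.span F {u} = ⊤ := by
    by_contra hne'
    have hmem : W ⊔ Submodule.span F {u} ∈ {W : Submodule F U |
        fixSub σ A ≤ W ∧ (∀ a ∈ A, ∀ w ∈ W, σ a w ∈ W) ∧ W ≠ ⊤} := by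
      refine ⟨hWfix.trans le_sup_left, fun a ha w hw => ?_, hne'⟩
      obtain ⟨w1, hw1, w2, hw2, rfl⟩ := Submodule.mem_sup.mp hw
      obtain ⟨c, rfl⟩ := Submodule.mem_span_singleton.mp hw2
      rw [map_add, map_smul]
      have e : σ a u = (σ a - 1) u + u := by simp
      rw [e, smul_add, ← add_assoc]
      exact Submodule.add_mem_sup (W.add_mem (hWA a ha w1 hw1) (W.smul_mem c (hall a ha)))
        (Submodule.smul_mem _ c (Submodule.mem_span_singleton_self u))
    exact hu.2 (hmax hmem le_sup_left (Submodule.mem_sup_right (Submodule.mem_span_singleton_self u)))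
  apply hWtop
  rw [eq_top_iff, ← h]
  refine sup_le (Submodule.span_le.mpr ?_) hWfix
  rintro _ ⟨z, a, ha, rfl⟩
  have hz : z ∈ W ⊔ Submodule.span F {u} := hWu ▸ Submodule.mem_top
  obtain ⟨w1, hw1, w2, hw2, rfl⟩ := Submodule.mem_sup.mp hz
  obtain ⟨c, rfl⟩ := Submodule.mem_span_singleton.mp hw2
  rw [map_add, map_smul]
  exact W.add_mem (W.sub_mem (hWA a ha w1 hw1) hw1) (W.smul_mem c (hall a ha))

end CfsgLib.PGV
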