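import Cfsg.Agent.PGVTheorem.Two
import Cfsg.Agent.PGVTheorem.Sections

/-!
The P(G,V)-theorem in abstract form.
-/

set_option autoImplicit false

open scoped commutatorElement

namespace CfsgLib.PGV

theorem twice_eq_zero {R : Type*} [Ring R] (h : ((2 : ℕ) : R) = 0) (a : R) : a + a = 0 := by
  rw [← two_mul]
  have : (2 : R) = 0 := by exact_mod_cast h
  rw [this, zero_mul]

theorem subRep_char {G : Type*} [Group G] {F : Type*} [CommRing F] {U : Type*} [AddCommGroup U]
    [Module F U] {p : ℕ} (h : (p : Module.End F U) = 0) (W : Submodule F U) :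
    (p : Module.End F ↥W) = 0 := LinearMap.ext fun w => Subtype.ext (by
  have := LinearMap.congr_fun h (w : U)
  rw [Module.End.natCast_apply, LinearMap.zero_apply] at this
  rw [Module.End.natCast_apply, LinearMap.zero_apply, Submodule.coe_smul_of_tower, this]
  rfl)

variable {G : Type*} [Group G] [Finite G] {F : Type*} [CommRing F] {U : Type*} [AddCommGroup U]
  [Module F U] [Finite U] {p : ℕ} {K A : Subgroup G}

theorem centralizes_all {σ : G →* Module.End F U} {S : Set G} (hS : Subgroup.closure S = ⊤)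
    {T : Module.End F U} (h : ∀ g ∈ S, T * σ g = σ g * T) (g : G) : T * σ g = σ g * T := by
  let N : Subgroup G :=
    { carrier := {g | T * σ g = σ g * T}
      mul_mem' := fun {a b} ha hb => by
        simp only [Set.mem_setOf_eq] at ha hb ⊢
        rw [map_mul, ← mul_assoc, ha, mul_assoc, hb, mul_assoc]
      one_mem' := by simp
      inv_mem' := fun {a} ha => by
        simp only [Set.mem_setOf_eq] at ha ⊢
        calc T * σ a⁻¹ = σ a⁻¹ * (σ a * T) * σ a⁻¹ := by
              rw [← mul_assoc, sigma_inv_mul, one_mul]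
          _ = σ a⁻¹ * T := by rw [← ha, mul_assoc, mul_assoc T, sigma_mul_inv, mul_one] }
  have : Subgroup.closure S ≤ N := (Subgroup.closure_le _).mpr fun s hs => h s hs
  exact this (hS ▸ Subgroup.mem_top g)

theorem centralizes_of_gen {σ : G →* Module.End F U} {X Y : Subgroup G} (hgen : X ⊔ Y = ⊤)
    {T : Module.End F U} (hX : ∀ g ∈ X, T * σ g = σ g * T) (hY : ∀ g ∈ Y, T * σ g = σ g * T) :
    ∀ g, T * σ g = σ g * T :=
  centralizes_all (S := (X : Set G) ∪ Y) (by rw [Subgroup.closure_union, Subgroup.closure_eq, Subgroup.closure_eq, hgen])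
    fun g hg => hg.elim (hX g) (hY g)

theorem moves_subgroupOf {H : Subgroup G} (hK : K ≤ H) (a : ↥H) :
    Moves a (K.subgroupOf H) ↔ Moves (a : G) K := by
  constructor
  · rintro ⟨k, hk, h⟩; exact ⟨k, hk, h⟩
  · rintro ⟨k, hk, h⟩; exact ⟨⟨k, hK hk⟩, hk, h⟩

theorem sq_sub_one {x : G} (C : Ctx 2 K A) (σ : G →* Module.End F U)
    (h2 : ∀ a : Module.End F U, a + a = 0) (hx : x ∈ A) : (σ x - 1) * (σ x - 1) = 0 := by
  have hxx : σ x * σ x = 1 := by rw [← map_mul, ← sq, C.pow x hx, map_one]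
  simp only [sub_mul, mul_sub, one_mul, mul_one, hxx]
  linear_combination (norm := abel) h2 1 - h2 (σ x)

/-- `p = 2` and two conjugates, on a minimal module. -/
theorem two_min (C : Ctx 2 K A) (σ : G →* Module.End F U)
    (hchar : ((2 : ℕ) : Module.End F U) = 0) (M : Minimal σ K) {x : G} (hx : x ∈ A)
    (hm : Moves x K) (B : Subgroup G) (hBA : B ≤ A) (hBK : ∀ b ∈ B, ¬ Moves b K)
    (hgen : K ⊔ (Subgroup.zpowers x ⊔ B) = ⊤)
    (hBx : ∀ b ∈ B, (σ b - 1) * (σ x - 1) = 0)
    (hBB : ∀ a ∈ B, ∀ b ∈ B, (σ a - 1) * (σ b - 1) = 0)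
    (hbound : (∃ b ∈ B, σ b ≠ 1) ∧
        Nat.card U ≤ 2 * Nat.card (fixSub σ B) * Nat.card (σ '' (B : Set G)) ∨
      (∀ b ∈ B, σ b = 1) ∧ Nat.card U ≤ 2 * Nat.card (fixSub σ (Subgroup.zpowers x))) : False := by
  haveI : Fact (Nat.Prime 2) := ⟨Nat.prime_two⟩
  have h2 := twice_eq_zero hchar
  obtain ⟨k0, hk0, hk0ne⟩ := M.acts
  have hnoncomm : ∀ b ∈ B, σ b ≠ 1 → ∃ k ∈ K, σ b * σ k ≠ σ k * σ b := by
    intro b hb hne
    by_contra h
    push_neg at h
    refine hne (M.eq_one C.perfect (centralizes_of_gen hgen h ?_) (hBB b hb b hb))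
    intro g hg
    have : g ∈ A := sup_le (Subgroup.zpowers_le.mpr hx) hBA hg
    rw [← map_mul, ← map_mul, C.comm b (hBA hb) g this]
  -- the diagonal condition
  have hcase' : DTriv 2 σ K x ∧
      ((∃ w, ∀ u, (σ x - 1) u = 0 ∨ (σ x - 1) u = w) ∨
      (∃ b ∈ B, σ b ≠ 1) ∧
        Nat.card U ≤ 2 * Nat.card (fixSub σ B) * Nat.card (σ '' (B : Set G))) := by
    rcases hbound with ⟨⟨b, hb, hb1⟩, hc⟩ | ⟨-, hc⟩
    · obtain ⟨k, hk, hbk⟩ := hnoncomm b hb hb1
      exact ⟨C.dtriv σ hx (hBA hb) hm (hBK b hb)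
        ⟨k, hk, fun e => hbk (by rw [← map_mul, ← map_mul, e])⟩ (hBx b hb),
        Or.inr ⟨⟨b, hb, hb1⟩, hc⟩⟩
    · set n := σ x - 1 with hn
      have hker : LinearMap.ker n = fixSub σ (Subgroup.zpowers x) := by
        ext u
        rw [LinearMap.mem_ker, mem_fixSub, hn, LinearMap.sub_apply, Module.End.one_apply, sub_eq_zero]
        constructor
        · intro h g hg
          obtain ⟨i, rfl⟩ : g ∈ Submonoid.powers x := mem_powers_iff_mem_zpowers.mpr hg
          induction i with
          | zero => simp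
          | succ i ih =>
            simp only [pow_succ, map_mul, Module.End.mul_apply, h] at ih ⊢
            exact ih (Subgroup.pow_mem _ (Subgroup.mem_zpowers x) i)
        · exact fun h => h x (Subgroup.mem_zpowers x)
      have hr : Nat.card n.range ≤ 2 := by
        have h := Submodule.card_eq_card_quotient_mul_card (LinearMap.ker n)
        rw [Nat.card_congr n.quotKerEquivRange.toEquiv, hker] at h
        rw [h] at hc
        refine Nat.le_of_mul_le_mul_right ?_ (Nat.card_pos : 0 < Nat.card (fixSub σ (Subgroup.zpowers x)))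
        linarith
      have htrans : ∀ w ∈ n.range, ∀ w' ∈ n.range, w ≠ 0 → w' ≠ 0 → w = w' := by
        intro w hw w' hw' h h'
        by_contra hne
        let f : Fin 3 → n.range := ![0, ⟨w, hw⟩, ⟨w', hw'⟩]
        have hf : Function.Injective f := by
          intro i j hij
          have hij' := congrArg Subtype.val hij
          fin_cases i <;> fin_cases j <;>
            first
              | rfl
              | simp [f, h, h', hne, Ne.symm h, Ne.symm h', Ne.symm hne] at hij'
        have := Nat.card_le_card_of_injective f hf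
        rw [Nat.card_eq_fintype_card, Fintype.card_fin] at this
        omega
      constructor
      · intro k hk
        rw [← hn]
        refine LinearMap.ext fun u => ?_
        rw [Module.End.mul_apply]
        have hd : σ (diag 2 x k) (n u) = n (σ (diag 2 x k) u) := by
          rw [← Module.End.mul_apply, ← Module.End.mul_apply]
          congr 1
          rw [hn, mul_sub, sub_mul, mul_one, one_mul, ← map_mul, ← map_mul,
            (C.diag_comm_x hx hm hk).eq]
        by_cases h0 : n u = 0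
        · rw [h0, map_zero]
        · have hne : n (σ (diag 2 x k) u) ≠ 0 := by
            rw [← hd]
            intro e
            apply h0
            have := congrArg (σ (diag 2 x k)⁻¹) e
            rwa [map_zero, ← Module.End.mul_apply, sigma_inv_mul, Module.End.one_apply] at this
          rw [hd]
          exact htrans _ ⟨_, rfl⟩ _ ⟨_, rfl⟩ hne h0
      · left
        by_cases h0 : ∀ u, n u = 0
        · exact ⟨0, fun u => Or.inl (h0 u)⟩
        · push_neg at h0
          obtain ⟨u0, hu0⟩ := h0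
          refine ⟨n u0, fun u => ?_⟩
          by_cases hu : n u = 0
          · exact Or.inl hu
          · exact Or.inr (htrans _ ⟨_, rfl⟩ _ ⟨_, rfl⟩ hu hu0)
  obtain ⟨hD, hcase⟩ := hcase'
  -- an irreducible quotient
  have hfin : Finite (Submodule F U) := Finite.of_injective (fun W => (W : Set U)) SetLike.coe_injective
  obtain ⟨W, ⟨hWi, hWtop⟩, hmax⟩ := (Set.toFinite {W : Submodule F U |
    (∀ g, ∀ w ∈ W, σ g w ∈ W) ∧ W ≠ ⊤}).exists_maximal
    ⟨⊥, fun g w hw => by simp only [Submodule.mem_bot] at hw ⊢; rw [hw, map_zero],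
      fun e => hk0ne (LinearMap.ext fun u => by
        have : u ∈ (⊥ : Submodule F U) := e ▸ Submodule.mem_top
        rw [Submodule.mem_bot] at this
        rw [this, map_zero, map_zero])⟩
  have hWfix := M.fixed W hWi hWtop
  let σQ := quotRep σ W hWi
  have hKQ : ∃ k ∈ K, σQ k ≠ 1 := by
    by_contra h
    push_neg at h
    have h1 : ∀ k ∈ K, ∀ u, σ k u - u ∈ W := fun k hk u => by
      rw [← Submodule.Quotient.eq]
      exact LinearMap.congr_fun (h k hk) (Submodule.Quotient.mk u)
    have := perfect_kill σ C.perfect (Z := 1) (fun f hf g hg => by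
      rw [mul_one]; exact LinearMap.ext fun u => hWfix f hf _ (h1 g hg u)) k0 hk0
    rw [mul_one] at this
    exact hk0ne this
  have hQnc : ∀ b ∈ B, σ b ≠ 1 → ∃ k ∈ K, σQ b * σQ k ≠ σQ k * σQ b := by
    intro b hb hne
    obtain ⟨k, hk, hbk⟩ := hnoncomm b hb hne
    by_contra h
    push_neg at h
    obtain ⟨c, hc, hnc⟩ := C.exists_twist_noncentral (hBK b hb)
      ⟨k, hk, fun e => hbk (by rw [← map_mul, ← map_mul, e])⟩
    obtain ⟨k', hk', hne'⟩ := hKQ
    refine hne' ?_
    have := C.kill_all σQ (Z := 1) (fun _ _ => by simp)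
      (K.mul_mem (K.inv_mem hc) (not_moves (hBK b hb) hc)) hnc (by
        rw [mul_one, map_mul, sigma_conj, h c hc, mul_assoc (σQ c), sigma_mul_inv, mul_one,
          sigma_inv_mul]) k' hk'
    rwa [mul_one] at this
  have hQfin : Finite (U ⧸ W) := Finite.of_surjective _ (Submodule.mkQ_surjective W)
  have hQchar : ∀ a : Module.End F (U ⧸ W), a + a = 0 := fun a => LinearMap.ext fun q => by
    obtain ⟨u, hu⟩ := Submodule.Quotient.mk_surjective W (a q)
    rw [LinearMap.add_apply, ← hu, ← Submodule.Quotient.mk_add,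
      show u + u = 0 from LinearMap.congr_fun (h2 1) u]
    rfl
  have hlift : ∀ a b : G, (σ a - 1) * (σ b - 1) = 0 → (σQ a - 1) * (σQ b - 1) = 0 := by
    intro a b h
    refine LinearMap.ext fun q => ?_
    obtain ⟨u, rfl⟩ := Submodule.Quotient.mk_surjective W q
    have := congrArg (Submodule.Quotient.mk (p := W)) (LinearMap.congr_fun h u)
    simpa [σQ, quotRep_apply] using this
  refine two_contra C σQ hQchar hx hm B hBA hBK ?_ hKQ ?_ (fun b hb => hlift _ _ (hBx b hb))
    (fun a ha b hb => hlift _ _ (hBB a ha b hb)) ?_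
  · intro W' hk hxW hb
    have hinv : ∀ g, ∀ w ∈ W', σQ g w ∈ W' := by
      have hsub : K ⊔ (Subgroup.zpowers x ⊔ B) ≤ stab σQ W' :=
        sup_le (fun g hg => hk g hg) (sup_le (Subgroup.zpowers_le.mpr hxW) (fun g hg => hb g hg))
      rw [hgen] at hsub
      exact fun g => hsub (Subgroup.mem_top g)
    by_cases ht : W'.comap W.mkQ = ⊤
    · refine Or.inr (eq_top_iff.mpr fun q _ => ?_)
      obtain ⟨u, rfl⟩ := Submodule.Quotient.mk_surjective W q
      exact (show u ∈ W'.comap W.mkQ from ht ▸ Submodule.mem_top)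
    · refine Or.inl ((Submodule.eq_bot_iff _).mpr fun q hq => ?_)
      obtain ⟨u, rfl⟩ := Submodule.Quotient.mk_surjective W q
      rw [Submodule.Quotient.mk_eq_zero]
      exact hmax ⟨fun g w hw => hinv g _ hw, ht⟩
        (fun w hw => by
          show Submodule.Quotient.mk w ∈ W'
          rw [(Submodule.Quotient.mk_eq_zero W).mpr hw]; exact W'.zero_mem) hq
  · intro k hk
    refine LinearMap.ext fun q => ?_
    obtain ⟨u, rfl⟩ := Submodule.Quotient.mk_surjective W q
    have := congrArg (Submodule.Quotient.mk (p := W)) (LinearMap.congr_fun (hD k hk) u)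
    simpa [σQ, quotRep_apply] using this
  · rcases hcase with ⟨w, hw⟩ | ⟨⟨b, hb, hb1⟩, hc⟩
    · refine Or.inl ⟨Submodule.Quotient.mk w, fun q => ?_⟩
      obtain ⟨u, rfl⟩ := Submodule.Quotient.mk_surjective W q
      have e : (σQ x - 1) (Submodule.Quotient.mk u) = Submodule.Quotient.mk ((σ x - 1) u) := by
        simp [σQ, quotRep_apply]
      rw [e]
      rcases hw u with h | h
      · exact Or.inl (by rw [h]; rfl)
      · exact Or.inr (by rw [h])
    · refine Or.inr ⟨⟨b, hb, hQnc b hb hb1⟩, ?_⟩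
      have hinj : Nat.card (σ '' (B : Set G)) ≤ Nat.card (σQ '' (B : Set G)) := by
        haveI : Finite (Module.End F (U ⧸ W)) :=
          Finite.of_injective (fun f => (f : (U ⧸ W) → (U ⧸ W))) DFunLike.coe_injective
        let f : σ '' (B : Set G) → σQ '' (B : Set G) := fun s =>
          ⟨σQ s.2.choose, _, s.2.choose_spec.1, rfl⟩
        refine Nat.card_le_card_of_injective f fun s t hst => Subtype.ext ?_
        rw [← s.2.choose_spec.2, ← t.2.choose_spec.2]
        set a := s.2.choose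
        set c := t.2.choose
        have ha : a ∈ B := s.2.choose_spec.1
        have hc' : c ∈ B := t.2.choose_spec.1
        have hac : σQ a = σQ c := congrArg Subtype.val hst
        have h1 : σ (c⁻¹ * a) = 1 := by
          by_contra hne
          obtain ⟨k, -, hk⟩ := hQnc _ (B.mul_mem (B.inv_mem hc') ha) hne
          apply hk
          rw [map_mul, hac, sigma_inv_mul, one_mul, mul_one]
        calc σ a = σ c * σ (c⁻¹ * a) := by rw [← map_mul, mul_inv_cancel_left]
          _ = σ c := by rw [h1, mul_one]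
      have hQ : Nat.card U = Nat.card (U ⧸ W) * Nat.card W :=
        Submodule.card_eq_card_quotient_mul_card W |>.trans (by ring)
      have hfix : Nat.card (fixSub σ B) ≤ Nat.card {q : U ⧸ W // ∀ b ∈ B, σQ b q = q} * Nat.card W := by
        let g : fixSub σ B → {q : U ⧸ W // ∀ b ∈ B, σQ b q = q} := fun u =>
          ⟨Submodule.Quotient.mk u.1, fun b hb => by
            rw [quotRep_apply, u.2 b hb]⟩
        let r : {q : U ⧸ W // ∀ b ∈ B, σQ b q = q} → U := fun q =>
          Function.surjInv (Submodule.Quotient.mk_surjective W) q.1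
        rw [← Nat.card_prod]
        refine Nat.card_le_card_of_injective (fun u => (g u, ⟨(u : U) - r (g u), ?_⟩)) ?_
        · rw [← Submodule.Quotient.eq]
          exact (Function.surjInv_eq (Submodule.Quotient.mk_surjective W) (g u).1).symm
        · intro u v h
          simp only [Prod.mk.injEq] at h
          have e := congrArg Subtype.val h.2
          simp only at e
          rw [h.1] at e
          exact Subtype.ext (sub_left_injective e)
      refine Nat.le_of_mul_le_mul_right ?_ (Nat.card_pos : 0 < Nat.card W)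
      calc Nat.card (U ⧸ W) * Nat.card W = Nat.card U := hQ.symm
        _ ≤ 2 * Nat.card (fixSub σ B) * Nat.card (σ '' (B : Set G)) := hc
        _ ≤ 2 * (Nat.card {q : U ⧸ W // ∀ b ∈ B, σQ b q = q} * Nat.card W) *
              Nat.card (σQ '' (B : Set G)) := by gcongr
        _ = _ := by ring

/-- The subgroup of the elements of `A` not moving `K`. -/
noncomputable def still (K A : Subgroup G) : Subgroup G where
  carrier := {a | a ∈ A ∧ ¬ Moves a K}
  mul_mem' {a b} ha hb := ⟨A.mul_mem ha.1 hb.1, fun ⟨k, hk, h⟩ => h (by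
    have := not_moves ha.2 (not_moves hb.2 hk)
    simpa [mul_assoc] using this)⟩
  one_mem' := ⟨A.one_mem, fun ⟨k, hk, h⟩ => h (by simpa using hk)⟩
  inv_mem' {a} ha := by
    have hp : ∀ i : ℕ, ∀ k ∈ K, a ^ i * k * (a ^ i)⁻¹ ∈ K := by
      intro i
      induction i with
      | zero => intro k hk; simpa using hk
      | succ i ih =>
        intro k hk
        have := ih _ (not_moves ha.2 hk)
        rw [pow_succ, mul_inv_rev]
        simpa only [mul_assoc] using this
    have e : a⁻¹ = a ^ (orderOf a - 1) :=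
      (eq_inv_of_mul_eq_one_left (by
        rw [← pow_succ, Nat.sub_add_cancel (orderOf_pos a), pow_orderOf_eq_one])).symm
    exact ⟨A.inv_mem ha.1, fun ⟨k, hk, h⟩ => h (by rw [e]; exact hp _ k hk)⟩

theorem gen_subgroupOf {x : G} {B H : Subgroup G} (hH : K ⊔ (Subgroup.zpowers x ⊔ B) = H)
    (hx : x ∈ H) :
    K.subgroupOf H ⊔ (Subgroup.zpowers (⟨x, hx⟩ : ↥H) ⊔ B.subgroupOf H) = ⊤ := by
  have hK : K ≤ H := hH ▸ le_sup_left
  have hB : B ≤ H := hH ▸ le_sup_right.trans le_sup_right
  apply Subgroup.map_injective H.subtype_injective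
  rw [Subgroup.map_sup, Subgroup.map_sup, Subgroup.map_subgroupOf_eq_of_le hK,
    Subgroup.map_subgroupOf_eq_of_le hB, MonoidHom.map_zpowers, ← MonoidHom.range_eq_map,
    Subgroup.range_subtype]
  exact hH

theorem card_image_le_two {σ : G →* Module.End F U} {x : G} {A₀ : Subgroup G}
    (h : ∀ a ∈ A, a ∈ A₀ ∨ x * a ∈ A₀) (hxx : x * x = 1) :
    Nat.card (σ '' (A : Set G)) ≤ 2 * Nat.card (σ '' (A₀ : Set G)) := by
  have hsub : σ '' (A : Set G) ⊆ σ '' (A₀ : Set G) ∪ (fun T => σ x * T) '' (σ '' (A₀ : Set G)) := by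
    rintro _ ⟨a, ha, rfl⟩
    rcases h a ha with h' | h'
    · exact Or.inl ⟨a, h', rfl⟩
    · refine Or.inr ⟨_, ⟨_, h', rfl⟩, ?_⟩
      show σ x * σ (x * a) = σ a
      rw [← map_mul, ← mul_assoc, hxx, one_mul]
  have hf : ∀ S : Set G, (σ '' S).Finite := fun S => (Set.toFinite S).image σ
  rw [Nat.card_coe_set_eq, Nat.card_coe_set_eq]
  calc (σ '' (A : Set G)).ncard
      ≤ (σ '' (A₀ : Set G) ∪ (fun T => σ x * T) '' (σ '' (A₀ : Set G))).ncard :=
        Set.ncard_le_ncard hsub ((hf _).union ((hf _).image _))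
    _ ≤ (σ '' (A₀ : Set G)).ncard + ((fun T => σ x * T) '' (σ '' (A₀ : Set G))).ncard :=
        Set.ncard_union_le _ _
    _ ≤ (σ '' (A₀ : Set G)).ncard + (σ '' (A₀ : Set G)).ncard :=
        Nat.add_le_add_left (Set.ncard_image_le (hf _)) _
    _ = _ := (two_mul _).symm

/-- A quadratic best offender does not move `K`. -/
theorem quad_case [Fact p.Prime] (C : Ctx p K A) (σ : G →* Module.End F U)
    (hchar : (p : Module.End F U) = 0) (hbest : IsBest σ A)
    (hq : ∀ a ∈ A, ∀ b ∈ A, (σ a - 1) * (σ b - 1) = 0)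
    (hm : ∃ a ∈ A, Moves a K) (hK : ∃ k ∈ K, σ k ≠ 1) : False := by
  obtain ⟨x, hx, hmx⟩ := hm
  obtain ⟨k0, hk0, hk0ne⟩ := hK
  rcases eq_or_ne p 2 with rfl | hp
  swap
  · exact hk0ne (quad_odd C hp σ hchar hx hmx (hq x hx x hx) k0 hk0)
  by_cases h4 : ∃ y ∈ A, Moves y K ∧ Moves (x * y) K
  · obtain ⟨y, hy, hmy, hmxy⟩ := h4
    exact hk0ne (quad_four C σ hchar hx hy hmx hmy hmxy hq k0 hk0)
  push_neg at h4
  have hdich : ∀ a ∈ A, a ∈ still K A ∨ x * a ∈ still K A := fun a ha => by
    by_cases h : Moves a K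
    · exact Or.inr ⟨A.mul_mem hx ha, h4 a ha h⟩
    · exact Or.inl ⟨ha, h⟩
  have hxx : x * x = 1 := by rw [← sq]; exact C.pow x hx
  set H := K ⊔ (Subgroup.zpowers x ⊔ still K A) with hH
  have hKH : K ≤ H := le_sup_left
  have hAH : A ≤ H := fun a ha => by
    rcases hdich a ha with h | h
    · exact le_sup_right (α := Subgroup G) (le_sup_right (α := Subgroup G) h)
    · have hx' : x ∈ H := le_sup_right (α := Subgroup G)
        (le_sup_left (α := Subgroup G) (Subgroup.mem_zpowers x))
      have h' : x * a ∈ H := le_sup_right (α := Subgroup G) (le_sup_right (α := Subgroup G) h)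
      have := H.mul_mem hx' h'
      rwa [← mul_assoc, hxx, one_mul] at this
  have hxH : x ∈ H := hAH hx
  obtain ⟨W, -, hWH, hWa, hWmin⟩ := exists_minimal (K := K) σ H (W₀ := ⊤)
    (fun g _ w _ => Submodule.mem_top) (actsOn_top.mpr ⟨k0, hk0, hk0ne⟩)
  set σ' := subRep σ H W (fun _ hg => hWH hg) with hσ'
  have hb := card_le_of_isBest (isBest_subRep hbest hAH (fun _ hg => hWH hg) : IsBest σ' _)
  have him : Nat.card (σ' '' ((A.subgroupOf H : Subgroup ↥H) : Set ↥H)) ≤
      2 * Nat.card (σ' '' (((still K A).subgroupOf H : Subgroup ↥H) : Set ↥H)) :=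
    card_image_le_two (x := (⟨x, hxH⟩ : ↥H)) (fun a ha => hdich a ha) (Subtype.ext hxx)
  have hlift : ∀ a ∈ A.subgroupOf H, ∀ b ∈ A.subgroupOf H, (σ' a - 1) * (σ' b - 1) = 0 :=
    fun a ha b hb => LinearMap.ext fun w => Subtype.ext (by
      have := LinearMap.congr_fun (hq _ ha _ hb) (w : U)
      simp [hσ', subRep_apply] at this ⊢
      exact this)
  have hBA : (still K A).subgroupOf H ≤ A.subgroupOf H := fun b hb => hb.1
  refine two_min (C.restrict hKH) σ' (subRep_char (G := G) hchar W)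
    (minimal_subRep σ hKH hWH hWa hWmin) (x := ⟨x, hxH⟩) hx ((moves_subgroupOf hKH _).mpr hmx)
    ((still K A).subgroupOf H) hBA (fun b hb h => hb.2 ((moves_subgroupOf hKH b).mp h))
    (gen_subgroupOf hH.symm hxH) (fun b hb => hlift b (hBA hb) _ hx)
    (fun a ha b hb => hlift a (hBA ha) b (hBA hb)) ?_
  by_cases hne : ∃ b ∈ (still K A).subgroupOf H, σ' b ≠ 1
  · refine Or.inl ⟨hne, hb.trans ?_⟩
    calc _ ≤ (2 * Nat.card (σ' '' (((still K A).subgroupOf H : Subgroup ↥H) : Set ↥H))) *
          Nat.card (fixSub σ' ((still K A).subgroupOf H)) :=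
        Nat.mul_le_mul him (Nat.card_mono (Set.toFinite _)
          (fixSub_anti σ' hBA : fixSub σ' (A.subgroupOf H) ≤ _))
      _ = _ := by ring
  · push_neg at hne
    refine Or.inr ⟨hne, hb.trans ?_⟩
    have h1 : Nat.card (σ' '' (((still K A).subgroupOf H : Subgroup ↥H) : Set ↥H)) ≤ 1 := by
      rw [Nat.card_coe_set_eq]
      refine (Set.ncard_le_ncard (t := {1}) ?_ (Set.finite_singleton _)).trans_eq (Set.ncard_singleton _)
      rintro _ ⟨b, hb, rfl⟩
      exact hne b hb
    refine Nat.mul_le_mul (him.trans (by omega)) (Nat.card_mono (Set.toFinite _) ?_)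
    exact (fixSub_anti σ' (Subgroup.zpowers_le.mpr hx) :
      fixSub σ' (A.subgroupOf H) ≤ fixSub σ' (Subgroup.zpowers (⟨x, hxH⟩ : ↥H)))

theorem pow_prime_eq_zero [Fact p.Prime] (C : Ctx p K A) (σ : G →* Module.End F U)
    (hchar : (p : Module.End F U) = 0) {a : G} (ha : a ∈ A) : ∃ i, (σ a - 1) ^ i = 0 := by
  by_cases hU : Nontrivial (Module.End F U)
  swap
  · rw [not_nontrivial_iff_subsingleton] at hU
    exact ⟨1, Subsingleton.elim _ _⟩
  haveI := (CharP.charP_iff_prime_eq_zero (R := Module.End F U) (Fact.out : p.Prime)).mpr hchar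
  refine ⟨p ^ 1, ?_⟩
  rw [sub_pow_char_pow_of_commute p 1 (Commute.one_right (σ a)), pow_one, one_pow, ← map_pow,
    C.pow a ha, map_one, sub_self]

/-- The theorem on a minimal module. -/
theorem main_min [Fact p.Prime] (C : Ctx p K A) (σ : G →* Module.End F U)
    (hchar : (p : Module.End F U) = 0) (M : Minimal σ K) (hgen : K ⊔ A = ⊤)
    (hbest : IsBest σ A) (hm : ∃ a ∈ A, Moves a K) : False := by
  obtain ⟨hBm, hBfix⟩ := replacement hbest C.comm
  set B := killSub σ A Set.univ with hB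
  have hBA : B ≤ A := fun b hb => hb.1
  have hBa : ∀ b ∈ B, ∀ a ∈ A, (σ b - 1) * (σ a - 1) = 0 := fun b hb a ha => LinearMap.ext fun u => by
    have := hb.2 u (Set.mem_univ u) a ha
    rw [Module.End.mul_apply, LinearMap.sub_apply, Module.End.one_apply, LinearMap.zero_apply,
      sub_eq_zero]
    exact this
  have hBbest : IsBest σ B := fun X hX => by
    rw [hBm]; exact hbest X (hX.trans hBA)
  by_cases hBmv : ∃ b ∈ B, Moves b K
  · exact quad_case (C.mono hBA) σ hchar hBbest (fun a ha b hb => hBa a ha b (hBA hb)) hBmv M.acts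
  push_neg at hBmv
  obtain ⟨x, hx, hmx⟩ := hm
  -- some element of `B` acts nontrivially
  obtain ⟨b0, hb0, hb01⟩ : ∃ b ∈ B, σ b ≠ 1 := by
    by_contra h
    push_neg at h
    have hfix : fixSub σ B = ⊤ := eq_top_iff.mpr fun u _ b hb => by rw [h b hb]; rfl
    rw [hfix] at hBfix
    have htriv := trivial_of_top_eq σ C.comm (fun a ha => pow_prime_eq_zero C σ hchar ha) hBfix.symm
    obtain ⟨k, hk, hk1⟩ := M.acts
    refine hk1 (perfect_abelian σ C.perfect (fun f hf g hg => ?_) k hk)
    have := ((C.disj x hx hmx f hf g hg).map σ).eq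
    rwa [sigma_conj, htriv x hx, htriv x⁻¹ (A.inv_mem hx), one_mul, mul_one] at this
  have hne : ∃ k ∈ K, b0 * k ≠ k * b0 := by
    by_contra h
    push_neg at h
    refine hb01 (M.eq_one C.perfect (centralizes_of_gen hgen (fun g hg => ?_) (fun g hg => ?_))
      (hBa b0 hb0 b0 (hBA hb0)))
    · rw [← map_mul, ← map_mul, h g hg]
    · rw [← map_mul, ← map_mul, C.comm b0 (hBA hb0) g hg]
  have hD : ∀ a ∈ A, Moves a K → DTriv p σ K a := fun a ha hma =>
    C.dtriv σ ha (hBA hb0) hma (hBmv b0 hb0) hne (hBa b0 hb0 a ha)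
  obtain ⟨k0, hk0, hk0ne⟩ := M.acts
  rcases eq_or_ne p 2 with rfl | hp
  swap
  · exact hk0ne (final_ann C σ hx hmx (hD x hx hmx)
      (fun j hj hjp => pair_odd C hp σ hx hmx (hD x hx hmx) M.acts hj hjp) k0 hk0)
  by_cases h4 : ∃ y ∈ A, Moves y K ∧ Moves (x * y) K
  · obtain ⟨y, hy, hmy, hmxy⟩ := h4
    have hyy : y * y = 1 := by rw [← sq]; exact C.pow y hy
    have e : y * (x * y) = x := by rw [C.comm x hx y hy, ← mul_assoc, hyy, one_mul]
    have := pair_four C σ hy (A.mul_mem hx hy) hmy hmxy (by rw [e]; exact hmx) (hD y hy hmy) M.acts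
    rw [e] at this
    refine hk0ne (final_ann C σ hx hmx (hD x hx hmx) (fun j hj hj2 => ?_) k0 hk0)
    obtain rfl : j = 1 := by omega
    exact this
  push_neg at h4
  have hxx : x * x = 1 := by rw [← sq]; exact C.pow x hx
  set H := K ⊔ (Subgroup.zpowers x ⊔ B) with hH
  have hKH : K ≤ H := le_sup_left
  have hxH : x ∈ H := le_sup_right (α := Subgroup G)
    (le_sup_left (α := Subgroup G) (Subgroup.mem_zpowers x))
  have hBH : B ≤ H := le_sup_right.trans le_sup_right
  obtain ⟨W, -, hWH, hWa, hWmin⟩ := exists_minimal (K := K) σ H (W₀ := ⊤)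
    (fun g _ w _ => Submodule.mem_top) (actsOn_top.mpr ⟨k0, hk0, hk0ne⟩)
  -- `B` acts nontrivially on `W`
  obtain ⟨b1, hb1, w1, hw1, hbw⟩ : ∃ b ∈ B, ∃ w ∈ W, σ b w ≠ w := by
    by_contra h
    push_neg at h
    let T : Submodule F U := Submodule.span F {v | ∃ a ∈ A, ∃ w ∈ W, v = σ a w}
    have hWT : W ≤ T := fun w hw =>
      Submodule.subset_span ⟨1, A.one_mem, w, hw, by simp⟩
    have hTgen : ∀ g : G, (∀ a ∈ A, ∀ w ∈ W, σ g (σ a w) ∈ T) → g ∈ stab σ T := by
      intro g hg
      have : T ≤ T.comap (σ g) := Submodule.span_le.mpr (by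
        rintro _ ⟨a, ha, w, hw, rfl⟩; exact hg a ha w hw)
      exact fun w hw => this hw
    have hAT : A ≤ stab σ T := fun c hc => hTgen c fun a ha w hw =>
      Submodule.subset_span ⟨c * a, A.mul_mem hc ha, w, hw, by rw [map_mul]; rfl⟩
    have hKT : K ≤ stab σ T := fun k hk => hTgen k fun a ha w hw => by
      have hmem : a⁻¹ * k * a ∈ H := by
        by_cases hma : Moves a⁻¹ K
        · have h' := not_moves (h4 a⁻¹ (A.inv_mem ha) hma) hk
          have e : a⁻¹ * k * a = x⁻¹ * (x * a⁻¹ * k * (x * a⁻¹)⁻¹) * x := by group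
          rw [e]
          exact H.mul_mem (H.mul_mem (H.inv_mem hxH) (hKH h')) hxH
        · have h' := not_moves hma hk
          rw [inv_inv] at h'
          exact hKH h'
      refine Submodule.subset_span ⟨a, ha, _, hWH hmem w hw, ?_⟩
      rw [← Module.End.mul_apply, ← Module.End.mul_apply, ← map_mul, ← map_mul]
      congr 2
      group
    have hinv : ∀ g, ∀ w ∈ T, σ g w ∈ T := by
      have : K ⊔ A ≤ stab σ T := sup_le hKT hAT
      rw [hgen] at this
      exact fun g => this (Subgroup.mem_top g)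
    have hTtop : T = ⊤ := by
      by_contra hT
      obtain ⟨k, hk, w, hw, hne⟩ := hWa
      exact hne (M.fixed T hinv hT k hk w (hWT hw))
    have hTfix : T ≤ fixSub σ B := Submodule.span_le.mpr (by
      rintro _ ⟨a, ha, w, hw, rfl⟩ b hb
      rw [← Module.End.mul_apply, ← map_mul, C.comm b (hBA hb) a ha, map_mul, Module.End.mul_apply,
        h b hb w hw])
    exact hb01 (LinearMap.ext fun u => hTfix (hTtop ▸ Submodule.mem_top) b0 hb0)
  set σ' := subRep σ H W (fun _ hg => hWH hg) with hσ'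
  have hb := card_le_of_isBest (isBest_subRep hBbest hBH (fun _ hg => hWH hg) : IsBest σ' _)
  have hlift : ∀ a : ↥H, ∀ b : ↥H, (σ (a : G) - 1) * (σ (b : G) - 1) = 0 →
      (σ' a - 1) * (σ' b - 1) = 0 :=
    fun a b hab => LinearMap.ext fun w => Subtype.ext (by
      have := LinearMap.congr_fun hab (w : U)
      simp [hσ', subRep_apply] at this ⊢
      exact this)
  refine two_min (C.restrict hKH) σ' (subRep_char (G := G) hchar W)
    (minimal_subRep σ hKH hWH hWa hWmin) (x := ⟨x, hxH⟩) hx ((moves_subgroupOf hKH _).mpr hmx)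
    (B.subgroupOf H) (fun b hb => hBA hb) (fun b hb h => hBmv b hb ((moves_subgroupOf hKH b).mp h))
    (gen_subgroupOf hH.symm hxH) (fun b hb => hlift b _ (hBa b hb x hx))
    (fun a ha b hb => hlift a b (hBa a ha b (hBA hb))) (Or.inl ⟨⟨⟨b1, hBH hb1⟩, hb1, fun e => ?_⟩, ?_⟩)
  · exact hbw (congrArg Subtype.val (LinearMap.congr_fun e ⟨w1, hw1⟩))
  · calc Nat.card ↥W ≤ _ := hb
      _ ≤ 2 * (Nat.card (σ' '' ((B.subgroupOf H : Subgroup ↥H) : Set ↥H)) *
          Nat.card (fixSub σ' (B.subgroupOf H))) := Nat.le_mul_of_pos_left _ (by norm_num)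
      _ = _ := by ring

/-- The abstract P(G,V)-theorem. -/
theorem main [Fact p.Prime] (C : Ctx p K A) (σ : G →* Module.End F U)
    (hchar : (p : Module.End F U) = 0) (hbest : IsBest σ A) (hK : ∃ k ∈ K, σ k ≠ 1) :
    ∀ a ∈ A, ¬ Moves a K := by
  intro a ha hma
  obtain ⟨W, -, hWH, hWa, hWmin⟩ := exists_minimal (K := K) σ (K ⊔ A) (W₀ := ⊤)
    (fun g _ w _ => Submodule.mem_top) (actsOn_top.mpr hK)
  have hKH : K ≤ K ⊔ A := le_sup_left
  have hAH : A ≤ K ⊔ A := le_sup_right
  refine main_min (C.restrict hKH) (subRep σ (K ⊔ A) W fun _ hg => hWH hg)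
    (subRep_char (G := G) hchar W) (minimal_subRep σ hKH hWH hWa hWmin) ?_
    (isBest_subRep hbest hAH _) ⟨⟨a, hAH ha⟩, ha, (moves_subgroupOf hKH _).mpr hma⟩
  rw [← Subgroup.subgroupOf_sup hKH hAH, Subgroup.subgroupOf_self]

end CfsgLib.PGV
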