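import Cfsg.Agent.PGVTheorem.Quadratic

/-!
The diagonal `d k = k · (x k x⁻¹) ⋯` of a moved subgroup: when it centralizes `[U, x]` and the
conjugates annihilate one another, the action is trivial.
-/

set_option autoImplicit false

open scoped commutatorElement

namespace CfsgLib.PGV

variable {G : Type*} [Group G]

/-- The `i`-th conjugate under `x`. -/
def cnj (x : G) (i : ℕ) (k : G) : G := x ^ i * k * (x ^ i)⁻¹

/-- The product of the conjugates number `1` to `i`. -/
def rest (x : G) (k : G) : ℕ → G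
  | 0 => 1
  | i + 1 => rest x k i * cnj x (i + 1) k

/-- The diagonal element. -/
def diag (p : ℕ) (x k : G) : G := k * rest x k (p - 1)

theorem cnj_zero (x k : G) : cnj x 0 k = k := by simp [cnj]

theorem cnj_mul (x : G) (i : ℕ) (k l : G) : cnj x i (k * l) = cnj x i k * cnj x i l := by
  simp only [cnj]; group

theorem cnj_add (x : G) (i j : ℕ) (k : G) :
    cnj x (i + j) k = x ^ i * cnj x j k * (x ^ i)⁻¹ := by
  simp only [cnj, pow_add]; group

theorem conj_cnj_one (x k : G) (i : ℕ) : x * cnj x i k * x⁻¹ = cnj x (i + 1) k := by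
  simp only [cnj, pow_succ']; group

theorem rest_conj (x k : G) : ∀ i, cnj x 1 k * (x * rest x k i * x⁻¹) = rest x k (i + 1)
  | 0 => by simp [rest]
  | i + 1 => by
    have ih := rest_conj x k i
    calc cnj x 1 k * (x * (rest x k i * cnj x (i + 1) k) * x⁻¹)
        = cnj x 1 k * (x * rest x k i * x⁻¹) * (x * cnj x (i + 1) k * x⁻¹) := by group
      _ = rest x k (i + 1 + 1) := by rw [ih, conj_cnj_one]; rfl

theorem rest_of_commute {x b : G} (hb : Commute b x) (k : G) :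
    ∀ i, rest x (b * k * b⁻¹) i = b * rest x k i * b⁻¹
  | 0 => by simp [rest]
  | i + 1 => by
    have h1 : cnj x (i + 1) (b * k * b⁻¹) = b * cnj x (i + 1) k * b⁻¹ := by
      have hc := (hb.pow_right (i + 1)).eq
      have hc' := ((hb.pow_right (i + 1)).inv_right.inv_left).eq
      simp only [cnj]
      calc x ^ (i + 1) * (b * k * b⁻¹) * (x ^ (i + 1))⁻¹
          = (x ^ (i + 1) * b) * k * (b⁻¹ * (x ^ (i + 1))⁻¹) := by simp only [mul_assoc]
        _ = (b * x ^ (i + 1)) * k * ((x ^ (i + 1))⁻¹ * b⁻¹) := by rw [hc, hc']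
        _ = _ := by simp only [mul_assoc]
    simp only [rest]
    rw [rest_of_commute hb k i, h1]; group

variable {p : ℕ} [Fact p.Prime] {K A : Subgroup G} {x : G}

theorem Ctx.cnj_comm (C : Ctx p K A) (hx : x ∈ A) (hm : Moves x K) {i : ℕ} (hi : 0 < i)
    (hip : i < p) {g k : G} (hg : g ∈ K) (hk : k ∈ K) : Commute g (cnj x i k) :=
  C.disj _ (A.pow_mem hx i) (C.moves_pow hx hm hi hip) g hg k hk

theorem Ctx.cnj_cnj_comm (C : Ctx p K A) (hx : x ∈ A) (hm : Moves x K) {i j : ℕ} (hij : i < j)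
    (hjp : j < p) {g k : G} (hg : g ∈ K) (hk : k ∈ K) : Commute (cnj x i g) (cnj x j k) := by
  have := (C.cnj_comm hx hm (Nat.sub_pos_of_lt hij) (by omega) hg hk).map
    (MulAut.conj (x ^ i)).toMonoidHom
  simp only [MulEquiv.coe_toMonoidHom, MulAut.conj_apply] at this
  rwa [← cnj_add, Nat.add_sub_cancel' hij.le] at this

theorem Ctx.rest_comm (C : Ctx p K A) (hx : x ∈ A) (hm : Moves x K) {g k : G} (hg : g ∈ K)
    (hk : k ∈ K) : ∀ i, i < p → Commute g (rest x k i)
  | 0, _ => Commute.one_right g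
  | i + 1, h => (C.rest_comm hx hm hg hk i (by omega)).mul_right
      (C.cnj_comm hx hm (Nat.succ_pos i) h hg hk)

theorem Ctx.rest_cnj_comm (C : Ctx p K A) (hx : x ∈ A) (hm : Moves x K) {g k : G} (hg : g ∈ K)
    (hk : k ∈ K) {m : ℕ} (hmp : m < p) : ∀ i, i < m → Commute (rest x k i) (cnj x m g)
  | 0, _ => Commute.one_left _
  | i + 1, h => (C.rest_cnj_comm hx hm hg hk hmp i (by omega)).mul_left
      (C.cnj_cnj_comm hx hm h hmp hk hg)

theorem Ctx.rest_mul (C : Ctx p K A) (hx : x ∈ A) (hm : Moves x K) {k l : G} (hk : k ∈ K)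
    (hl : l ∈ K) : ∀ i, i < p → rest x (k * l) i = rest x k i * rest x l i
  | 0, _ => by simp [rest]
  | i + 1, h => by
    simp only [rest]
    rw [C.rest_mul hx hm hk hl i (by omega), cnj_mul]
    have := (C.rest_cnj_comm hx hm hk hl h i (Nat.lt_succ_self i)).eq
    calc rest x k i * rest x l i * (cnj x (i + 1) k * cnj x (i + 1) l)
        = rest x k i * (rest x l i * cnj x (i + 1) k) * cnj x (i + 1) l := by simp only [mul_assoc]
      _ = rest x k i * (cnj x (i + 1) k * rest x l i) * cnj x (i + 1) l := by rw [this]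
      _ = _ := by simp only [mul_assoc]

theorem pred_lt (p : ℕ) [Fact p.Prime] : p - 1 < p :=
  Nat.sub_lt (Fact.out : p.Prime).pos Nat.one_pos

theorem Ctx.diag_mul (C : Ctx p K A) (hx : x ∈ A) (hm : Moves x K) {k l : G} (hk : k ∈ K)
    (hl : l ∈ K) : diag p x (k * l) = diag p x k * diag p x l := by
  simp only [diag, C.rest_mul hx hm hk hl _ (pred_lt p)]
  have := (C.rest_comm hx hm hl hk _ (pred_lt p)).eq
  calc k * l * (rest x k (p - 1) * rest x l (p - 1))
      = k * (l * rest x k (p - 1)) * rest x l (p - 1) := by simp only [mul_assoc]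
    _ = k * (rest x k (p - 1) * l) * rest x l (p - 1) := by rw [this]
    _ = _ := by simp only [mul_assoc]

/-- The diagonal as a homomorphism. -/
noncomputable def Ctx.diagHom (C : Ctx p K A) (hx : x ∈ A) (hm : Moves x K) : ↥K →* G :=
  MonoidHom.mk' (fun k => diag p x k) fun k l => C.diag_mul hx hm k.2 l.2

theorem Ctx.diag_comm_x (C : Ctx p K A) (hx : x ∈ A) (hm : Moves x K) {k : G} (hk : k ∈ K) :
    Commute x (diag p x k) := by
  have hp : p - 1 + 1 = p := Nat.sub_add_cancel (Fact.out : p.Prime).pos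
  have h1 : cnj x p k = k := by simp [cnj, C.pow x hx]
  have hr : rest x k p = rest x k (p - 1) * k := by
    conv_lhs => rw [← hp]
    simp only [rest]
    rw [hp, h1]
  have : x * diag p x k * x⁻¹ = diag p x k := by
    calc x * diag p x k * x⁻¹ = cnj x 1 k * (x * rest x k (p - 1) * x⁻¹) := by
          simp only [diag, cnj, pow_one]; group
      _ = diag p x k := by
          rw [rest_conj, hp, hr]; exact ((C.rest_comm hx hm hk hk _ (pred_lt p)).eq).symm
  exact mul_inv_eq_iff_eq_mul.mp this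

theorem Ctx.diag_of_commute {b : G} (hb : Commute b x) (k : G) :
    diag p x (b * k * b⁻¹) = b * diag p x k * b⁻¹ := by
  simp only [diag, rest_of_commute hb]; group

variable {F : Type*} [CommRing F] {U : Type*} [AddCommGroup U] [Module F U]

/-- The diagonal centralizes the image of `σ x - 1`. -/
def DTriv (p : ℕ) (σ : G →* Module.End F U) (K : Subgroup G) (x : G) : Prop :=
  ∀ k ∈ K, σ (diag p x k) * (σ x - 1) = σ x - 1

/-- An element normalizing but not centralizing `K` and centralizing `[U, x]` forces the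
diagonal to centralize `[U, x]`. -/
theorem Ctx.dtriv (C : Ctx p K A) (σ : G →* Module.End F U) {b : G} (hx : x ∈ A) (hb : b ∈ A)
    (hm : Moves x K) (hbm : ¬ Moves b K) (hne : ∃ k ∈ K, b * k ≠ k * b)
    (hbx : (σ b - 1) * (σ x - 1) = 0) : DTriv p σ K x := by
  set n := σ x - 1 with hn
  have hdn : ∀ k ∈ K, σ (diag p x k) * n = n * σ (diag p x k) := fun k hk => by
    simp only [hn, mul_sub, sub_mul, mul_one, one_mul, ← map_mul, (C.diag_comm_x hx hm hk).eq]
  have hbn : σ b * n = n := by rwa [sub_mul, one_mul, sub_eq_zero] at hbx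
  have hbn' : σ b⁻¹ * n = n := by
    conv_lhs => rw [← hbn, ← mul_assoc, sigma_inv_mul, one_mul]
  have hconj : ∀ k ∈ K, σ (diag p x (b * k * b⁻¹)) * n = σ (diag p x k) * n := fun k hk => by
    rw [Ctx.diag_of_commute (C.comm b hb x hx), sigma_conj, mul_assoc, hbn', mul_assoc, hdn k hk,
      ← mul_assoc, hbn]
  let N : Subgroup ↥K := (kill σ n).comap (C.diagHom hx hm)
  have hN : N.Normal := ⟨fun u hu g => by
    have hu' : σ (diag p x u) * n = n := hu
    show σ (C.diagHom hx hm (g * u * g⁻¹)) * n = n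
    rw [map_mul (C.diagHom hx hm), map_mul (C.diagHom hx hm), map_inv]
    show σ (diag p x g * diag p x u * (diag p x g)⁻¹) * n = n
    rw [sigma_conj, mul_assoc]
    have : σ (diag p x g)⁻¹ * n = n * σ (diag p x g)⁻¹ := by
      calc σ (diag p x g)⁻¹ * n
          = σ (diag p x g)⁻¹ * (n * σ (diag p x g)) * σ (diag p x g)⁻¹ := by
            rw [mul_assoc, mul_assoc, sigma_mul_inv, mul_one]
        _ = _ := by rw [← hdn _ g.2, ← mul_assoc, sigma_inv_mul, one_mul]
    rw [this, ← mul_assoc, mul_assoc (σ (diag p x g)), hu', hdn _ g.2, mul_assoc, sigma_mul_inv,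
      mul_one]⟩
  obtain ⟨k, hk, hnc⟩ := C.exists_twist_noncentral hbm hne
  have hkb := not_moves hbm hk
  have hmem : (⟨k⁻¹ * (b * k * b⁻¹), K.mul_mem (K.inv_mem hk) hkb⟩ : ↥K) ∈ N := by
    show σ (C.diagHom hx hm (⟨k, hk⟩⁻¹ * ⟨b * k * b⁻¹, hkb⟩)) * n = n
    rw [map_mul, map_inv, map_mul]
    show σ (diag p x k)⁻¹ * σ (diag p x (b * k * b⁻¹)) * n = n
    rw [mul_assoc, hconj k hk, ← mul_assoc, sigma_inv_mul, one_mul]
  rcases C.qs N hN with h | h
  · exfalso
    obtain ⟨g, hg, hgne⟩ := hnc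
    exact hgne (congrArg Subtype.val (Subgroup.mem_center_iff.mp (h hmem) ⟨g, hg⟩))
  · intro k hk
    exact (show (⟨k, hk⟩ : ↥K) ∈ N from h ▸ Subgroup.mem_top _)

theorem sub_one_comm (σ : G →* Module.End F U) {g h : G} (hc : Commute g h) :
    σ g * (σ h - 1) = (σ h - 1) * σ g := by
  rw [mul_sub, sub_mul, ← map_mul, ← map_mul, hc.eq, mul_one, one_mul]

theorem kill_comm (σ : G →* Module.End F U) {g h : G} (hc : Commute g h) :
    σ g * (σ h - 1) = σ h - 1 ↔ σ h * (σ g - 1) = σ g - 1 := by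
  have e : σ h * σ g = σ g * σ h := by rw [← map_mul, ← map_mul, hc.eq]
  rw [mul_sub, mul_sub, mul_one, mul_one, ← sub_eq_zero, ← sub_eq_zero (a := σ h * σ g - σ h), e]
  constructor <;> intro h' <;> linear_combination (norm := abel) h'

theorem DTriv.x_mul (C : Ctx p K A) {σ : G →* Module.End F U} (hD : DTriv p σ K x) (hx : x ∈ A)
    (hm : Moves x K) {k : G} (hk : k ∈ K) :
    σ x * (σ (diag p x k) - 1) = σ (diag p x k) - 1 := by
  have h := hD k hk
  rw [mul_sub, mul_one, ← map_mul, ← (C.diag_comm_x hx hm hk).eq, map_mul] at h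
  rw [mul_sub, mul_one]
  linear_combination (norm := abel) h

/-- Odd `p`: the conjugates annihilate `K`. -/
theorem pair_odd (C : Ctx p K A) (hp : p ≠ 2) (σ : G →* Module.End F U) (hx : x ∈ A)
    (hm : Moves x K) (hD : DTriv p σ K x) (hK : ∃ k ∈ K, σ k ≠ 1) {j : ℕ} (hj : 0 < j)
    (hjp : j < p) : ∀ g ∈ K, ∀ h ∈ K, σ (cnj x j h) * (σ g - 1) = σ g - 1 := by
  obtain ⟨k0, hk0, hne⟩ := hK
  obtain ⟨k, hk, hnc⟩ := C.exists_noncentral σ hk0 hne
  have h3 : 3 ≤ p := by
    have := (Fact.out : p.Prime).two_le; omega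
  obtain ⟨l, hl, hlp, hlj⟩ : ∃ l, 0 < l ∧ l < p ∧ l ≠ j := by
    rcases eq_or_ne j 1 with h | h
    · exact ⟨2, by omega, by omega, by omega⟩
    · exact ⟨1, by omega, by omega, fun e => h e.symm⟩
  set d := diag p x k with hd
  set T := σ d - 1 with hT
  have hkd : Commute k d := (Commute.refl k).mul_right (C.rest_comm hx hm hk hk _ (pred_lt p))
  have hxd := C.diag_comm_x hx hm hk
  have hkill : x ^ l ∈ kill σ T := (kill σ T).pow_mem (mem_kill.mpr (hD.x_mul C hx hm hk)) l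
  have hXl : σ (x ^ l) * T = T := hkill
  have hXli : σ (x ^ l)⁻¹ * T = T := mem_kill.mp ((kill σ T).inv_mem hkill)
  have hclT : σ (cnj x l k) * T = σ k * T := by
    rw [cnj, sigma_conj, mul_assoc, hXli, mul_assoc, hT, sub_one_comm σ hkd, ← hT, ← mul_assoc, hXl]
  have hcld : Commute (cnj x l k) d := by
    have : cnj x l k = x ^ l * k * (x ^ l)⁻¹ := rfl
    rw [this]
    exact ((hxd.pow_left l).mul_left hkd).mul_left (hxd.pow_left l).inv_left
  set Z0 := σ (cnj x l k) - σ k with hZ0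
  have hdZ0 : σ d * Z0 = Z0 := by
    have h1 : T * Z0 = 0 := by
      rw [hZ0, mul_sub, hT, ← sub_one_comm σ hcld, ← sub_one_comm σ hkd, ← hT, hclT, sub_self]
    rwa [hT, sub_mul, one_mul, sub_eq_zero] at h1
  have hcomm : ∀ g ∈ K, σ (cnj x j g) * Z0 = Z0 * σ (cnj x j g) := by
    intro g hg
    have c1 : Commute (cnj x j g) (cnj x l k) := by
      rcases lt_or_gt_of_ne hlj with h | h
      · exact (C.cnj_cnj_comm hx hm h hjp hk hg).symm
      · exact C.cnj_cnj_comm hx hm h hlp hg hk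
    have c2 : Commute (cnj x j g) k := (C.cnj_comm hx hm hj hjp hk hg).symm
    rw [hZ0, mul_sub, sub_mul, ← map_mul, ← map_mul, ← map_mul, ← map_mul, c1.eq, c2.eq]
  obtain ⟨f, hf, hfnc⟩ := C.exists_comm_noncentral hk hnc
  have hc : σ (cnj x j (f * k * f⁻¹ * k⁻¹)) * Z0 = Z0 := by
    have e : cnj x j (f * k * f⁻¹ * k⁻¹) = cnj x j f * d * (cnj x j f)⁻¹ * d⁻¹ := by
      have hfr := (C.rest_comm hx hm hf hk _ (pred_lt p)).eq
      have e1 : f * d * f⁻¹ * d⁻¹ = f * k * f⁻¹ * k⁻¹ := by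
        rw [hd, diag]
        calc f * (k * rest x k (p - 1)) * f⁻¹ * (k * rest x k (p - 1))⁻¹
            = f * k * (rest x k (p - 1) * f⁻¹) * (rest x k (p - 1))⁻¹ * k⁻¹ := by group
          _ = f * k * (f⁻¹ * rest x k (p - 1)) * (rest x k (p - 1))⁻¹ * k⁻¹ := by
              rw [((C.rest_comm hx hm hf hk _ (pred_lt p)).inv_left).eq]
          _ = _ := by group
      have hdj : (x ^ j) * d * (x ^ j)⁻¹ = d := by
        rw [(hxd.pow_left j).eq, mul_inv_cancel_right]
      rw [← e1]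
      conv_rhs => rw [← hdj]
      simp only [cnj]; group
    have hdi : σ d⁻¹ * Z0 = Z0 := mem_kill.mp ((kill σ Z0).inv_mem (mem_kill.mpr hdZ0))
    have hfj := hcomm _ (K.inv_mem hf)
    have hinv : cnj x j f⁻¹ = (cnj x j f)⁻¹ := by simp only [cnj]; group
    rw [hinv] at hfj
    rw [e, map_mul, mul_assoc, hdi, sigma_conj, mul_assoc, hfj, ← mul_assoc, mul_assoc (σ (cnj x j f)),
      hdZ0, hcomm f hf, mul_assoc, sigma_mul_inv, mul_one]
  have hall : ∀ h ∈ K, σ (cnj x j h) * Z0 = Z0 := by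
    have hfk : f * k * f⁻¹ * k⁻¹ ∈ K :=
      K.mul_mem (K.mul_mem (K.mul_mem hf hk) (K.inv_mem hf)) (K.inv_mem hk)
    exact C.kill_all (σ.comp (MulAut.conj (x ^ j)).toMonoidHom) (Z := Z0)
      (fun h hh => hcomm h hh) hfk hfnc hc
  intro g hg h hh
  set Zh := σ (cnj x j h) - 1 with hZh
  have hKZ : ∀ u ∈ K, σ u * Zh = Zh * σ u := fun u hu =>
    sub_one_comm σ (C.cnj_comm hx hm hj hjp hu hh)
  have hkl : σ (cnj x l k) * Zh = σ k * Zh := by
    have h1 := hall h hh
    rw [hcomm h hh] at h1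
    rw [← sub_eq_zero, ← sub_mul, ← hZ0, hZh, mul_sub, h1, mul_one, sub_self]
  have hk' : σ (f * k * f⁻¹ * k⁻¹) * Zh = Zh := by
    have hclu : σ f * σ (cnj x l k) = σ (cnj x l k) * σ f := by
      rw [← map_mul, ← map_mul, (C.cnj_comm hx hm hl hlp hf hk).eq]
    calc σ (f * k * f⁻¹ * k⁻¹) * Zh = σ f * σ k * σ f⁻¹ * (σ k⁻¹ * Zh) := by
          rw [map_mul, sigma_conj, mul_assoc]
      _ = σ f * (σ k * Zh) * (σ f⁻¹ * σ k⁻¹) := by
          rw [hKZ _ (K.inv_mem hk)]
          simp only [mul_assoc]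
          rw [← mul_assoc (σ f⁻¹) Zh, hKZ _ (K.inv_mem hf), mul_assoc]
      _ = σ f * σ (cnj x l k) * Zh * (σ f⁻¹ * σ k⁻¹) := by rw [← hkl]; simp only [mul_assoc]
      _ = σ (cnj x l k) * Zh * (σ f * σ f⁻¹) * σ k⁻¹ := by
          rw [hclu, mul_assoc (σ (cnj x l k)), hKZ f hf]; simp only [mul_assoc]
      _ = Zh := by rw [sigma_mul_inv, mul_one, hkl, hKZ k hk, mul_assoc, sigma_mul_inv, mul_one]
  have := C.kill_all σ hKZ (c := f * k * f⁻¹ * k⁻¹)
    (K.mul_mem (K.mul_mem (K.mul_mem hf hk) (K.inv_mem hf)) (K.inv_mem hk)) hfnc hk' g hg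
  exact (kill_comm σ (C.cnj_comm hx hm hj hjp hg hh)).mp this

/-- The annihilation and the diagonal condition leave only the trivial action. -/
theorem final_ann (C : Ctx p K A) (σ : G →* Module.End F U) (hx : x ∈ A) (hm : Moves x K)
    (hD : DTriv p σ K x)
    (hann : ∀ j, 0 < j → j < p → ∀ g ∈ K, ∀ h ∈ K, σ (cnj x j h) * (σ g - 1) = σ g - 1) :
    ∀ k ∈ K, σ k = 1 := by
  have h1p : 1 < p := (Fact.out : p.Prime).one_lt
  have key : ∀ g ∈ K, ∀ k ∈ K, σ k * (σ g - 1) = σ g - 1 := by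
    intro g hg
    refine perfect_kill σ C.perfect fun h hh k hk => ?_
    have hrest : ∀ i, i < p → rest x k i ∈ kill σ (σ g - 1) := by
      intro i
      induction i with
      | zero => exact fun _ => (kill σ _).one_mem
      | succ i ih =>
        exact fun hi => (kill σ _).mul_mem (ih (by omega))
          (hann (i + 1) (Nat.succ_pos i) hi g hg k hk)
    have hd : (σ (diag p x k) - 1) * (σ g - 1) = σ k * (σ g - 1) - (σ g - 1) := by
      rw [sub_mul, one_mul, diag, map_mul, mul_assoc, mem_kill.mp (hrest _ (pred_lt p))]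
    have hX := congrArg (· * (σ g - 1)) (hD.x_mul C hx hm hk)
    simp only [mul_assoc, hd] at hX
    have hid : σ x * (σ k * (σ g - 1) - (σ g - 1)) =
        (σ (cnj x 1 k) - 1) * ((σ (cnj x 1 g) - 1) * σ x) := by
      have e : ∀ u, σ x * σ u = σ (cnj x 1 u) * σ x := fun u => by
        rw [← map_mul, ← map_mul]; congr 1; simp only [cnj, pow_one]; group
      have e' : σ x * (σ g - 1) = (σ (cnj x 1 g) - 1) * σ x := by
        rw [mul_sub, sub_mul, e, mul_one, one_mul]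
      rw [mul_sub, ← mul_assoc, e, mul_assoc, e', sub_mul (σ (cnj x 1 k)), one_mul]
    rw [← hX, hid, ← mul_assoc]
    rw [(kill_comm σ (C.cnj_comm hx hm Nat.one_pos h1p hh hk)).mpr (hann 1 Nat.one_pos h1p h hh k hk)]
  intro k hk
  have := perfect_kill σ C.perfect (Z := 1) (fun f hf g hg => by rw [mul_one]; exact key g hg f hf) k hk
  rwa [mul_one] at this

/-- `p = 2`: two moving elements with moving product. -/
theorem pair_four {K A : Subgroup G} {x y : G} (C : Ctx 2 K A) (σ : G →* Module.End F U)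
    (hx : x ∈ A) (hy : y ∈ A) (hm : Moves x K) (hmy : Moves y K) (hmxy : Moves (x * y) K)
    (hD : DTriv 2 σ K x) (hK : ∃ k ∈ K, σ k ≠ 1) :
    ∀ g ∈ K, ∀ h ∈ K, σ (cnj (x * y) 1 h) * (σ g - 1) = σ g - 1 := by
  haveI : Fact (Nat.Prime 2) := ⟨Nat.prime_two⟩
  obtain ⟨k0, hk0, hne⟩ := hK
  obtain ⟨g0, hg0, hnc⟩ := C.exists_noncentral σ hk0 hne
  obtain ⟨f, hf, hfnc⟩ := C.exists_comm_noncentral hg0 hnc
  have hz : x * y ∈ A := A.mul_mem hx hy
  set z := x * y with hzdef
  have hxx : x * x = 1 := by rw [← sq]; exact C.pow x hx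
  have hxi : x⁻¹ = x := C.inv_of_two hx
  have hdiag : ∀ k, diag 2 x k = k * (x * k * x⁻¹) := fun k => by simp [diag, rest, cnj]
  have hxz : x * z = y := by rw [hzdef, ← mul_assoc, hxx, one_mul]
  have hdy : ∀ k ∈ K, ∀ u ∈ K, Commute (diag 2 x k) (y * u * y⁻¹) := by
    intro k hk u hu
    rw [hdiag]
    refine (C.disj y hy hmy k hk u hu).mul_left ?_
    have := (C.disj z hz hmxy k hk u hu).map (MulAut.conj x).toMonoidHom
    simp only [MulEquiv.coe_toMonoidHom, MulAut.conj_apply] at this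
    have e : x * (z * u * z⁻¹) * x⁻¹ = y * u * y⁻¹ := by
      rw [← hxz]; group
    rwa [e] at this
  have hdz : ∀ k ∈ K, ∀ u ∈ K, Commute (diag 2 x k) (z * u * z⁻¹) := by
    intro k hk u hu
    rw [hdiag]
    refine (C.disj z hz hmxy k hk u hu).mul_left ?_
    have := (C.disj y hy hmy k hk u hu).map (MulAut.conj x).toMonoidHom
    simp only [MulEquiv.coe_toMonoidHom, MulAut.conj_apply] at this
    have e : x * (y * u * y⁻¹) * x⁻¹ = z * u * z⁻¹ := by
      rw [hzdef]; group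
    rwa [e] at this
  have hzy : Commute (z * f * z⁻¹) (y * g0 * y⁻¹) := by
    have := (C.disj x hx hm f hf g0 hg0).map (MulAut.conj z).toMonoidHom
    simp only [MulEquiv.coe_toMonoidHom, MulAut.conj_apply] at this
    have e : z * (x * g0 * x⁻¹) * z⁻¹ = y * g0 * y⁻¹ := by
      rw [← hxz, C.comm x hx z hz]; group
    rwa [e] at this
  have hTall : ∀ k ∈ K, ∀ u ∈ K, σ (cnj z 1 u) * (σ (diag 2 x k) - 1) = σ (diag 2 x k) - 1 := by
    intro k hk
    set d := diag 2 x k with hd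
    set T := σ d - 1 with hT
    have hXT : σ x * T = T := hD.x_mul C hx hm hk
    have hXiT : σ x⁻¹ * T = T := by rw [hxi]; exact hXT
    have haT : σ (z * g0 * z⁻¹) * T = σ (y * g0 * y⁻¹) * T := by
      have e : z * g0 * z⁻¹ = x * (y * g0 * y⁻¹) * x⁻¹ := by rw [hzdef]; group
      rw [e, sigma_conj, mul_assoc, hXiT, mul_assoc, hT, sub_one_comm σ (hdy k hk g0 hg0).symm,
        ← hT, ← mul_assoc, hXT]
    have hcT : ∀ u ∈ K, σ (z * u * z⁻¹) * T = T * σ (z * u * z⁻¹) := fun u hu =>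
      sub_one_comm σ (hdz k hk u hu).symm
    have hz1 : ∀ u, cnj z 1 u = z * u * z⁻¹ := fun u => by simp [cnj]
    have hc : σ (cnj z 1 (f * g0 * f⁻¹ * g0⁻¹)) * T = T := by
      have e : cnj z 1 (f * g0 * f⁻¹ * g0⁻¹) =
          (z * f * z⁻¹) * (z * g0 * z⁻¹) * (z * f⁻¹ * z⁻¹) * (z * g0⁻¹ * z⁻¹) := by
        simp only [cnj, pow_one]; group
      have einv : ∀ u, σ (z * u * z⁻¹) * σ (z * u⁻¹ * z⁻¹) = 1 := fun u => by
        rw [← map_mul, show z * u * z⁻¹ * (z * u⁻¹ * z⁻¹) = 1 by group, map_one]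
      rw [e, map_mul, map_mul, map_mul]
      calc σ (z * f * z⁻¹) * σ (z * g0 * z⁻¹) * σ (z * f⁻¹ * z⁻¹) * σ (z * g0⁻¹ * z⁻¹) * T
          = σ (z * f * z⁻¹) * (σ (z * g0 * z⁻¹) * T) *
              (σ (z * f⁻¹ * z⁻¹) * σ (z * g0⁻¹ * z⁻¹)) := by
            have aux : ∀ {P Q R S T : Module.End F U}, R * T = T * R → S * T = T * S →
                P * Q * R * S * T = P * (Q * T) * (R * S) := fun {P Q R S T} hR hS => by
              rw [mul_assoc _ S, hS, ← mul_assoc, mul_assoc _ R, hR]; simp only [mul_assoc]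
            exact aux (hcT _ (K.inv_mem hf)) (hcT _ (K.inv_mem hg0))
        _ = σ (y * g0 * y⁻¹) * T * (σ (z * f * z⁻¹) * σ (z * f⁻¹ * z⁻¹)) * σ (z * g0⁻¹ * z⁻¹) := by
            rw [haT, ← mul_assoc (σ (z * f * z⁻¹)), ← map_mul σ (z * f * z⁻¹), hzy.eq, map_mul,
              mul_assoc (σ (y * g0 * y⁻¹)), hcT f hf]
            simp only [mul_assoc]
        _ = T := by rw [einv, mul_one, ← haT, hcT g0 hg0, mul_assoc, einv, mul_one]
    exact C.kill_all (σ.comp (MulAut.conj (z ^ 1)).toMonoidHom) (Z := T)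
      (fun u hu => by
        have := hcT u hu
        rwa [← hz1] at this)
      (K.mul_mem (K.mul_mem (K.mul_mem hf hg0) (K.inv_mem hf)) (K.inv_mem hg0)) hfnc hc
  intro g hg h hh
  set Zh := σ (cnj z 1 h) - 1 with hZh
  have hKZ : ∀ u ∈ K, σ u * Zh = Zh * σ u := fun u hu =>
    sub_one_comm σ (C.cnj_comm hz hmxy Nat.one_pos (by norm_num) hu hh)
  have hdZ : σ (diag 2 x g0) * Zh = Zh := by
    have hc : Commute (diag 2 x g0) (cnj z 1 h) := by
      simpa [cnj] using hdz g0 hg0 h hh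
    exact (kill_comm σ hc).mpr (hTall g0 hg0 h hh)
  have hfr : Commute f (x * g0 * x⁻¹) := C.disj x hx hm f hf g0 hg0
  have hc : σ (f * g0 * f⁻¹ * g0⁻¹) * Zh = Zh := by
    have e : f * g0 * f⁻¹ * g0⁻¹ = f * diag 2 x g0 * f⁻¹ * (diag 2 x g0)⁻¹ := by
      rw [hdiag]
      calc f * g0 * f⁻¹ * g0⁻¹ = f * g0 * (f⁻¹ * (x * g0 * x⁻¹)) * (x * g0 * x⁻¹)⁻¹ * g0⁻¹ := by group
        _ = f * g0 * ((x * g0 * x⁻¹) * f⁻¹) * (x * g0 * x⁻¹)⁻¹ * g0⁻¹ := by rw [hfr.inv_left.eq]
        _ = _ := by group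
    have hdi : σ (diag 2 x g0)⁻¹ * Zh = Zh := mem_kill.mp ((kill σ Zh).inv_mem (mem_kill.mpr hdZ))
    rw [e, map_mul, mul_assoc, hdi, sigma_conj, mul_assoc, hKZ _ (K.inv_mem hf), ← mul_assoc,
      mul_assoc (σ f), hdZ, hKZ f hf, mul_assoc, sigma_mul_inv, mul_one]
  have := C.kill_all σ hKZ
    (K.mul_mem (K.mul_mem (K.mul_mem hf hg0) (K.inv_mem hf)) (K.inv_mem hg0)) hfnc hc g hg
  exact (kill_comm σ (C.cnj_comm hz hmxy Nat.one_pos (by norm_num) hg hh)).mp this

end CfsgLib.PGV
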