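import Cfsg.Agent.PGVTheorem.Basic

/-!
Quadratic elements moving `K`: for odd `p` they do not exist, for `p = 2` a quadratic group
has at most two images of `K`.
-/

set_option autoImplicit false

open scoped commutatorElement

namespace CfsgLib.PGV

section RingPart

variable {R : Type*} [Ring R] {p : ℕ} [Fact p.Prime] [CharP R p]

theorem eq_zero_of_sq_of_frobenius {c : R} {f : ℕ} (hf : 0 < f) (h2 : c * c = 0)
    (hc : c ^ p ^ f = c) : c = 0 := by
  rw [← hc]
  refine pow_eq_zero_of_le ?_ (by rw [sq]; exact h2)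
  calc 2 ≤ p := (Fact.out : p.Prime).two_le
    _ = p ^ 1 := (pow_one p).symm
    _ ≤ p ^ f := Nat.pow_le_pow_right (Fact.out : p.Prime).pos hf

theorem frob_add {a b : R} (h : Commute a b) (f : ℕ) :
    (a + b) ^ p ^ f = a ^ p ^ f + b ^ p ^ f := add_pow_char_pow_of_commute p f h

/-- The odd kernel: a quadratic unit centralizes an element of order prime to `p` commuting
with its first two conjugates. -/
theorem odd_core (hp : p ≠ 2) {n s s1 s2 : R} {f : ℕ} (hf : 0 < f) (hn : n * n = 0)
    (h1 : s1 = (1 + n) * s * (1 - n)) (h2 : s2 = (1 + n) * s1 * (1 - n))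
    (h01 : Commute s s1) (h02 : Commute s s2) (h12 : Commute s1 s2)
    (hs : s ^ p ^ f = s) (hs1 : s1 ^ p ^ f = s1) (hs2 : s2 ^ p ^ f = s2) : s1 = s := by
  have key : ∀ {t t1 t2 : R}, t1 = (1 + n) * t * (1 - n) → t2 = (1 + n) * t1 * (1 - n) →
      Commute t t1 → Commute t t2 → Commute t1 t2 →
      t ^ p ^ f = t → t1 ^ p ^ f = t1 → t2 ^ p ^ f = t2 → n * t * n = 0 := by
    intro t t1 t2 e1 e2 c01 c02 c12 ft ft1 ft2
    have hkill : ∀ w : R, n * (n * w) = 0 := fun w => by rw [← mul_assoc, hn, zero_mul]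
    have hc : t2 + t - (t1 + t1) = -(n * t * n + n * t * n) := by
      rw [e2, e1]
      simp only [add_mul, mul_add, sub_mul, mul_sub, one_mul, mul_one, mul_assoc, hn, hkill,
        mul_zero, zero_mul]
      abel
    set c := t2 + t - (t1 + t1) with hcdef
    have hsq : c * c = 0 := by
      rw [hc]
      simp only [neg_mul, mul_neg, neg_neg, add_mul, mul_add, mul_assoc, hkill, mul_zero, add_zero, neg_zero]
    have hfr : c ^ p ^ f = c := by
      have cc : Commute (t2 + t) (t1 + t1) :=
        ((c12.symm.add_left c01)).add_right (c12.symm.add_left c01)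
      have h' : (c + (t1 + t1)) ^ p ^ f = c ^ p ^ f + (t1 + t1) ^ p ^ f :=
        frob_add (cc.sub_left (Commute.refl _)) f
      rw [hcdef, sub_add_cancel, frob_add c02.symm, frob_add (Commute.refl t1), ft, ft1, ft2] at h'
      rw [hcdef]
      linear_combination (norm := abel) -h'
    have h0 := eq_zero_of_sq_of_frobenius (p := p) hf hsq hfr
    rw [hc, neg_eq_zero] at h0
    have hcop : Nat.Coprime 2 p :=
      (Nat.coprime_primes Nat.prime_two (Fact.out : p.Prime)).mpr (Ne.symm hp)
    have h2u : IsUnit ((2 : ℕ) : R) := by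
      obtain ⟨a, b, hab⟩ : ∃ a b : ℤ, a * 2 + b * p = 1 := by
        exact ⟨_, _, by simpa using (Int.isCoprime_iff_nat_coprime.mpr (by simpa using hcop) : IsCoprime (2 : ℤ) (p : ℤ)).choose_spec.choose_spec⟩
      have := congrArg (Int.cast : ℤ → R) hab
      push_cast at this
      rw [CharP.cast_eq_zero R p, mul_zero, add_zero] at this
      refine isUnit_iff_exists.mpr ⟨(a : R), ?_, ?_⟩
      · push_cast; rw [← (Int.cast_commute a (2 : R)).eq]; exact this
      · push_cast; exact this
    refine h2u.mul_right_eq_zero.mp ?_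
    push_cast
    rw [two_mul]; exact h0
  have k1 := key h1 h2 h01 h02 h12 hs hs1 hs2
  have hX : (1 - n) * (1 + n) = 1 := by
    simp only [sub_mul, one_mul, mul_add, mul_one, hn, sub_zero, sub_add_cancel]
  have sq' : ∀ a : R, (1 + n) * a * (1 - n) * ((1 + n) * a * (1 - n)) = (1 + n) * (a * a) * (1 - n) := by
    intro a
    calc (1 + n) * a * (1 - n) * ((1 + n) * a * (1 - n))
        = (1 + n) * a * ((1 - n) * (1 + n)) * a * (1 - n) := by simp only [mul_assoc]
      _ = _ := by rw [hX, mul_one]; simp only [mul_assoc]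
  have fsq : ∀ {a : R}, a ^ p ^ f = a → (a * a) ^ p ^ f = a * a := fun {a} ha => by
    rw [(Commute.refl a).mul_pow, ha]
  have k2 := key (t := s * s) (t1 := s1 * s1) (t2 := s2 * s2) (by rw [h1, sq']) (by rw [h2, sq'])
    ((h01.mul_right h01).mul_left (h01.mul_right h01))
    ((h02.mul_right h02).mul_left (h02.mul_right h02))
    ((h12.mul_right h12).mul_left (h12.mul_right h12)) (fsq hs) (fsq hs1) (fsq hs2)
  have hkill : ∀ w : R, n * (n * w) = 0 := fun w => by rw [← mul_assoc, hn, zero_mul]
  have e1 : s1 - s = n * s - s * n := by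
    rw [h1]
    simp only [add_mul, mul_sub, one_mul, mul_one]
    linear_combination (norm := (simp only [mul_assoc]; abel)) -k1
  have hc0 : Commute s1 s := h01.symm
  have hsq : (s1 - s) * (s1 - s) = 0 := by
    rw [e1]
    have k1' : ∀ w, n * (s * (n * w)) = 0 := fun w => by
      rw [← mul_assoc, ← mul_assoc, k1, zero_mul]
    have k1'' : n * (s * n) = 0 := by rw [← mul_assoc]; exact k1
    have k2' : n * (s * (s * n)) = 0 := by
      rw [← mul_assoc s, ← mul_assoc]; exact k2
    simp only [sub_mul, mul_sub, mul_assoc, hn, hkill, k1', k1'', k2', mul_zero]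
    abel
  have hfr : (s1 - s) ^ p ^ f = s1 - s := by
    have h' : (s1 - s + s) ^ p ^ f = (s1 - s) ^ p ^ f + s ^ p ^ f :=
      frob_add (hc0.sub_left (Commute.refl s)) f
    rw [sub_add_cancel, hs1, hs] at h'
    linear_combination (norm := abel) -h'
  exact sub_eq_zero.mp (eq_zero_of_sq_of_frobenius (p := p) hf hsq hfr)

/-- The kernel for `p = 2`: four commuting conjugates under a quadratic four-group sum to zero. -/
theorem four_core [CharP R 2] {n m s a b c : R} {f : ℕ} (hf : 0 < f) (hn : n * n = 0)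
    (hm : m * m = 0) (hnm : n * m = 0) (hmn : m * n = 0)
    (ha : a = (1 + n) * s * (1 + n)) (hb : b = (1 + m) * s * (1 + m))
    (hc : c = (1 + (n + m)) * s * (1 + (n + m)))
    (c1 : Commute s a) (c2 : Commute s b) (c3 : Commute s c) (c4 : Commute a b)
    (c5 : Commute a c) (c6 : Commute b c)
    (fs : s ^ 2 ^ f = s) (fa : a ^ 2 ^ f = a) (fb : b ^ 2 ^ f = b) (fc : c ^ 2 ^ f = c) :
    c = s + a + b := by
  haveI : Fact (Nat.Prime 2) := ⟨Nat.prime_two⟩
  have two : ∀ r : R, r + r = 0 := CharTwo.add_self_eq_zero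
  have kn : ∀ w : R, n * (n * w) = 0 := fun w => by rw [← mul_assoc, hn, zero_mul]
  have km : ∀ w : R, m * (m * w) = 0 := fun w => by rw [← mul_assoc, hm, zero_mul]
  have knm : ∀ w : R, n * (m * w) = 0 := fun w => by rw [← mul_assoc, hnm, zero_mul]
  have kmn : ∀ w : R, m * (n * w) = 0 := fun w => by rw [← mul_assoc, hmn, zero_mul]
  have hd : c + s + a + b = n * (s * m) + m * (s * n) := by
    rw [ha, hb, hc]
    simp only [add_mul, mul_add, one_mul, mul_one, mul_assoc]
    linear_combination (norm := abel) two s + two s + two (n * s) + two (s * n) + two (m * s)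
      + two (s * m) + two (n * (s * n)) + two (m * (s * m))
  have hsq : (c + s + a + b) * (c + s + a + b) = 0 := by
    rw [hd]
    simp only [add_mul, mul_add, mul_assoc, kn, km, knm, kmn, mul_zero, add_zero]
  have hfr : (c + s + a + b) ^ 2 ^ f = c + s + a + b := by
    rw [frob_add ((c6.symm.add_left c2).add_left c4) f, frob_add (c5.symm.add_left c1) f,
      frob_add c3.symm f, fs, fa, fb, fc]
  have h0 := eq_zero_of_sq_of_frobenius (p := 2) hf hsq hfr
  linear_combination (norm := abel) h0 - two s - two a - two b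

end RingPart

variable {G : Type*} [Group G] [Finite G]

/-- A perfect finite group is generated by its elements of order prime to `p`. -/
theorem le_of_coprime_mem {p : ℕ} [Fact p.Prime] {K S : Subgroup G} (hK : ⁅K, K⁆ = K)
    (h : ∀ k ∈ K, (orderOf k).Coprime p → k ∈ S) : K ≤ S := by
  let E : Subgroup ↥K := Subgroup.closure {k | (orderOf k).Coprime p}
  haveI hE : E.Normal := by
    refine ⟨fun n hn g => ?_⟩
    have : E.map (MulAut.conj g).toMonoidHom ≤ E := by
      rw [MonoidHom.map_closure]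
      refine Subgroup.closure_mono ?_
      rintro _ ⟨k, hk, rfl⟩
      show (orderOf (MulAut.conj g k)).Coprime p
      rw [MulEquiv.orderOf_eq]; exact hk
    exact this ⟨n, hn, rfl⟩
  have hq : IsPGroup p (↥K ⧸ E) := by
    intro q
    obtain ⟨g, rfl⟩ := QuotientGroup.mk_surjective q
    obtain ⟨a, m, hm, hgm⟩ := Nat.exists_eq_pow_mul_and_not_dvd (orderOf_pos g).ne' p
      (Fact.out : p.Prime).ne_one
    refine ⟨a, ?_⟩
    rw [← QuotientGroup.mk_pow, QuotientGroup.eq_one_iff]
    refine Subgroup.subset_closure ?_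
    show (orderOf (g ^ p ^ a)).Coprime p
    rw [orderOf_pow' _ (pow_ne_zero _ (Fact.out : p.Prime).ne_zero), hgm,
      Nat.gcd_eq_right (Dvd.intro m rfl), Nat.mul_div_cancel_left _ (pow_pos (Fact.out : p.Prime).pos _)]
    exact ((Fact.out : p.Prime).coprime_iff_not_dvd.mpr hm).symm
  have htop : E = ⊤ := by
    by_contra hne
    haveI : Nontrivial (↥K ⧸ E) := QuotientGroup.nontrivial_iff.mpr hne
    haveI := hq.isNilpotent
    have hperf : commutator (↥K ⧸ E) = ⊤ := by
      have hk : commutator ↥K = ⊤ := by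
        rw [← Subgroup.map_injective K.subtype_injective |>.eq_iff, Subgroup.map_subtype_commutator,
          ← MonoidHom.range_eq_map, Subgroup.range_subtype, hK]
      rw [← Subgroup.map_top_of_surjective (QuotientGroup.mk' E) (QuotientGroup.mk'_surjective E)]
      conv_rhs => rw [← hk]
      rw [commutator_def, commutator_def, Subgroup.map_commutator]
      rw [Subgroup.map_top_of_surjective _ (QuotientGroup.mk'_surjective E)]
    exact (Group.IsSolvable.commutator_lt_top_of_nontrivial (↥K ⧸ E)).ne hperf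
  intro k hk
  have : E ≤ S.subgroupOf K := by
    rw [Subgroup.closure_le]
    intro u hu
    exact h u u.2 (by
      have hu' : (orderOf u).Coprime p := hu
      rwa [Subgroup.orderOf_coe])
  exact this (htop ▸ Subgroup.mem_top (⟨k, hk⟩ : ↥K))

/-- A `p`-power congruent to one modulo the order. -/
theorem exists_frobenius {p : ℕ} {k : G} (hk : (orderOf k).Coprime p) :
    ∃ f, 0 < f ∧ k ^ p ^ f = k := by
  refine ⟨(orderOf k).totient, Nat.totient_pos.mpr (orderOf_pos k), ?_⟩
  conv_rhs => rw [← pow_one k]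
  exact pow_eq_pow_iff_modEq.mpr (Nat.ModEq.pow_totient hk.symm)

variable {F : Type*} [CommRing F] {U : Type*} [AddCommGroup U] [Module F U] {p : ℕ}
  {K A : Subgroup G}

theorem sigma_frob (σ : G →* Module.End F U) {p f : ℕ} {k : G} (h : k ^ p ^ f = k) :
    σ k ^ p ^ f = σ k := by rw [← map_pow, h]

theorem conj_frob {p f : ℕ} {k : G} (a : G) (h : k ^ p ^ f = k) :
    (a * k * a⁻¹) ^ p ^ f = a * k * a⁻¹ := by rw [conj_pow, h]

omit [Finite G] in
theorem Ctx.inv_of_two (C : Ctx 2 K A) {a : G} (ha : a ∈ A) : a⁻¹ = a :=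
  inv_eq_of_mul_eq_one_right (by rw [← sq]; exact C.pow a ha)

omit [Finite G] in
/-- Powers of a moving element below `p` move. -/
theorem Ctx.moves_pow (C : Ctx p K A) [Fact p.Prime] {x : G} (hx : x ∈ A) (hm : Moves x K)
    {i : ℕ} (hi : 0 < i) (hip : i < p) : Moves (x ^ i) K := by
  by_contra h
  have hcop : Nat.Coprime i p :=
    ((Fact.out : p.Prime).coprime_iff_not_dvd.mpr (Nat.not_dvd_of_pos_of_lt hi hip)).symm
  have hall : ∀ j : ℕ, ∀ k ∈ K, (x ^ i) ^ j * k * ((x ^ i) ^ j)⁻¹ ∈ K := by
    intro j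
    induction j with
    | zero => intro k hk; simpa using hk
    | succ j ih =>
      intro k hk
      have := ih _ (not_moves h hk)
      rw [pow_succ, mul_inv_rev]
      simpa only [mul_assoc] using this
  obtain ⟨j, -, hj⟩ := Nat.exists_mul_mod_eq_one_of_coprime hcop (Fact.out : p.Prime).one_lt
  obtain ⟨k, hk, hk'⟩ := hm
  apply hk'
  have hxj : (x ^ i) ^ j = x := by
    rw [← pow_mul, ← Nat.div_add_mod (i * j) p, pow_add, pow_mul, C.pow x hx, one_pow, one_mul,
      hj, pow_one]
  have := hall j k hk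
  rwa [hxj] at this

variable [Fact p.Prime]

/-- A quadratic element does not move `K` for odd `p`. -/
theorem quad_odd (C : Ctx p K A) (hp : p ≠ 2) (σ : G →* Module.End F U)
    (hchar : (p : Module.End F U) = 0) {x : G} (hx : x ∈ A) (hm : Moves x K)
    (hq : (σ x - 1) * (σ x - 1) = 0) : ∀ k ∈ K, σ k = 1 := by
  by_cases hU : Nontrivial (Module.End F U)
  swap
  · rw [not_nontrivial_iff_subsingleton] at hU
    exact fun k _ => Subsingleton.elim _ _
  haveI := (CharP.charP_iff_prime_eq_zero (R := Module.End F U) (Fact.out : p.Prime)).mpr hchar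
  have h2p : 2 < p := lt_of_le_of_ne (Fact.out : p.Prime).two_le (Ne.symm hp)
  refine perfect_abelian σ C.perfect ?_
  suffices hsuff : ∀ g ∈ K, ∀ k ∈ K, σ k * σ g = σ g * σ k from fun f hf k hk => hsuff k hk f hf
  intro g hg
  let S : Subgroup G :=
    { carrier := {k | σ k * σ g = σ g * σ k}
      mul_mem' := by
        intro a b ha hb
        simp only [Set.mem_setOf_eq, map_mul] at ha hb ⊢
        rw [mul_assoc, hb, ← mul_assoc, ha, mul_assoc]
      one_mem' := by simp
      inv_mem' := by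
        intro a ha
        simp only [Set.mem_setOf_eq] at ha ⊢
        calc σ a⁻¹ * σ g = σ a⁻¹ * (σ g * σ a) * σ a⁻¹ := by
              rw [mul_assoc, mul_assoc, sigma_mul_inv, mul_one]
          _ = σ g * σ a⁻¹ := by
              rw [← ha, ← mul_assoc, sigma_inv_mul, one_mul] }
  refine fun k hk => (le_of_coprime_mem (S := S) (p := p) C.perfect ?_) hk
  intro k hk hord
  obtain ⟨f, hf, hkf⟩ := exists_frobenius hord
  set n := σ x - 1 with hn
  have hX : σ x = 1 + n := by rw [hn]; abel
  have hXi : σ x⁻¹ = 1 - n := by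
    have h1 : σ x * (1 - n) = 1 := by
      rw [hX]
      simp only [mul_sub, add_mul, one_mul, mul_one, hq, add_zero]; abel
    calc σ x⁻¹ = σ x⁻¹ * (σ x * (1 - n)) := by rw [h1, mul_one]
      _ = 1 - n := by rw [← mul_assoc, sigma_inv_mul, one_mul]
  set k1 := x * k * x⁻¹ with hk1
  set k2 := x * k1 * x⁻¹ with hk2
  have e2 : k2 = x ^ 2 * k * (x ^ 2)⁻¹ := by rw [hk2, hk1, sq]; group
  have hm2 : Moves (x ^ 2) K := C.moves_pow hx hm (by norm_num) h2p
  have c01 : Commute k k1 := C.disj x hx hm k hk k hk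
  have c02 : Commute k k2 := e2 ▸ C.disj _ (A.pow_mem hx 2) hm2 k hk k hk
  have c12 : Commute k1 k2 := (c01.map (MulAut.conj x).toMonoidHom : _)
  have h := odd_core (p := p) hp hf hq (s := σ k) (s1 := σ k1) (s2 := σ k2)
    (by rw [hk1, sigma_conj, hX, hXi]) (by rw [hk2, sigma_conj, hX, hXi])
    (c01.map σ) (c02.map σ) (c12.map σ)
    (sigma_frob σ hkf) (sigma_frob σ (conj_frob x hkf))
    (sigma_frob σ (conj_frob x (conj_frob x hkf)))
  show σ k * σ g = σ g * σ k
  rw [← h]
  exact ((C.disj x hx hm g hg k hk).map σ).symm.eq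

/-- A quadratic four-group moving `K` regularly does not exist. -/
theorem quad_four (C : Ctx 2 K A) (σ : G →* Module.End F U)
    (hchar : ((2 : ℕ) : Module.End F U) = 0) {x y : G} (hx : x ∈ A) (hy : y ∈ A)
    (hmx : Moves x K) (hmy : Moves y K) (hmxy : Moves (x * y) K)
    (hq : ∀ a ∈ A, ∀ b ∈ A, (σ a - 1) * (σ b - 1) = 0) : ∀ k ∈ K, σ k = 1 := by
  haveI : Fact (Nat.Prime 2) := ⟨Nat.prime_two⟩
  by_cases hU : Nontrivial (Module.End F U)
  swap
  · rw [not_nontrivial_iff_subsingleton] at hU
    exact fun k _ => Subsingleton.elim _ _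
  haveI := (CharP.charP_iff_prime_eq_zero (R := Module.End F U) Nat.prime_two).mpr hchar
  refine perfect_abelian σ C.perfect ?_
  suffices hsuff : ∀ g ∈ K, ∀ k ∈ K, σ k * σ g = σ g * σ k from fun f hf k hk => hsuff k hk f hf
  intro g hg
  let S : Subgroup G :=
    { carrier := {k | σ k * σ g = σ g * σ k}
      mul_mem' := by
        intro a b ha hb
        simp only [Set.mem_setOf_eq, map_mul] at ha hb ⊢
        rw [mul_assoc, hb, ← mul_assoc, ha, mul_assoc]
      one_mem' := by simp
      inv_mem' := by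
        intro a ha
        simp only [Set.mem_setOf_eq] at ha ⊢
        calc σ a⁻¹ * σ g = σ a⁻¹ * (σ g * σ a) * σ a⁻¹ := by
              rw [mul_assoc, mul_assoc, sigma_mul_inv, mul_one]
          _ = σ g * σ a⁻¹ := by
              rw [← ha, ← mul_assoc, sigma_inv_mul, one_mul] }
  refine fun k hk => (le_of_coprime_mem (S := S) (p := 2) C.perfect ?_) hk
  intro k hk hord
  obtain ⟨f, hf, hkf⟩ := exists_frobenius hord
  have hxy : x * y ∈ A := A.mul_mem hx hy
  have e1 : ∀ a ∈ A, σ a = 1 + (σ a - 1) := fun a _ => by abel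
  have conj2 : ∀ a ∈ A, σ (a * k * a⁻¹) = (1 + (σ a - 1)) * σ k * (1 + (σ a - 1)) := fun a ha => by
    rw [sigma_conj, C.inv_of_two ha, ← e1 a ha]
  have hXY : σ (x * y) - 1 = (σ x - 1) + (σ y - 1) := by
    have := hq x hx y hy
    rw [map_mul]
    simp only [sub_mul, mul_sub, one_mul, mul_one] at this
    linear_combination (norm := abel) this
  have hp01 : ∀ a ∈ A, Moves a K → Commute k (a * k * a⁻¹) := fun a ha hm => C.disj a ha hm k hk k hk
  have hpair : ∀ a ∈ A, ∀ b ∈ A, Moves (a * b) K → Commute (a * k * a⁻¹) (b * k * b⁻¹) := by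
    intro a ha b hb hm
    have := (hp01 _ (A.mul_mem ha hb) hm).map (MulAut.conj a).toMonoidHom
    simp only [MulEquiv.coe_toMonoidHom, MulAut.conj_apply] at this
    have eab : a * (a * b * k * (a * b)⁻¹) * a⁻¹ = b * k * b⁻¹ := by
      have ea := C.inv_of_two ha
      have eb : (a * b)⁻¹ = b⁻¹ * a := by rw [mul_inv_rev, ea]
      have e2 : a * a = 1 := by rw [← sq]; exact C.pow a ha
      rw [eb, ea]
      simp only [← mul_assoc, e2, one_mul]
      simp only [mul_assoc, e2, mul_one]
    rwa [eab] at this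
  have hyx : Moves (x * (x * y)) K := by
    rw [← mul_assoc, ← sq, C.pow x hx, one_mul]; exact hmy
  have hxx : Moves (y * (x * y)) K := by
    rw [C.comm x hx y hy, ← mul_assoc, ← sq, C.pow y hy, one_mul]; exact hmx
  have h := four_core (R := Module.End F U) hf (hq x hx x hx) (hq y hy y hy) (hq x hx y hy)
    (hq y hy x hx) (conj2 x hx) (conj2 y hy) (by rw [← hXY]; exact conj2 _ hxy)
    ((hp01 x hx hmx).map σ) ((hp01 y hy hmy).map σ) ((hp01 _ hxy hmxy).map σ)
    ((hpair x hx y hy hmxy).map σ) ((hpair x hx _ hxy hyx).map σ) ((hpair y hy _ hxy hxx).map σ)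
    (sigma_frob σ hkf) (sigma_frob σ (conj_frob _ hkf)) (sigma_frob σ (conj_frob _ hkf))
    (sigma_frob σ (conj_frob _ hkf))
  have h' : σ k = σ (x * y * k * (x * y)⁻¹) + σ (x * k * x⁻¹) + σ (y * k * y⁻¹) := by
    rw [h]
    linear_combination (norm := abel) -(CharTwo.add_self_eq_zero (σ (x * k * x⁻¹)))
      - CharTwo.add_self_eq_zero (σ (y * k * y⁻¹))
  show σ k * σ g = σ g * σ k
  rw [h']
  exact ((((C.disj _ hxy hmxy g hg k hk).map σ).symm.add_left
    ((C.disj x hx hmx g hg k hk).map σ).symm).add_left ((C.disj y hy hmy g hg k hk).map σ).symm).eq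

end CfsgLib.PGV
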