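import Cfsg.Agent.PGVTheorem.Basic
import Cfsg.Agent.CentrallyLarge.Basic

/-!
Timmesfeld replacement for an abelian group acting linearly on a finite module.
-/

set_option autoImplicit false

namespace CfsgLib.PGV

variable {G : Type*} [Group G] {F : Type*} [CommRing F] {U : Type*} [AddCommGroup U] [Module F U]

/-- The vectors fixed by `B`. -/
def fixSub (σ : G →* Module.End F U) (B : Subgroup G) : Submodule F U where
  carrier := {u | ∀ b ∈ B, σ b u = u}
  add_mem' {u v} hu hv b hb := by rw [map_add, hu b hb, hv b hb]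
  zero_mem' b _ := map_zero _
  smul_mem' c u hu b hb := by rw [map_smul, hu b hb]

theorem mem_fixSub {σ : G →* Module.End F U} {B : Subgroup G} {u : U} :
    u ∈ fixSub σ B ↔ ∀ b ∈ B, σ b u = u := Iff.rfl

theorem fixSub_anti (σ : G →* Module.End F U) {B B' : Subgroup G} (h : B ≤ B') :
    fixSub σ B' ≤ fixSub σ B := fun _ hu b hb => hu b (h hb)

theorem fixSub_sup (σ : G →* Module.End F U) (X Y : Subgroup G) :
    fixSub σ (X ⊔ Y) = fixSub σ X ⊓ fixSub σ Y := by
  refine le_antisymm (le_inf (fixSub_anti σ le_sup_left) (fixSub_anti σ le_sup_right)) ?_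
  rintro u ⟨hX, hY⟩ g hg
  let S : Subgroup G :=
    { carrier := {g | σ g u = u}
      mul_mem' := fun {a b} ha hb => by
        simp only [Set.mem_setOf_eq] at ha hb ⊢
        rw [map_mul, Module.End.mul_apply, hb, ha]
      one_mem' := by simp
      inv_mem' := fun {a} ha => by
        simp only [Set.mem_setOf_eq] at ha ⊢
        conv_lhs => rw [← ha]
        rw [← Module.End.mul_apply, sigma_inv_mul, Module.End.one_apply] }
  exact (sup_le (c := S) (fun a ha => hX a ha) (fun a ha => hY a ha)) hg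

theorem card_sup_mul_inf [Finite U] (X Y : Submodule F U) :
    Nat.card X * Nat.card Y = Nat.card ↥(X ⊔ Y) * Nat.card ↥(X ⊓ Y) := by
  let f : (↥X × ↥Y) →ₗ[F] U := X.subtype.coprod Y.subtype
  have h := Submodule.card_eq_card_quotient_mul_card f.ker
  have hr : Nat.card ((↥X × ↥Y) ⧸ f.ker) = Nat.card ↥(X ⊔ Y) := by
    rw [Nat.card_congr f.quotKerEquivRange.toEquiv]
    have : f.range = X ⊔ Y := by
      simp only [f, LinearMap.range_coprod, Submodule.range_subtype]
    rw [this]
  have hk : Nat.card f.ker = Nat.card ↥(X ⊓ Y) := by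
    refine Nat.card_congr
      { toFun := fun z => ⟨(z.1.1 : U), z.1.1.2, by
          have hz : (z.1.1 : U) + z.1.2 = 0 := z.2
          rw [eq_neg_of_add_eq_zero_left hz]; exact Y.neg_mem z.1.2.2⟩
        invFun := fun u => ⟨(⟨u.1, u.2.1⟩, ⟨-u.1, Y.neg_mem u.2.2⟩), by
          show (u.1 : U) + -u.1 = 0
          exact add_neg_cancel _⟩
        left_inv := fun z => by
          have hz : (z.1.1 : U) + z.1.2 = 0 := z.2
          exact Subtype.ext (Prod.ext (Subtype.ext rfl) (Subtype.ext (neg_eq_of_add_eq_zero_right hz)))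
        right_inv := fun u => Subtype.ext rfl }
  rw [hr, hk, Nat.card_prod] at h
  exact h.trans (mul_comm _ _)

/-- `|B| |C_U(B)|`. -/
noncomputable def meas (σ : G →* Module.End F U) (B : Subgroup G) : ℕ :=
  Nat.card B * Nat.card (fixSub σ B)

/-- `A` has the largest measure among its subgroups. -/
def IsBest (σ : G →* Module.End F U) (A : Subgroup G) : Prop :=
  ∀ B ≤ A, meas σ B ≤ meas σ A

variable [Finite G] [Finite U] {σ : G →* Module.End F U} {A : Subgroup G}

theorem inf_step (hmax : IsBest σ A) {X Y : Subgroup G} (hX : X ≤ A)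
    (hY : Y ≤ A) (hXm : meas σ X = meas σ A) (hYm : meas σ Y = meas σ A) :
    meas σ (X ⊓ Y) = meas σ A ∧ fixSub σ (X ⊓ Y) = fixSub σ X ⊔ fixSub σ Y := by
  set CX := fixSub σ X
  set CY := fixSub σ Y
  set CI := fixSub σ (X ⊓ Y)
  have hle : CX ⊔ CY ≤ CI := sup_le (fixSub_anti σ inf_le_left) (fixSub_anti σ inf_le_right)
  have h1 : meas σ A * meas σ A ≤ meas σ A * (Nat.card ↥(X ⊓ Y) * Nat.card ↥(CX ⊔ CY)) := by
    calc meas σ A * meas σ A = (Nat.card X * Nat.card Y) * (Nat.card CX * Nat.card CY) := by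
          nth_rewrite 1 [← hXm]; rw [← hYm]; simp only [meas]; ring
      _ ≤ (Nat.card ↥(X ⊔ Y) * Nat.card ↥(X ⊓ Y)) * (Nat.card ↥(CX ⊔ CY) * Nat.card ↥(CX ⊓ CY)) :=
          Nat.mul_le_mul (CfsgLib.CentrallyLarge.card_mul_le_sup X Y) (card_sup_mul_inf CX CY).le
      _ = meas σ (X ⊔ Y) * (Nat.card ↥(X ⊓ Y) * Nat.card ↥(CX ⊔ CY)) := by
          rw [meas, fixSub_sup]; ring
      _ ≤ _ := Nat.mul_le_mul_right _ (hmax _ (sup_le hX hY))
  have hpos : 0 < meas σ A := Nat.mul_pos Nat.card_pos Nat.card_pos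
  have h2 := Nat.le_of_mul_le_mul_left h1 hpos
  have h3 : meas σ (X ⊓ Y) ≤ meas σ A := hmax _ (inf_le_left.trans hX)
  have h4 : Nat.card CI ≤ Nat.card ↥(CX ⊔ CY) :=
    Nat.le_of_mul_le_mul_left (h3.trans h2) Nat.card_pos
  have heq : CX ⊔ CY = CI := SetLike.coe_injective
    (Set.eq_of_subset_of_ncard_le hle (by rw [← Nat.card_coe_set_eq, ← Nat.card_coe_set_eq]; exact h4)
      (Set.toFinite _))
  refine ⟨le_antisymm h3 (h2.trans_eq ?_), heq.symm⟩
  show _ = Nat.card ↥(X ⊓ Y) * Nat.card CI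
  rw [heq]

/-- The subgroup of `A` killing `[u, A]`. -/
def killSub (σ : G →* Module.End F U) (A : Subgroup G) (S : Set U) : Subgroup G where
  carrier := {b | b ∈ A ∧ ∀ u ∈ S, ∀ a ∈ A, σ b ((σ a - 1) u) = (σ a - 1) u}
  mul_mem' {x y} hx hy := ⟨A.mul_mem hx.1 hy.1, fun u hu a ha => by
    rw [map_mul, Module.End.mul_apply, hy.2 u hu a ha, hx.2 u hu a ha]⟩
  one_mem' := ⟨A.one_mem, fun u _ a _ => by simp⟩
  inv_mem' {x} hx := ⟨A.inv_mem hx.1, fun u hu a ha => by
    conv_lhs => rw [← hx.2 u hu a ha]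
    rw [← Module.End.mul_apply, sigma_inv_mul, Module.End.one_apply]⟩

theorem single (hmax : IsBest σ A) (hcomm : ∀ a ∈ A, ∀ b ∈ A, a * b = b * a) (u : U) :
    meas σ (killSub σ A {u}) = meas σ A ∧ fixSub σ (killSub σ A {u}) =
      Submodule.span F {v | ∃ a ∈ A, v = (σ a - 1) u} ⊔ fixSub σ A := by
  set B := killSub σ A {u} with hB
  set D := Submodule.span F {v | ∃ a ∈ A, v = (σ a - 1) u}
  set CA := fixSub σ A with hCA
  set X := D ⊔ CA
  have hBA : B ≤ A := fun b hb => hb.1
  have hXle : X ≤ fixSub σ B := by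
    refine sup_le (Submodule.span_le.mpr ?_) (fixSub_anti σ hBA)
    rintro _ ⟨a, ha, rfl⟩ b hb
    exact hb.2 u rfl a ha
  have hc : ∀ x ∈ A, ∀ y ∈ A, ∀ v, (σ x - 1) ((σ y - 1) v) = (σ y - 1) ((σ x - 1) v) := by
    intro x hx y hy v
    have : σ x (σ y v) = σ y (σ x v) := by
      rw [← Module.End.mul_apply, ← Module.End.mul_apply, ← map_mul, ← map_mul, hcomm x hx y hy]
    simp only [LinearMap.sub_apply, Module.End.one_apply, map_sub, this]
    abel
  let φ : A ⧸ B.subgroupOf A → X ⧸ CA.submoduleOf X := fun q =>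
    Submodule.Quotient.mk ⟨(σ (q.out : G) - 1) u,
      (le_sup_left : D ≤ X) (Submodule.subset_span ⟨_, q.out.2, rfl⟩)⟩
  have hφ : Function.Injective φ := by
    intro q q' h
    have h' : (σ (q.out : G) - 1) u - (σ (q'.out : G) - 1) u ∈ CA :=
      Submodule.mem_comap.mp ((Submodule.Quotient.eq _).mp h)
    rw [← q.out_eq', ← q'.out_eq']
    refine QuotientGroup.eq.mpr (Subgroup.mem_subgroupOf.mpr ?_)
    set a := (q.out : G)
    set b := (q'.out : G)
    refine ⟨A.mul_mem (A.inv_mem q.out.2) q'.out.2, ?_⟩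
    rintro v hv x hx
    rw [Set.mem_singleton_iff] at hv
    subst hv
    have h1 : (σ x - 1) ((σ a - 1) v) = (σ x - 1) ((σ b - 1) v) := by
      have := h' x hx
      rw [LinearMap.sub_apply, LinearMap.sub_apply, Module.End.one_apply, Module.End.one_apply]
      rw [← sub_eq_zero]
      rw [map_sub] at this
      simp only [LinearMap.sub_apply, Module.End.one_apply] at this ⊢
      linear_combination (norm := abel) this
    rw [hc x hx a q.out.2, hc x hx b q'.out.2] at h1
    have h2 : σ a ((σ x - 1) v) = σ b ((σ x - 1) v) := by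
      simp only [LinearMap.sub_apply, Module.End.one_apply] at h1 ⊢
      exact sub_left_injective h1
    show σ ((a⁻¹ * b : G)) _ = _
    rw [map_mul, Module.End.mul_apply, ← h2, ← Module.End.mul_apply, sigma_inv_mul,
      Module.End.one_apply]
  haveI : Finite (↥X ⧸ CA.submoduleOf X) :=
    Finite.of_surjective _ (Submodule.mkQ_surjective _)
  have h1 : Nat.card A * Nat.card CA ≤ Nat.card B * Nat.card X := by
    have hA1 : Nat.card B * Nat.card (A ⧸ B.subgroupOf A) = Nat.card A := by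
      rw [← Nat.card_congr (Subgroup.subgroupOfEquivOfLe hBA).toEquiv,
        ← Subgroup.index_eq_card, Subgroup.card_mul_index]
    have hX1 : Nat.card CA * Nat.card (X ⧸ CA.submoduleOf X) = Nat.card X := by
      rw [Submodule.card_eq_card_quotient_mul_card (CA.submoduleOf X), mul_comm,
        Nat.card_congr (Submodule.submoduleOfEquivOfLe (le_sup_right : CA ≤ X)).toEquiv]
      ring
    rw [← hA1, ← hX1]
    calc Nat.card B * Nat.card (A ⧸ B.subgroupOf A) * Nat.card CA
        ≤ Nat.card B * Nat.card (X ⧸ CA.submoduleOf X) * Nat.card CA :=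
          Nat.mul_le_mul_right _ (Nat.mul_le_mul_left _ (Nat.card_le_card_of_injective φ hφ))
      _ = _ := by ring
  have h2 : meas σ B ≤ meas σ A := hmax B hBA
  have h3 : Nat.card (fixSub σ B) ≤ Nat.card X :=
    Nat.le_of_mul_le_mul_left (h2.trans h1) Nat.card_pos
  have heq : X = fixSub σ B := SetLike.coe_injective
    (Set.eq_of_subset_of_ncard_le hXle (by rw [← Nat.card_coe_set_eq, ← Nat.card_coe_set_eq]; exact h3)
      (Set.toFinite _))
  refine ⟨le_antisymm h2 (h1.trans_eq ?_), heq.symm⟩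
  show _ = Nat.card B * Nat.card (fixSub σ B)
  rw [heq]

/-- Timmesfeld replacement: `B = C_A([U, A])`. -/
theorem replacement (hmax : IsBest σ A) (hcomm : ∀ a ∈ A, ∀ b ∈ A, a * b = b * a) :
    meas σ (killSub σ A Set.univ) = meas σ A ∧ fixSub σ (killSub σ A Set.univ) =
      Submodule.span F {v | ∃ u, ∃ a ∈ A, v = (σ a - 1) u} ⊔ fixSub σ A := by
  classical
  haveI := Fintype.ofFinite U
  have key : ∀ s : Finset U,
      meas σ (killSub σ A (s : Set U)) = meas σ A ∧ fixSub σ (killSub σ A (s : Set U)) =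
        Submodule.span F {v | ∃ u ∈ s, ∃ a ∈ A, v = (σ a - 1) u} ⊔ fixSub σ A := by
    intro s
    induction s using Finset.induction with
    | empty =>
      have hk : killSub σ A ((∅ : Finset U) : Set U) = A :=
        le_antisymm (fun b hb => hb.1) (fun b hb => ⟨hb, fun u hu => by simp at hu⟩)
      rw [hk]
      simp
    | @insert u s hus ih =>
      obtain ⟨s1, s2⟩ := single hmax hcomm u
      obtain ⟨ih1, ih2⟩ := ih
      have hk : killSub σ A ((insert u s : Finset U) : Set U) =
          killSub σ A {u} ⊓ killSub σ A (s : Set U) := by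
        ext b
        constructor
        · intro hb
          exact ⟨⟨hb.1, fun v hv => hb.2 v (by rw [Finset.coe_insert]; exact Or.inl hv)⟩,
            hb.1, fun v hv => hb.2 v (by rw [Finset.coe_insert]; exact Or.inr hv)⟩
        · rintro ⟨⟨hA, h1⟩, -, h2⟩
          refine ⟨hA, fun v hv => ?_⟩
          rw [Finset.coe_insert] at hv
          exact hv.elim (h1 v) (h2 v)
      obtain ⟨r1, r2⟩ := inf_step hmax (fun b (hb : b ∈ killSub σ A {u}) => hb.1)
        (fun b (hb : b ∈ killSub σ A (s : Set U)) => hb.1) s1 ih1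
      have hset : {v | ∃ w ∈ insert u s, ∃ a ∈ A, v = (σ a - 1) w} =
          {v | ∃ a ∈ A, v = (σ a - 1) u} ∪ {v | ∃ w ∈ s, ∃ a ∈ A, v = (σ a - 1) w} := by
        ext v; simp [or_and_right, exists_or]
      refine ⟨hk ▸ r1, ?_⟩
      rw [hk, r2, s2, ih2, hset, Submodule.span_union, sup_sup_sup_comm, sup_idem]
  have h := key Finset.univ
  simp only [Finset.coe_univ, Finset.mem_univ, true_and] at h
  exact h

end CfsgLib.PGV
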