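import Cfsg.Agent.PGVTheorem.TraceRing

/-!
Counting in a ring with central traces: a nontrivial endomorphism fixes at most `q ^ 2` of
the at least `q ^ 4` elements, and there are at most `q` endomorphisms, `q` the order of
the centre.
-/

set_option autoImplicit false

namespace CfsgLib.PGV.TraceData

variable {R : Type*} [Ring R] {τ : R →+ R} {Γ : Set (R →+* R)}

theorem coords (D : TraceData R τ Γ) {v s : R} (F : Frame τ v s) {a b c d : R}
    (ha : ∀ r, r * a = a * r) (hb : ∀ r, r * b = b * r) (hc : ∀ r, r * c = c * r)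
    (hd : ∀ r, r * d = d * r) :
    bil τ (a + b * v + c * s + d * (v * s)) 1 = d ∧
      bil τ (a + b * v + c * s + d * (v * s)) v = c + d * bil τ (v * s) v ∧
      bil τ (a + b * v + c * s + d * (v * s)) s = b + d * bil τ (v * s) s := by
  have hvτ := D.tau_eq F.tv
  have hsτ := D.tau_eq F.ts
  have hvs : v * s + s * v = 1 := by
    have := F.vs; rw [bil, hsτ, hvτ] at this; exact this
  have ht : trc τ (v * s) = 1 := by rw [trc, D.anti, hsτ, hvτ]; exact hvs
  have hone : ∀ u, bil τ a u = a * bil τ 1 u := fun u => by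
    conv_lhs => rw [← mul_one a, D.bil_smul_left ha]
  refine ⟨?_, ?_, ?_⟩ <;>
    simp only [bil_add_left, hone, D.bil_smul_left hb, D.bil_smul_left hc, D.bil_smul_left hd]
  · rw [D.bil_one, D.bil_one, D.bil_one, D.bil_one, F.tv, F.ts, ht, trc, D.tau_one, D.two]; simp
  · rw [bil_comm 1 v, D.bil_one, F.tv, D.bil_self, bil_comm s v, F.vs]; simp
  · rw [bil_comm 1 s, D.bil_one, F.ts, F.vs, D.bil_self]; simp

variable [Finite R]

/-- The ring has at least `q ^ 4` elements. -/
theorem card_ge (D : TraceData R τ Γ) {v s : R} (F : Frame τ v s) :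
    Nat.card (Subring.center R) ^ 4 ≤ Nat.card R := by
  let C := Subring.center R
  have hm : ∀ z : C, ∀ r : R, r * (z : R) = (z : R) * r := fun z r =>
    Subring.mem_center_iff.mp z.2 r
  let f : C × C × C × C → R := fun x => x.1 + x.2.1 * v + x.2.2.1 * s + x.2.2.2 * (v * s)
  have hf : Function.Injective f := by
    rintro ⟨a, b, c, d⟩ ⟨a', b', c', d'⟩ h
    obtain ⟨e1, e2, e3⟩ := D.coords F (hm a) (hm b) (hm c) (hm d)
    obtain ⟨f1, f2, f3⟩ := D.coords F (hm a') (hm b') (hm c') (hm d')
    simp only [f] at h
    rw [h] at e1 e2 e3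
    have hd : (d : R) = d' := e1.symm.trans f1
    rw [f2, hd] at e2
    rw [f3, hd] at e3
    have hc : (c' : R) = c := add_right_cancel e2
    have hb : (b' : R) = b := add_right_cancel e3
    have ha : (a : R) = a' := by
      rw [hd, ← hc, ← hb] at h
      exact add_right_cancel (add_right_cancel (add_right_cancel h))
    simp only [Prod.mk.injEq]
    exact ⟨Subtype.ext ha, Subtype.ext hb.symm, Subtype.ext hc.symm, Subtype.ext hd⟩
  calc Nat.card C ^ 4 = Nat.card (C × C × C × C) := by simp only [Nat.card_prod]; ring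
    _ ≤ _ := Nat.card_le_card_of_injective f hf

theorem exists_moved_frame (D : TraceData R τ Γ) {β : R →+* R} (hβ : β ∈ Γ) (hne : ∃ r, β r ≠ r) :
    ∃ v s, Frame τ v s ∧ ∀ γ ∈ Γ, γ v = v := by
  by_cases hex : ∃ r0, ¬ ∀ r, r * (β r0 + r0) = (β r0 + r0) * r
  · obtain ⟨r0, hr0⟩ := hex
    have hv : trc τ (β r0 + r0) = 0 := by
      have h := D.fix_tr β hβ r0
      rw [map_add, D.comm_tau β hβ] at h
      have h' := D.two (r0 + τ r0)
      simp only [trc, map_add]
      linear_combination (norm := abel) h + h'
    obtain ⟨s, hs⟩ := D.exists_frame hv hr0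
    exact ⟨_, s, hs, fun γ hγ => D.quad β hβ γ hγ r0⟩
  · exfalso
    push_neg at hex
    have hor : ∀ r, β r = r ∨ β r = τ r := by
      intro r
      obtain ⟨φ, hφ⟩ : ∃ φ, φ = β r + r := ⟨_, rfl⟩
      have hc : ∀ w, w * φ = φ * w := hφ ▸ hex r
      have hN : β (r * τ r) = r * τ r := D.map_central hβ (fun w => D.norm_central r w)
      rw [map_mul, D.comm_tau β hβ] at hN
      have hb : β r = r + φ := by rw [hφ]; rw [add_comm (β r), D.cancel]
      rw [hb, map_add, D.tau_central hc, add_mul, mul_add, mul_add, hc r] at hN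
      have h0 : φ * (trc τ r + φ) = 0 := by
        simp only [trc, mul_add]
        linear_combination (norm := abel) hN
      by_cases hφ0 : φ = 0
      · exact Or.inl (by rw [hb, hφ0, add_zero])
      · right
        have := D.eq_zero_of_mul hc hφ0 h0
        have hφt : φ = trc τ r := (D.eq_of_add this).symm
        rw [hb, hφt, trc, D.cancel]
    obtain ⟨r, hr⟩ := hne
    have hτ : ∀ s, β s = τ s := by
      intro s
      rcases hor s with h | h
      · rcases hor (r + s) with h' | h'
        · rw [map_add, h] at h'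
          exact absurd (add_right_cancel h') hr
        · rw [map_add, map_add, (hor r).resolve_left hr] at h'
          exact add_left_cancel h'
      · exact h
    obtain ⟨a, b, hab⟩ := D.noncomm
    apply hab
    have := D.anti (τ a) (τ b)
    rw [← hτ (τ a * τ b), map_mul, hτ, hτ, D.invol, D.invol] at this
    exact this

/-- An endomorphism moving `s` sends it to `s + a + b v` with `a² + b² v² + b = 0`. -/
theorem delta_s (D : TraceData R τ Γ) {v s : R} (F : Frame τ v s) {β : R →+* R} (hβ : β ∈ Γ)
    (hv : β v = v) : ∃ a b, (∀ r, r * a = a * r) ∧ (∀ r, r * b = b * r) ∧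
      β s + s = a + b * v ∧ b = bil τ (β s + s) s ∧ a * a + b * b * (v * v) = b := by
  have hvτ := D.tau_eq F.tv
  have hsτ := D.tau_eq F.ts
  set e := β s + s with he
  have hτβ : τ (β s) = β s := by rw [← D.comm_tau β hβ, hsτ]
  have heτ : τ e = e := by rw [he, map_add, hτβ, hsτ]
  have h1 : bil τ e 1 = 0 := by rw [D.bil_one]; exact D.trc_of_fixed heτ
  have h2 : bil τ e v = 0 := by
    have hbv : bil τ s v = 1 := by rw [bil_comm]; exact F.vs
    rw [he, bil_add_left, hbv]
    have : bil τ (β s) v = 1 := by
      have h := congrArg β hbv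
      rw [bil, map_add, map_mul, map_mul, D.comm_tau β hβ, D.comm_tau β hβ, hv, map_one] at h
      exact h
    rw [this, D.two]
  have hexp := D.expand F e
  rw [h1, h2, zero_mul, zero_mul, add_zero, add_zero] at hexp
  set a := bil τ e (v * s)
  set b := bil τ e s with hb
  have hac : ∀ r, r * a = a * r := fun r => D.bil_central e (v * s) r
  have hbc : ∀ r, r * b = b * r := fun r => D.bil_central e s r
  refine ⟨a, b, hac, hbc, hexp, rfl, ?_⟩
  have hN : β (s * τ s) = s * τ s := D.map_central hβ (fun w => D.norm_central s w)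
  rw [map_mul, D.comm_tau β hβ, hτβ, hsτ] at hN
  have hβs : β s = s + (a + b * v) := by rw [← hexp, he, add_comm (β s), D.cancel]
  rw [hβs] at hN
  have hvs : v * s + s * v = 1 := by
    have := F.vs; rw [bil, hsτ, hvτ] at this; exact this
  have e1 : b * v * s + s * (b * v) = b := by
    rw [← mul_assoc s, hbc s, mul_assoc b s, mul_assoc, ← mul_add, hvs, mul_one]
  have e2 : b * v * a = a * (b * v) := hac (b * v)
  have e3 : b * v * (b * v) = b * b * (v * v) := by
    rw [mul_assoc b v, ← mul_assoc v b, hbc v, mul_assoc b v, ← mul_assoc]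
  apply D.eq_of_add
  simp only [add_mul, mul_add, hac s, e2, e3] at hN
  linear_combination (norm := abel)
    hN - e1 - D.two (a * (b * v)) - D.two (a * s)

theorem eq_of_fix (D : TraceData R τ Γ) {v s : R} (F : Frame τ v s) {β γ : R →+* R} (hβ : β ∈ Γ)
    (hγ : γ ∈ Γ) (hv : β v = v) (hv' : γ v = v) (h : β s = γ s) : β = γ := by
  refine RingHom.ext fun r => ?_
  rw [D.expand F r]
  simp only [map_add, map_mul, hv, hv', h, D.map_central hβ (fun w => D.bil_central r _ w),
    D.map_central hγ (fun w => D.bil_central r _ w)]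

theorem card_endo_le (D : TraceData R τ Γ) {v s : R} (F : Frame τ v s)
    (hv : ∀ γ ∈ Γ, γ v = v) : Nat.card Γ ≤ Nat.card (Subring.center R) := by
  let f : Γ → Subring.center R := fun γ =>
    ⟨bil τ (γ.1 s + s) s, Subring.mem_center_iff.mpr fun r => D.bil_central _ _ r⟩
  refine Nat.card_le_card_of_injective f fun β γ h => ?_
  obtain ⟨a, b, hac, -, hab, hb, hq⟩ := D.delta_s F β.2 (hv _ β.2)
  obtain ⟨a', b', hac', -, hab', hb', hq'⟩ := D.delta_s F γ.2 (hv _ γ.2)
  have hbb : b = b' := by rw [hb, hb']; exact congrArg Subtype.val h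
  subst hbb
  have haa : a = a' := D.sq_eq hac hac' (add_right_cancel (hq.trans hq'.symm))
  subst haa
  exact Subtype.ext (D.eq_of_fix F β.2 γ.2 (hv _ β.2) (hv _ γ.2)
    (add_right_cancel (hab.trans hab'.symm)))

theorem card_fixed_le (D : TraceData R τ Γ) {v s : R} (F : Frame τ v s) {β : R →+* R} (hβ : β ∈ Γ)
    (hne : ∃ r, β r ≠ r) (hv : β v = v) :
    Nat.card {r // β r = r} ≤ Nat.card (Subring.center R) ^ 2 := by
  obtain ⟨a, b, hac, hbc, hab, -, hq⟩ := D.delta_s F hβ hv
  have hb0 : b ≠ 0 := by
    intro h
    rw [h] at hq hab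
    simp only [mul_zero, zero_mul, add_zero] at hq hab
    have ha0 : a = 0 := D.sq_eq hac (b := 0) (fun r => by simp) (by simpa using hq)
    rw [ha0] at hab
    have hs : β s = s := D.eq_of_add hab
    obtain ⟨r, hr⟩ := hne
    apply hr
    conv_lhs => rw [D.expand F r]
    simp only [map_add, map_mul, hv, hs, D.map_central hβ (fun w => D.bil_central r _ w)]
    exact (D.expand F r).symm
  let f : {r // β r = r} → Subring.center R × Subring.center R := fun r =>
    (⟨bil τ r.1 (v * s), Subring.mem_center_iff.mpr fun w => D.bil_central _ _ w⟩,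
      ⟨bil τ r.1 s, Subring.mem_center_iff.mpr fun w => D.bil_central _ _ w⟩)
  have hshape : ∀ r : {r // β r = r}, bil τ r.1 v = 0 ∧ bil τ r.1 1 = 0 := by
    rintro ⟨r, hr⟩
    simp only
    set c := bil τ r v
    set d := bil τ r 1
    have hcc : ∀ w, w * c = c * w := fun w => D.bil_central r v w
    have hdc : ∀ w, w * d = d * w := fun w => D.bil_central r 1 w
    have h1 : (c + d * v) * (a + b * v) = 0 := by
      rw [← hab]
      have h := hr
      conv_lhs at h => rw [D.expand F r]
      conv_rhs at h => rw [D.expand F r]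
      simp only [map_add, map_mul, hv, D.map_central hβ (fun w => D.bil_central r _ w)] at h
      change _ + c * β s + d * (v * β s) = _ + c * s + d * (v * s) at h
      simp only [add_mul, mul_add, mul_assoc]
      linear_combination (norm := abel) h + D.two (c * s) + D.two (d * (v * s))
    have h2 : (a + b * v) * (a + b * v) = b := by
      have e2 : b * v * a = a * (b * v) := hac (b * v)
      have e3 : b * v * (b * v) = b * b * (v * v) := by
        rw [mul_assoc b v, ← mul_assoc v b, hbc v, mul_assoc b v, ← mul_assoc]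
      simp only [add_mul, mul_add, e2, e3]
      linear_combination (norm := abel) hq + D.two (a * (b * v))
    have h3 : c + d * v = 0 := by
      refine D.eq_zero_of_mul hbc hb0 ?_
      calc b * (c + d * v) = (c + d * v) * b := (hbc _).symm
        _ = 0 := by rw [← h2, ← mul_assoc, h1, zero_mul]
    have hd0 : d = 0 := by
      have := congrArg (fun x => bil τ x s) h3
      simp only [bil_add_left, D.bil_smul_left hdc, F.vs, mul_one] at this
      rw [← mul_one c, D.bil_smul_left hcc, bil_comm, D.bil_one, F.ts] at this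
      simpa [bil] using this
    rw [hd0, zero_mul, add_zero] at h3
    exact ⟨h3, hd0⟩
  calc Nat.card {r // β r = r} ≤ Nat.card (Subring.center R × Subring.center R) := by
        refine Nat.card_le_card_of_injective f fun r r' h => Subtype.ext ?_
        simp only [f, Prod.mk.injEq, Subtype.mk.injEq] at h
        rw [D.expand F r.1, D.expand F r'.1, h.1, h.2, (hshape r).1, (hshape r).2, (hshape r').1,
          (hshape r').2]
    _ = _ := by rw [Nat.card_prod, sq]

/-- The combined bound. -/
theorem center_le_two (D : TraceData R τ Γ) {β : R →+* R} (hβ : β ∈ Γ) (hne : ∃ r, β r ≠ r)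
    (hbound : Nat.card R ≤ 2 * Nat.card {r // β r = r} * Nat.card Γ) :
    Nat.card (Subring.center R) ≤ 2 := by
  obtain ⟨v, s, F, hv⟩ := D.exists_moved_frame hβ hne
  have h1 := D.card_ge F
  have h2 := D.card_fixed_le F hβ hne (hv _ hβ)
  have h3 := D.card_endo_le F hv
  set q := Nat.card (Subring.center R)
  have hq : 0 < q := Nat.card_pos
  have h4 : q ^ 4 ≤ 2 * q ^ 3 := by
    calc q ^ 4 ≤ 2 * Nat.card {r // β r = r} * Nat.card Γ := h1.trans hbound
      _ ≤ 2 * q ^ 2 * q := by gcongr
      _ = 2 * q ^ 3 := by ring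
  by_contra h
  have : 0 < q ^ 3 := by positivity
  have : 3 * q ^ 3 ≤ q ^ 4 := by
    calc 3 * q ^ 3 ≤ q * q ^ 3 := Nat.mul_le_mul_right _ (by omega)
      _ = q ^ 4 := by ring
  omega

/-- With a two-element centre every element of norm one has order dividing six. -/
theorem pow_six (D : TraceData R τ Γ) (hq : Nat.card (Subring.center R) ≤ 2) {r : R}
    (hr : r * τ r = 1) : r ^ 6 = 1 := by
  haveI := D.nontriv
  have hbin : trc τ r = 0 ∨ trc τ r = 1 := by
    by_contra h
    push_neg at h
    let f : Fin 3 → Subring.center R := ![0, 1,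
      ⟨trc τ r, Subring.mem_center_iff.mpr fun w => D.trc_central r w⟩]
    have hf : Function.Injective f := by
      intro i j hij
      have hij' := congrArg Subtype.val hij
      fin_cases i <;> fin_cases j <;>
        first
          | rfl
          | simp [f, h.1, h.2, Ne.symm h.1, Ne.symm h.2] at hij'
    have := Nat.card_le_card_of_injective f hf
    rw [Nat.card_eq_fintype_card, Fintype.card_fin] at this
    omega
  have e : r ^ 2 = trc τ r * r + 1 := by
    have hd : trc τ r * r = r * trc τ r := (D.trc_central r r).symm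
    rw [hd, trc, mul_add, ← hr, sq]
    linear_combination (norm := abel) -D.two (r * τ r)
  rcases hbin with h | h <;> rw [h] at e
  · rw [show (6 : ℕ) = 2 * 3 from rfl, pow_mul, e]; simp
  · have e3 : r ^ 3 = 1 := by
      rw [pow_succ, e, one_mul, add_mul, one_mul, ← sq, e, one_mul]
      linear_combination (norm := abel) D.two r
    rw [show (6 : ℕ) = 3 * 2 from rfl, pow_mul, e3, one_pow]

end CfsgLib.PGV.TraceData
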