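import Mathlib

/-!
Finite rings of characteristic two with an anti-involution `τ` all of whose traces `r + τ r`
are central, and a set of ring endomorphisms fixing the traces: if no proper nonzero left
ideal is stable, the ring is four-dimensional over its centre, which is a field, and the
endomorphisms form a set of size at most the centre.
-/

set_option autoImplicit false

namespace CfsgLib.PGV

variable {R : Type*} [Ring R]

/-- The data of a ring with central traces. -/
structure TraceData (R : Type*) [Ring R] (τ : R →+ R) (Γ : Set (R →+* R)) : Prop where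
  two : ∀ r : R, r + r = 0
  anti : ∀ r s, τ (r * s) = τ s * τ r
  invol : ∀ r, τ (τ r) = r
  tr : ∀ r s, s * (r + τ r) = (r + τ r) * s
  comm_tau : ∀ β ∈ Γ, ∀ r, β (τ r) = τ (β r)
  fix_tr : ∀ β ∈ Γ, ∀ r, β (r + τ r) = r + τ r
  quad : ∀ β ∈ Γ, ∀ γ ∈ Γ, ∀ r, γ (β r + r) = β r + r
  irr : ∀ I : AddSubgroup R, (∀ r, ∀ i ∈ I, r * i ∈ I) → (∀ i ∈ I, τ i ∈ I) →
    (∀ β ∈ Γ, ∀ i ∈ I, β i ∈ I) → I = ⊥ ∨ I = ⊤
  noncomm : ∃ r s : R, r * s ≠ s * r

variable {τ : R →+ R} {Γ : Set (R →+* R)}

namespace TraceData

/-- The trace. -/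
def trc (τ : R →+ R) (r : R) : R := r + τ r

/-- The associated symmetric form. -/
def bil (τ : R →+ R) (r s : R) : R := r * τ s + s * τ r

theorem nontriv (D : TraceData R τ Γ) : Nontrivial R := by
  obtain ⟨r, s, h⟩ := D.noncomm
  exact ⟨_, _, h⟩

theorem eq_of_add (D : TraceData R τ Γ) {a b : R} (h : a + b = 0) : a = b := by
  rw [eq_neg_of_add_eq_zero_left h]
  exact neg_eq_of_add_eq_zero_left (D.two b)

theorem cancel (D : TraceData R τ Γ) (a b : R) : a + (a + b) = b := by
  rw [← add_assoc, D.two, zero_add]

theorem tau_one (D : TraceData R τ Γ) : τ 1 = 1 := by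
  have h := D.anti (τ 1) 1
  rw [mul_one, D.invol, mul_one] at h
  exact h.symm

theorem tau_trc (D : TraceData R τ Γ) (r : R) : τ (trc τ r) = trc τ r := by
  simp only [trc, map_add, D.invol]; rw [add_comm]

theorem trc_central (D : TraceData R τ Γ) (r s : R) : s * trc τ r = trc τ r * s := D.tr r s

theorem trc_tau (D : TraceData R τ Γ) (r : R) : trc τ (τ r) = trc τ r := by
  simp only [trc, D.invol]; rw [add_comm]

theorem tau_eq (D : TraceData R τ Γ) {r : R} (h : trc τ r = 0) : τ r = r :=
  (D.eq_of_add h).symm

theorem trc_of_fixed (D : TraceData R τ Γ) {r : R} (h : τ r = r) : trc τ r = 0 := by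
  rw [trc, h, D.two]

/-- A left ideal killing and killed by all commutators vanishes. -/
theorem kill (D : TraceData R τ Γ) (a : R)
    (h : ∀ r s, a * (r * s) = a * (s * r)) (hc : ∀ r, r * a = a * r) : a = 0 := by
  let J : AddSubgroup R :=
    { carrier := {a | ∀ w r s, a * (w * (r * s)) = a * (w * (s * r)) ∧
          (r * s) * (w * a) = (s * r) * (w * a)}
      add_mem' := by
        intro a b ha hb w r s
        constructor
        · rw [add_mul, add_mul, (ha w r s).1, (hb w r s).1]
        · simp only [mul_add]; rw [(ha w r s).2, (hb w r s).2]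
      zero_mem' := by intro w r s; simp
      neg_mem' := by
        intro a ha w r s
        simp only [neg_mul, mul_neg, (ha w r s).1, (ha w r s).2, and_self] }
  have hτ : ∀ i ∈ J, τ i ∈ J := by
    intro i hi w r s
    constructor
    · have := congrArg τ (hi (τ w) (τ s) (τ r)).2
      simp only [D.anti, D.invol] at this
      simp only [mul_assoc] at this ⊢
      exact this
    · have := congrArg τ (hi (τ w) (τ s) (τ r)).1
      simp only [D.anti, D.invol] at this
      simp only [mul_assoc] at this ⊢
      exact this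
  have hβ : ∀ β ∈ Γ, ∀ i ∈ J, β i ∈ J := by
    intro β hβ i hi w r s
    have hinv : ∀ x, β (β x) = x := fun x => by
      have := D.quad β hβ β hβ x
      rw [map_add, add_comm (β x)] at this
      exact add_right_cancel this
    constructor
    · have := congrArg β (hi (β w) (β r) (β s)).1
      simpa only [map_mul, hinv] using this
    · have := congrArg β (hi (β w) (β r) (β s)).2
      simpa only [map_mul, hinv] using this
  have hl : ∀ r, ∀ i ∈ J, r * i ∈ J := by
    intro u i hi w r s
    constructor
    · rw [mul_assoc u i, (hi w r s).1, mul_assoc u i]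
    · rw [← mul_assoc w u i]; exact (hi (w * u) r s).2
  have haJ : a ∈ J := by
    intro w r s
    constructor
    · rw [← mul_assoc a w, ← hc w, mul_assoc, h r s, ← mul_assoc w a, hc w, mul_assoc]
    · rw [hc w, ← mul_assoc, ← mul_assoc, hc (r * s), hc (s * r), h r s]
  rcases D.irr J hl hτ hβ with hJ | hJ
  · rw [hJ] at haJ; exact haJ
  · exfalso
    obtain ⟨r, s, hrs⟩ := D.noncomm
    have h1 : (1 : R) ∈ J := hJ ▸ AddSubgroup.mem_top _
    have := (h1 1 r s).1
    simp only [one_mul] at this
    exact hrs this

theorem tau_central (D : TraceData R τ Γ) {z : R} (hz : ∀ r, r * z = z * r) : τ z = z := by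
  have hτz : ∀ r, r * τ z = τ z * r := fun r => by
    have := congrArg τ (hz (τ r))
    simpa only [D.anti, D.invol] using this.symm
  have hkey : ∀ r s, s * ((z + τ z) * τ r) = (z + τ z) * τ r * s := by
    intro r s
    have h1 : z * trc τ r + trc τ (z * r) = (z + τ z) * τ r := by
      simp only [trc, mul_add, D.anti, add_mul, hτz (τ r)]
      linear_combination (norm := abel) (D.two (z * r))
    rw [← h1]
    have e1 : s * (z * trc τ r) = z * trc τ r * s := by
      rw [← mul_assoc, hz s, mul_assoc, D.trc_central r s, ← mul_assoc]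
    rw [mul_add, add_mul, e1, D.trc_central (z * r) s]
  have h0 : z + τ z = 0 := D.kill _ (fun r s => by
    have := hkey (τ r) s
    rw [D.invol] at this
    calc (z + τ z) * (r * s) = s * ((z + τ z) * r) := by rw [this, mul_assoc]
      _ = (z + τ z) * (s * r) := by
        rw [← mul_assoc, ← mul_assoc, mul_add, add_mul (z) (τ z) s, hz s, hτz s]) (fun r => by rw [mul_add, add_mul, hz r, hτz r])
  exact (D.eq_of_add h0).symm

theorem trc_mul_central (D : TraceData R τ Γ) {z : R} (hz : ∀ r, r * z = z * r) (r : R) :
    trc τ (z * r) = z * trc τ r := by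
  rw [trc, D.anti, D.tau_central hz, hz, trc, mul_add]

theorem map_central (D : TraceData R τ Γ) {β : R →+* R} (hβ : β ∈ Γ) {z : R}
    (hz : ∀ r, r * z = z * r) : β z = z := by
  have hinv : ∀ x, β (β x) = x := fun x => by
    have := D.quad β hβ β hβ x
    rw [map_add, add_comm (β x)] at this
    exact add_right_cancel this
  have hβz : ∀ r, r * β z = β z * r := fun r => by
    have := congrArg β (hz (β r))
    simpa only [map_mul, hinv] using this
  have hf : ∀ r, (β z + z) * r = (β z + z) * τ r := by
    intro r
    apply D.eq_of_add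
    have h := D.fix_tr β hβ (z * r)
    rw [show z * r + τ (z * r) = z * trc τ r from D.trc_mul_central hz r, map_mul] at h
    have h' : β (trc τ r) = trc τ r := D.fix_tr β hβ r
    rw [h'] at h
    rw [← mul_add, show r + τ r = trc τ r from rfl, add_mul, h, D.two]
  have hfc : ∀ r, r * (β z + z) = (β z + z) * r := fun r => by rw [mul_add, add_mul, hz r, hβz r]
  have h0 : β z + z = 0 := D.kill _ (fun r s => by
    calc (β z + z) * (r * s) = (β z + z) * τ (r * s) := hf _
      _ = (β z + z) * τ s * τ r := by rw [D.anti, mul_assoc]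
      _ = (β z + z) * s * τ r := by rw [← hf s]
      _ = s * ((β z + z) * τ r) := by rw [← hfc s, mul_assoc]
      _ = s * ((β z + z) * r) := by rw [← hf r]
      _ = (β z + z) * (s * r) := by rw [← mul_assoc, hfc s, mul_assoc]) hfc
  exact D.eq_of_add h0

/-- The centre is a field. -/
theorem inverse_central (D : TraceData R τ Γ) {z : R} (hz : ∀ r, r * z = z * r) (h0 : z ≠ 0) :
    ∃ i, i * z = 1 ∧ ∀ r, r * i = i * r := by
  rcases D.irr (AddMonoidHom.mulRight z).range
      (by rintro r _ ⟨i, rfl⟩; exact ⟨r * i, mul_assoc r i z⟩)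
      (by
        rintro _ ⟨i, rfl⟩
        refine ⟨τ i, ?_⟩
        show τ i * z = τ (i * z)
        rw [D.anti, D.tau_central hz, hz])
      (by
        rintro β hβ _ ⟨i, rfl⟩
        refine ⟨β i, ?_⟩
        show β i * z = β (i * z)
        rw [map_mul, D.map_central hβ hz]) with h | h
  · exfalso
    have hm : z ∈ (AddMonoidHom.mulRight z).range := ⟨1, one_mul z⟩
    rw [h] at hm
    exact h0 hm
  · obtain ⟨i, hi⟩ : (1 : R) ∈ (AddMonoidHom.mulRight z).range := h ▸ AddSubgroup.mem_top _
    have hi' : i * z = 1 := hi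
    have hzi : z * i = 1 := by rw [← hz i, hi']
    refine ⟨i, hi', fun r => ?_⟩
    calc r * i = (i * z) * r * i := by rw [hi', one_mul]
      _ = i * (r * z) * i := by rw [hz r, mul_assoc i z r]
      _ = i * r * (z * i) := by simp only [mul_assoc]
      _ = i * r := by rw [hzi, mul_one]

theorem eq_zero_of_mul (D : TraceData R τ Γ) {z r : R} (hz : ∀ r, r * z = z * r) (h0 : z ≠ 0)
    (h : z * r = 0) : r = 0 := by
  obtain ⟨i, hi, -⟩ := D.inverse_central hz h0
  rw [← one_mul r, ← hi, mul_assoc, h, mul_zero]

theorem bil_eq_trc (D : TraceData R τ Γ) (r s : R) : bil τ r s = trc τ (r * τ s) := by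
  simp only [bil, trc, D.anti, D.invol]

theorem bil_central (D : TraceData R τ Γ) (r s w : R) : w * bil τ r s = bil τ r s * w := by
  rw [D.bil_eq_trc]; exact D.trc_central _ _

theorem trc_comm (D : TraceData R τ Γ) (r s : R) : trc τ (r * s) = trc τ (s * r) := by
  have e : ∀ x, τ x = x + trc τ x := fun x => by simp only [trc]; rw [D.cancel]
  apply D.eq_of_add
  simp only [trc, D.anti]
  rw [e r, e s]
  simp only [add_mul, mul_add]
  have h1 := D.trc_central r s
  have h2 := D.trc_central s r
  have h3 := D.trc_central r (trc τ s)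
  rw [h1, h2, h3]
  linear_combination (norm := abel) D.two (r * s) + D.two (s * r) + D.two (trc τ r * trc τ s)
    + D.two (trc τ r * s) + D.two (trc τ s * r)

/-- `rs + sr` in terms of traces. -/
theorem mul_add_mul (D : TraceData R τ Γ) (r s : R) :
    r * s + s * r = trc τ r * s + trc τ s * r + bil τ r s := by
  have e : ∀ x, τ x = x + trc τ x := fun x => by simp only [trc]; rw [D.cancel]
  rw [bil, e r, e s, mul_add, mul_add, D.trc_central s r, D.trc_central r s]
  linear_combination (norm := abel) -D.two (trc τ r * s) - D.two (trc τ s * r)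

theorem norm_central (D : TraceData R τ Γ) (r s : R) : s * (r * τ r) = (r * τ r) * s := by
  have e : τ r = r + trc τ r := by simp only [trc]; rw [D.cancel]
  have h := D.mul_add_mul r s
  have hc1 : r * (trc τ r) = trc τ r * r := D.trc_central r r
  have hc2 : r * (trc τ s) = trc τ s * r := D.trc_central s r
  have hc3 : r * bil τ r s = bil τ r s * r := D.bil_central r s r
  have e2 : r * r * s + s * (r * r) = trc τ r * (r * s + s * r) := by
    have h' : r * (r * s + s * r) + (r * s + s * r) * r = trc τ r * (r * s + s * r) := by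
      rw [h]
      simp only [mul_add, add_mul, ← mul_assoc, hc1, hc2, hc3]
      simp only [mul_assoc]
      have hd := congrArg (fun x => trc τ r * x) h
      simp only [mul_add, ← mul_assoc] at hd
      linear_combination (norm := (simp only [mul_assoc]; abel))
        hd + D.two (trc τ s * r * r) + D.two (bil τ r s * r)
    rw [← h']
    simp only [mul_add, add_mul, ← mul_assoc]
    linear_combination (norm := abel) -D.two (r * s * r)
  apply D.eq_of_add
  rw [e, mul_add r r, hc1]
  simp only [mul_add, add_mul]
  rw [← mul_assoc s (trc τ r), D.trc_central r s, mul_assoc (trc τ r) s r, mul_assoc (trc τ r) r s]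
  simp only [mul_add] at e2
  linear_combination (norm := abel) e2 + D.two (trc τ r * (r * s)) + D.two (trc τ r * (s * r))

theorem bil_add_left (r r' s : R) : bil τ (r + r') s = bil τ r s + bil τ r' s := by
  simp only [bil, map_add, add_mul, mul_add]; abel

theorem bil_comm (r s : R) : bil τ r s = bil τ s r := add_comm _ _

theorem bil_self (D : TraceData R τ Γ) (r : R) : bil τ r r = 0 := D.two _

theorem bil_one (D : TraceData R τ Γ) (r : R) : bil τ r 1 = trc τ r := by
  simp only [bil, trc, D.tau_one, mul_one, one_mul]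

theorem bil_smul_left (D : TraceData R τ Γ) {z : R} (hz : ∀ r, r * z = z * r) (r s : R) :
    bil τ (z * r) s = z * bil τ r s := by
  rw [bil, D.anti, D.tau_central hz, hz, bil, mul_add, mul_assoc, ← mul_assoc s, hz s, mul_assoc]

theorem nondeg (D : TraceData R τ Γ) {r : R} (h : ∀ w, bil τ r w = 0) : r = 0 := by
  let J : AddSubgroup R :=
    { carrier := {r | ∀ w, bil τ r w = 0}
      add_mem' := by intro a b ha hb w; rw [bil_add_left, ha, hb, add_zero]
      zero_mem' := by intro w; simp [bil]
      neg_mem' := by
        intro a ha w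
        have h := bil_add_left (τ := τ) a (-a) w
        rw [add_neg_cancel, ha w, zero_add] at h
        rw [← h]; simp [bil] }
  have hl : ∀ u, ∀ i ∈ J, u * i ∈ J := by
    intro u i hi w
    rw [D.bil_eq_trc, mul_assoc, D.trc_comm, mul_assoc]
    have := hi (τ u * w)
    rw [D.bil_eq_trc, D.anti, D.invol] at this
    exact this
  rcases D.irr J hl (fun i hi => by
      have : trc τ i = 0 := by rw [← D.bil_one]; exact hi 1
      rw [D.tau_eq this]; exact hi)
      (fun β hβ i hi w => by
        have hinv : β (β w) = w := by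
          have := D.quad β hβ β hβ w
          rw [map_add, add_comm (β w)] at this
          exact add_right_cancel this
        have := congrArg β (hi (β w))
        simpa only [bil, map_add, map_mul, D.comm_tau β hβ, hinv, map_zero] using this) with hJ | hJ
  · have hr : r ∈ J := h
    rw [hJ] at hr; exact hr
  · exfalso
    obtain ⟨a, b, hab⟩ := D.noncomm
    have hid : ∀ x, τ x = x := fun x => D.tau_eq (by
      rw [← D.bil_one]; exact (show x ∈ J from hJ ▸ AddSubgroup.mem_top _) 1)
    have := D.anti a b
    rw [hid, hid, hid] at this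
    exact hab this

theorem sq_eq (D : TraceData R τ Γ) {a b : R} (ha : ∀ r, r * a = a * r) (hb : ∀ r, r * b = b * r)
    (h : a * a = b * b) : a = b := by
  by_contra hne
  have h0 : a + b ≠ 0 := fun h => hne (D.eq_of_add h)
  have hc : ∀ r, r * (a + b) = (a + b) * r := fun r => by rw [mul_add, add_mul, ha, hb]
  apply h0
  refine D.eq_zero_of_mul hc h0 ?_
  rw [add_mul, mul_add, mul_add, ha b, h]
  linear_combination (norm := abel) D.two (b * b) + D.two (a * b)

/-- A standard basis `1, v, s, vs`. -/
structure Frame (τ : R →+ R) (v s : R) : Prop where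
  tv : trc τ v = 0
  ts : trc τ s = 0
  vs : bil τ v s = 1

theorem exists_frame (D : TraceData R τ Γ) {v : R} (hv : trc τ v = 0)
    (hz : ¬ ∀ r, r * v = v * r) : ∃ s, Frame τ v s := by
  by_cases hex : ∃ w, trc τ w = 0 ∧ bil τ v w ≠ 0
  · obtain ⟨w, hw, hne⟩ := hex
    obtain ⟨i, hi, hic⟩ := D.inverse_central (fun r => D.bil_central v w r) hne
    refine ⟨i * w, hv, ?_, ?_⟩
    · rw [D.trc_mul_central hic, hw, mul_zero]
    · rw [bil_comm, D.bil_smul_left hic, bil_comm, hi]
  · exfalso
    push_neg at hex
    obtain ⟨i, hi⟩ : ∃ i, trc τ i ≠ 0 := by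
      by_contra h
      push_neg at h
      obtain ⟨a, b, hab⟩ := D.noncomm
      have := D.anti a b
      rw [D.tau_eq (h _), D.tau_eq (h _), D.tau_eq (h _)] at this
      exact hab this
    obtain ⟨j, hj, hjc⟩ := D.inverse_central (fun r => D.trc_central i r) hi
    have ht1 : trc τ (j * i) = 1 := by rw [D.trc_mul_central hjc, hj]
    set i' := j * i
    have hg := fun r => D.bil_central v i' r
    have hzero : v + bil τ v i' = 0 := by
      refine D.nondeg fun w => ?_
      have hw := D.trc_central w
      have h0 : trc τ (w + trc τ w * i') = 0 := by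
        have e : trc τ (w + trc τ w * i') = trc τ w + trc τ (trc τ w * i') := by
          simp only [trc, map_add]; abel
        rw [e, D.trc_mul_central hw, ht1, mul_one, D.two]
      have := hex _ h0
      rw [bil_comm, bil_add_left, D.bil_smul_left hw, bil_comm w, bil_comm i'] at this
      rw [bil_add_left, ← mul_one (bil τ v i'), D.bil_smul_left hg, bil_comm 1, D.bil_one,
        hw (bil τ v i'), this]
    exact hz fun r => by rw [D.eq_of_add hzero]; exact hg r

/-- Coordinates with respect to a frame. -/
theorem expand (D : TraceData R τ Γ) {v s : R} (F : Frame τ v s) (r : R) :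
    r = bil τ r (v * s) + bil τ r s * v + bil τ r v * s + bil τ r 1 * (v * s) := by
  have hvτ := D.tau_eq F.tv
  have hsτ := D.tau_eq F.ts
  have hvs : v * s + s * v = 1 := by
    have := F.vs; rw [bil, hsτ, hvτ] at this; exact this
  have ht : trc τ (v * s) = 1 := by rw [trc, D.anti, hsτ, hvτ]; exact hvs
  apply D.eq_of_add
  set w := r + (bil τ r (v * s) + bil τ r s * v + bil τ r v * s + bil τ r 1 * (v * s)) with hwdef
  have hc := fun a b x => D.bil_central a b x
  have h1c : ∀ x : R, x * 1 = 1 * x := fun x => by simp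
  have lin : ∀ u, bil τ w u = bil τ r u + (bil τ r (v * s) * bil τ 1 u + bil τ r s * bil τ v u
      + bil τ r v * bil τ s u + bil τ r 1 * bil τ (v * s) u) := by
    intro u
    rw [hwdef, bil_add_left, bil_add_left, bil_add_left, bil_add_left,
      D.bil_smul_left (hc r s), D.bil_smul_left (hc r v), D.bil_smul_left (hc r 1)]
    conv_lhs => rw [← mul_one (bil τ r (v * s)), D.bil_smul_left (hc r (v * s))]
  have g1v : bil τ 1 v = 0 := by rw [bil_comm, D.bil_one, F.tv]
  have g1s : bil τ 1 s = 0 := by rw [bil_comm, D.bil_one, F.ts]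
  have g1x : bil τ 1 (v * s) = 1 := by rw [bil_comm, D.bil_one, ht]
  have gsv : bil τ s v = 1 := by rw [bil_comm]; exact F.vs
  have gxs : bil τ (v * s) s = 0 := by
    have hN := D.norm_central s
    rw [D.bil_eq_trc, mul_assoc, hN v, D.trc_mul_central hN, F.tv, mul_zero]
  have gxv : bil τ (v * s) v = 0 := by
    have hN := D.norm_central v
    rw [D.bil_eq_trc, hvτ, D.trc_comm, ← mul_assoc]
    rw [hvτ] at hN
    rw [D.trc_mul_central hN, F.ts, mul_zero]
  have w1 : bil τ w 1 = 0 := by
    rw [lin, D.bil_self, D.bil_one v, F.tv, D.bil_one s, F.ts, D.bil_one (v * s), ht]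
    simp [D.two]
  have wv : bil τ w v = 0 := by
    rw [lin, g1v, D.bil_self, gsv, gxv]; simp [D.two]
  have ws : bil τ w s = 0 := by
    rw [lin, g1s, D.bil_self, F.vs, gxs]; simp [D.two]
  have wx : bil τ w (v * s) = 0 := by
    rw [lin, g1x, bil_comm v, gxv, bil_comm s, gxs, D.bil_self]; simp [D.two]
  have hwτ : τ w = w := D.tau_eq (by rw [← D.bil_one]; exact w1)
  have cwv : w * v = v * w := D.eq_of_add (by rw [bil, hvτ, hwτ] at wv; exact wv)
  have cws : w * s = s * w := D.eq_of_add (by rw [bil, hsτ, hwτ] at ws; exact ws)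
  rw [bil, D.anti, hsτ, hvτ, hwτ, ← mul_assoc, cws, mul_assoc s, cwv, ← mul_assoc, ← add_mul,
    add_comm, hvs, one_mul] at wx
  exact wx

end TraceData

end CfsgLib.PGV
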