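import Cfsg.Agent.PGVTheorem.Pairs
import Cfsg.Agent.PGVTheorem.TraceCount
import Cfsg.Agent.Chars.Apps.Burnside

/-!
`p = 2`, two conjugates of `K`, an irreducible module: the algebra spanned by `K` is a ring with
central traces, and it is too small.
-/

set_option autoImplicit false

open scoped commutatorElement

universe u v w

namespace CfsgLib.PGV

/-- A finite perfect group of exponent dividing six is trivial. -/
theorem trivial_of_exponent_six {M : Type v} [Group M] [Finite M] (hM : commutator M = ⊤)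
    (h6 : ∀ m : M, m ^ 6 = 1) (m : M) : m = 1 := by
  have hsolv : Group.IsSolvable M := by
    refine CfsgLib.Chars.Apps.isSolvable_of_primeFactors_subset M Nat.prime_two Nat.prime_three
      fun r hr hd => ?_
    haveI := Fact.mk hr
    obtain ⟨g, hg⟩ := exists_prime_orderOf_dvd_card' (G := M) r hd
    have : r ∣ 2 * 3 := hg ▸ orderOf_dvd_of_pow_eq_one (h6 g)
    rcases hr.dvd_mul.mp this with h | h
    · exact Or.inl ((Nat.prime_dvd_prime_iff_eq hr Nat.prime_two).mp h)
    · exact Or.inr ((Nat.prime_dvd_prime_iff_eq hr Nat.prime_three).mp h)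
  by_contra hm
  haveI : Nontrivial M := ⟨m, 1, hm⟩
  exact (Group.IsSolvable.commutator_lt_top_of_nontrivial M).ne hM

variable {G : Type u} [Group G] {F : Type*} [CommRing F] {U : Type w} [AddCommGroup U] [Module F U]
  [Finite U] {K A : Subgroup G}

/-- The central statement for two conjugates. -/
theorem two_contra (C : Ctx 2 K A) (σ : G →* Module.End F U)
    (hchar : ∀ a : Module.End F U, a + a = 0) {x : G} (hx : x ∈ A) (hm : Moves x K)
    (B : Subgroup G) (hBA : B ≤ A) (hBK : ∀ b ∈ B, ¬ Moves b K)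
    (hirr : ∀ W : Submodule F U, (∀ k ∈ K, ∀ w ∈ W, σ k w ∈ W) → (∀ w ∈ W, σ x w ∈ W) →
      (∀ b ∈ B, ∀ w ∈ W, σ b w ∈ W) → W = ⊥ ∨ W = ⊤)
    (hK : ∃ k ∈ K, σ k ≠ 1) (hD : DTriv 2 σ K x)
    (hBx : ∀ b ∈ B, (σ b - 1) * (σ x - 1) = 0)
    (hBB : ∀ a ∈ B, ∀ b ∈ B, (σ a - 1) * (σ b - 1) = 0)
    (hcase : (∃ w, ∀ u, (σ x - 1) u = 0 ∨ (σ x - 1) u = w) ∨
      (∃ b ∈ B, ∃ k ∈ K, σ b * σ k ≠ σ k * σ b) ∧
        Nat.card U ≤ 2 * Nat.card {u : U // ∀ b ∈ B, σ b u = u} * Nat.card (σ '' (B : Set G))) :
    False := by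
  haveI : Fact (Nat.Prime 2) := ⟨Nat.prime_two⟩
  obtain ⟨k0, hk0, hk0ne⟩ := hK
  have hxx : σ x * σ x = 1 := by rw [← map_mul, ← sq, C.pow x hx, map_one]
  have hxi : x⁻¹ = x := C.inv_of_two hx
  set n := σ x - 1 with hn
  have hXn : σ x * n = n := by
    rw [hn, mul_sub, hxx, mul_one]
    exact eq_of_sub_eq_zero (by linear_combination (norm := abel) hchar 1 - hchar (σ x))
  have hnc : ∃ f ∈ K, ∃ g ∈ K, σ f * σ g ≠ σ g * σ f := by
    by_contra h
    push_neg at h
    exact hk0ne (perfect_abelian σ C.perfect h k0 hk0)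
  have hn0 : n ≠ 0 := by
    intro h
    obtain ⟨f, hf, g, hg, hne⟩ := hnc
    have hX1 : σ x = 1 := sub_eq_zero.mp h
    have hc := ((C.disj x hx hm f hf g hg).map σ).eq
    rw [sigma_conj, hxi, hX1, one_mul, mul_one] at hc
    exact hne hc
  obtain ⟨u0, hu0⟩ : ∃ u0, n u0 ≠ 0 := by
    by_contra h
    push_neg at h
    exact hn0 (LinearMap.ext h)
  set y := n u0 with hy
  have hXy : σ x y = y := LinearMap.congr_fun hXn u0
  have hby : ∀ b ∈ B, σ b y = y := fun b hb => by
    have := LinearMap.congr_fun (hBx b hb) u0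
    rwa [Module.End.mul_apply, LinearMap.sub_apply, LinearMap.zero_apply, sub_eq_zero,
      Module.End.one_apply] at this
  have hky : ∀ k ∈ K, σ (x * k * x⁻¹) y = σ k⁻¹ y := by
    intro k hk
    have h := LinearMap.congr_fun (hD k hk) u0
    rw [show diag 2 x k = k * (x * k * x⁻¹) by simp [diag, rest, cnj], map_mul] at h
    calc σ (x * k * x⁻¹) y = (σ k⁻¹ * σ k) (σ (x * k * x⁻¹) y) := by
          rw [sigma_inv_mul, Module.End.one_apply]
      _ = σ k⁻¹ ((σ k * σ (x * k * x⁻¹) * n) u0) := rfl
      _ = σ k⁻¹ y := by rw [show (σ k * σ (x * k * x⁻¹) * n) u0 = y from h]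
  -- the algebra
  let R : Subalgebra F (Module.End F U) := Algebra.adjoin F (σ '' (K : Set G))
  have hKR : ∀ k ∈ K, σ k ∈ R := fun k hk => Algebra.subset_adjoin ⟨k, hk, rfl⟩
  have hcomm' : ∀ r ∈ R, ∀ k ∈ K, r * σ (x * k * x⁻¹) = σ (x * k * x⁻¹) * r := by
    intro r hr k hk
    induction hr using Algebra.adjoin_induction with
    | mem a ha => obtain ⟨f, hf, rfl⟩ := ha; exact ((C.disj x hx hm f hf k hk).map σ).eq
    | algebraMap c => exact Algebra.commutes c _
    | add a b _ _ ha hb => rw [add_mul, mul_add, ha, hb]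
    | mul a b _ _ ha hb => rw [mul_assoc, hb, ← mul_assoc, ha, mul_assoc]
  have hcommX : ∀ r ∈ R, ∀ s ∈ R, r * (σ x * s * σ x) = (σ x * s * σ x) * r := by
    intro r hr s hs
    induction hs using Algebra.adjoin_induction with
    | mem a ha =>
      obtain ⟨f, hf, rfl⟩ := ha
      have := hcomm' r hr f hf
      rwa [sigma_conj, hxi] at this
    | algebraMap c =>
      rw [← Algebra.commutes c (σ x), mul_assoc, hxx, mul_one]
      exact (Algebra.commutes c r).symm
    | add a b _ _ ha hb => simp only [mul_add, add_mul, ha, hb]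
    | mul a b _ _ ha hb =>
      have e : σ x * (a * b) * σ x = σ x * a * σ x * (σ x * b * σ x) := by
        calc σ x * (a * b) * σ x = σ x * a * (σ x * σ x) * b * σ x := by
              rw [hxx, mul_one]; simp only [mul_assoc]
          _ = _ := by simp only [mul_assoc]
      rw [e, ← mul_assoc, ha, mul_assoc (σ x * a * σ x), hb, ← mul_assoc]
  let ev : ↥R →ₗ[F] U :=
    { toFun := fun r => (r : Module.End F U) y
      map_add' := fun r s => by simp
      map_smul' := fun c r => by simp }
  have hev : ∀ r, ev r = (r : Module.End F U) y := fun r => rfl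
  have hbR : ∀ b ∈ B, ∀ r ∈ R, σ b * r * σ b⁻¹ ∈ R := by
    intro b hb r hr
    induction hr using Algebra.adjoin_induction with
    | mem a ha =>
      obtain ⟨f, hf, rfl⟩ := ha
      rw [← sigma_conj]; exact hKR _ (not_moves (hBK b hb) hf)
    | algebraMap c =>
      rw [← Algebra.commutes c (σ b), mul_assoc, sigma_mul_inv, mul_one]; exact R.algebraMap_mem c
    | add a c _ _ ha hc => rw [mul_add, add_mul]; exact R.add_mem ha hc
    | mul a c _ _ ha hc =>
      have e : σ b * (a * c) * σ b⁻¹ = σ b * a * σ b⁻¹ * (σ b * c * σ b⁻¹) := by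
        calc σ b * (a * c) * σ b⁻¹ = σ b * a * (σ b⁻¹ * σ b) * c * σ b⁻¹ := by
              rw [sigma_inv_mul, mul_one]; simp only [mul_assoc]
          _ = _ := by simp only [mul_assoc]
      rw [e]; exact R.mul_mem ha hc
  have hsurj : Function.Surjective ev := by
    rw [← LinearMap.range_eq_top]
    have hw : ∀ r ∈ R, ∃ s ∈ R, σ x (r y) = s y := by
      intro r hr
      induction hr using Algebra.adjoin_induction with
      | mem a ha =>
        obtain ⟨f, hf, rfl⟩ := ha
        refine ⟨σ f⁻¹, hKR _ (K.inv_mem hf), ?_⟩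
        rw [← hky f hf, sigma_conj, hxi, Module.End.mul_apply, Module.End.mul_apply, hXy]
      | algebraMap c =>
        refine ⟨algebraMap F _ c, R.algebraMap_mem c, ?_⟩
        rw [← Module.End.mul_apply, ← Algebra.commutes c (σ x), Module.End.mul_apply, hXy]
      | add a b _ _ ha hb =>
        obtain ⟨s, hs, hs'⟩ := ha; obtain ⟨t, ht, ht'⟩ := hb
        exact ⟨s + t, R.add_mem hs ht, by simp [hs', ht']⟩
      | mul a b har hbr ha hb =>
        obtain ⟨s, hs, hs'⟩ := ha; obtain ⟨t, ht, ht'⟩ := hb
        refine ⟨t * s, R.mul_mem ht hs, ?_⟩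
        have hc := hcommX t ht a har
        calc σ x ((a * b) y) = (σ x * a * σ x) (σ x (b y)) := by
              have := LinearMap.congr_fun hxx (b y)
              simp only [Module.End.mul_apply, Module.End.one_apply] at this ⊢
              rw [this]
          _ = t ((σ x * a * σ x) y) := by rw [ht', ← Module.End.mul_apply, ← hc]; rfl
          _ = (t * s) y := by
              simp only [Module.End.mul_apply, hXy, hs']
    rcases hirr (LinearMap.range ev)
      (by rintro k hk _ ⟨r, rfl⟩; exact ⟨⟨σ k * r, R.mul_mem (hKR k hk) r.2⟩, rfl⟩)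
      (by rintro _ ⟨r, rfl⟩; obtain ⟨s, hs, hs'⟩ := hw r r.2; exact ⟨⟨s, hs⟩, hs'.symm⟩)
      (by
        rintro b hb _ ⟨r, rfl⟩
        refine ⟨⟨σ b * r * σ b⁻¹, hbR b hb r r.2⟩, ?_⟩
        show (σ b * (r : Module.End F U) * σ b⁻¹) y = σ b ((r : Module.End F U) y)
        have : σ b⁻¹ y = y := hby b⁻¹ (B.inv_mem hb)
        rw [Module.End.mul_apply, Module.End.mul_apply, this]) with h | h
    · exfalso
      have : y ∈ LinearMap.range ev := ⟨1, rfl⟩
      rw [h] at this
      exact hu0 this
    · exact h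
  have hright : ∀ s ∈ R, ∀ r ∈ R, r y = 0 → r (s y) = 0 := by
    intro s hs
    induction hs using Algebra.adjoin_induction with
    | mem a ha =>
      obtain ⟨f, hf, rfl⟩ := ha
      intro r hr h0
      have := hky f⁻¹ (K.inv_mem hf)
      rw [inv_inv] at this
      rw [← this, ← Module.End.mul_apply, hcomm' r hr _ (K.inv_mem hf), Module.End.mul_apply, h0,
        map_zero]
    | algebraMap c =>
      intro r hr h0
      rw [← Module.End.mul_apply, ← Algebra.commutes c r, Module.End.mul_apply, h0, map_zero]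
    | add a b _ _ ha hb =>
      intro r hr h0
      rw [LinearMap.add_apply, map_add, ha r hr h0, hb r hr h0, add_zero]
    | mul a b har _ ha hb =>
      intro r hr h0
      exact hb (r * a) (R.mul_mem hr har) (by rw [Module.End.mul_apply]; exact ha r hr h0)
  have hinj : Function.Injective ev := by
    rw [← LinearMap.ker_eq_bot, eq_bot_iff]
    intro r hr
    rw [Submodule.mem_bot]
    apply Subtype.ext
    refine LinearMap.ext fun u => ?_
    obtain ⟨s, rfl⟩ := hsurj u
    exact hright s s.2 r r.2 hr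
  let e : ↥R ≃ₗ[F] U := LinearEquiv.ofBijective ev ⟨hinj, hsurj⟩
  let τ : ↥R →+ ↥R :=
    ((e.symm : U →ₗ[F] ↥R).comp ((σ x).comp (e : ↥R →ₗ[F] U))).toAddMonoidHom
  have hτ : ∀ r, ev (τ r) = σ x (ev r) := fun r => e.apply_symm_apply _
  haveI : Finite ↥R := Finite.of_equiv U e.symm.toEquiv
  have hy2 : ∀ r, σ x (ev r) = (σ x * (r : Module.End F U) * σ x) y := fun r => by
    rw [Module.End.mul_apply, Module.End.mul_apply, hXy, hev]
  have hanti : ∀ r s, τ (r * s) = τ s * τ r := fun r s => by
    apply hinj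
    rw [hτ]
    show σ x (((r : Module.End F U) * s) y) = ((τ s : Module.End F U) * τ r) y
    calc σ x (((r : Module.End F U) * s) y)
        = (σ x * (r : Module.End F U) * σ x) (σ x ((s : Module.End F U) y)) := by
          have := LinearMap.congr_fun hxx ((s : Module.End F U) y)
          simp only [Module.End.mul_apply, Module.End.one_apply] at this ⊢
          rw [this]
      _ = (σ x * (r : Module.End F U) * σ x) (ev (τ s)) := by rw [hτ]; rfl
      _ = (τ s : Module.End F U) ((σ x * (r : Module.End F U) * σ x) y) := by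
          rw [hev, ← Module.End.mul_apply, ← hcommX _ (τ s).2 _ r.2]; rfl
      _ = _ := by rw [← hy2, ← hτ]; rfl
  have hinvol : ∀ r, τ (τ r) = r := fun r => hinj (by
    rw [hτ, hτ, ← Module.End.mul_apply, hxx, Module.End.one_apply])
  have hτk : ∀ k (hk : k ∈ K), τ ⟨σ k, hKR k hk⟩ = ⟨σ k⁻¹, hKR _ (K.inv_mem hk)⟩ := fun k hk => by
    apply hinj
    rw [hτ, hy2]
    show (σ x * σ k * σ x) y = σ k⁻¹ y
    have := hky k hk
    rwa [sigma_conj, hxi] at this
  -- conjugation by `B`
  let β : ↥B → (↥R →+* ↥R) := fun b =>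
    { toFun := fun r => ⟨σ b * r * σ (b : G)⁻¹, hbR b b.2 r r.2⟩
      map_one' := Subtype.ext (by simp [sigma_mul_inv])
      map_mul' := fun r s => Subtype.ext (by
        show σ b * ((r : Module.End F U) * s) * σ (b : G)⁻¹ =
          σ b * r * σ (b : G)⁻¹ * (σ b * s * σ (b : G)⁻¹)
        calc _ = σ b * r * (σ (b : G)⁻¹ * σ b) * s * σ (b : G)⁻¹ := by
              rw [sigma_inv_mul, mul_one]; simp only [mul_assoc]
          _ = _ := by simp only [mul_assoc])
      map_zero' := Subtype.ext (by simp)
      map_add' := fun r s => Subtype.ext (by simp [mul_add, add_mul]) }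
  have hβ : ∀ b r, ev (β b r) = σ b (ev r) := fun b r => by
    show (σ b * (r : Module.End F U) * σ (b : G)⁻¹) y = σ b ((r : Module.End F U) y)
    have : σ (b : G)⁻¹ y = y := hby _ (B.inv_mem b.2)
    rw [Module.End.mul_apply, Module.End.mul_apply, this]
  have htr : ∀ r, ev (r + τ r) = n (ev r) := fun r => by
    rw [map_add, hτ, hn, LinearMap.sub_apply, Module.End.one_apply]
    have h2 : ev r + ev r = 0 := LinearMap.congr_fun (hchar 1) (ev r)
    linear_combination (norm := abel) h2
  have hfix : ∀ b r, β b (r + τ r) = r + τ r := fun b r => hinj (by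
    rw [hβ, htr]
    have := LinearMap.congr_fun (hBx b b.2) (ev r)
    rwa [Module.End.mul_apply, LinearMap.sub_apply, LinearMap.zero_apply, sub_eq_zero,
      Module.End.one_apply] at this)
  have two : ∀ r : ↥R, r + r = 0 := fun r => Subtype.ext (hchar (r : Module.End F U))
  have hcentral : ∀ r s : ↥R, s * (r + τ r) = (r + τ r) * s := by
    suffices h : ∀ r : ↥R, ∀ k ∈ K, σ k * ((r + τ r : ↥R) : Module.End F U) =
        ((r + τ r : ↥R) : Module.End F U) * σ k by
      intro r s
      apply Subtype.ext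
      show (s : Module.End F U) * ((r + τ r : ↥R) : Module.End F U) = _ * (s : Module.End F U)
      obtain ⟨s, hs⟩ := s
      induction hs using Algebra.adjoin_induction with
      | mem a ha => obtain ⟨f, hf, rfl⟩ := ha; exact h r f hf
      | algebraMap c => exact Algebra.commutes c _
      | add a b _ _ ha hb => simp only at ha hb ⊢; rw [add_mul, mul_add, ha, hb]
      | mul a b _ _ ha hb => simp only at ha hb ⊢; rw [mul_assoc, hb, ← mul_assoc, ha, mul_assoc]
    rcases hcase with ⟨w, hw⟩ | ⟨⟨b, hb, k, hk, hbk⟩, -⟩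
    · intro r k hk
      have hyw : y = w := (hw u0).resolve_left hu0
      rcases hw (ev r) with h | h
      · have : r + τ r = 0 := hinj (by rw [htr, map_zero]; exact h)
        rw [this]; simp
      · have : r + τ r = 1 := hinj (by rw [htr, h, ← hyw]; rfl)
        rw [this]; simp
    · let N : Subgroup G :=
        { carrier := {g | ∀ r, σ g * ((r + τ r : ↥R) : Module.End F U) =
            ((r + τ r : ↥R) : Module.End F U) * σ g}
          mul_mem' := fun {g h} hg hh r => by
            rw [map_mul, mul_assoc, hh r, ← mul_assoc, hg r, mul_assoc]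
          one_mem' := fun r => by simp
          inv_mem' := fun {g} hg r => by
            set t := ((r + τ r : ↥R) : Module.End F U)
            calc σ g⁻¹ * t = σ g⁻¹ * (t * σ g) * σ g⁻¹ := by
                  rw [mul_assoc, mul_assoc, sigma_mul_inv, mul_one]
              _ = t * σ g⁻¹ := by rw [← hg r, ← mul_assoc, sigma_inv_mul, one_mul] }
      have hconjT : ∀ g ∈ K, ∀ r : ↥R, ∃ r' : ↥R, ((r' + τ r' : ↥R) : Module.End F U) =
          σ g * ((r + τ r : ↥R) : Module.End F U) * σ g⁻¹ := by
        intro g hg r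
        refine ⟨⟨σ g, hKR g hg⟩ * r * ⟨σ g⁻¹, hKR _ (K.inv_mem hg)⟩, ?_⟩
        rw [hanti, hanti, hτk g hg, hτk g⁻¹ (K.inv_mem hg)]
        simp only [inv_inv, Subalgebra.coe_add, Subalgebra.coe_mul, mul_add, add_mul, mul_assoc]
      have hN : (N.subgroupOf K).Normal := ⟨fun c hc g r => by
        obtain ⟨r', hr'⟩ := hconjT _ (K.inv_mem g.2) r
        rw [inv_inv] at hr'
        have hc' : σ c * _ = _ * σ c := hc r'
        rw [hr'] at hc'
        set t := ((r + τ r : ↥R) : Module.End F U)
        show σ ((g : G) * c * (g : G)⁻¹) * t = t * σ ((g : G) * c * (g : G)⁻¹)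
        rw [sigma_conj]
        calc σ (g : G) * σ c * σ (g : G)⁻¹ * t
            = σ (g : G) * (σ c * (σ (g : G)⁻¹ * t * σ (g : G))) * σ (g : G)⁻¹ := by
              simp only [mul_assoc, sigma_mul_inv, mul_one]
          _ = σ (g : G) * σ (g : G)⁻¹ * t * (σ (g : G) * σ c * σ (g : G)⁻¹) := by
              rw [hc']; simp only [mul_assoc]
          _ = _ := by rw [sigma_mul_inv, one_mul]⟩
      have hbk' : ∃ k ∈ K, b * k ≠ k * b :=
        ⟨k, hk, fun h => hbk (by rw [← map_mul, ← map_mul, h])⟩
      obtain ⟨c, hc, hcnc⟩ := C.exists_twist_noncentral (hBK b hb) hbk'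
      have hcN : c⁻¹ * (b * c * b⁻¹) ∈ N := fun r => by
        obtain ⟨r', hr'⟩ := hconjT c hc r
        have h := congrArg Subtype.val (hfix ⟨b, hb⟩ r')
        set t := ((r + τ r : ↥R) : Module.End F U) with ht
        have hb0 : σ b * t * σ b⁻¹ = t := congrArg Subtype.val (hfix ⟨b, hb⟩ r)
        change σ b * ((r' + τ r' : ↥R) : Module.End F U) * σ b⁻¹ = _ at h
        rw [hr'] at h
        have e : σ (b * c * b⁻¹) * t * σ (b * c * b⁻¹)⁻¹ = σ c * t * σ c⁻¹ := by
          calc σ (b * c * b⁻¹) * t * σ (b * c * b⁻¹)⁻¹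
              = σ b * σ c * σ b⁻¹ * (σ b * t * σ b⁻¹) * (σ b * σ c⁻¹ * σ b⁻¹) := by
                rw [hb0, show (b * c * b⁻¹)⁻¹ = b * c⁻¹ * b⁻¹ by group, sigma_conj, sigma_conj]
            _ = σ b * (σ c * ((σ b⁻¹ * σ b) * t * (σ b⁻¹ * σ b)) * σ c⁻¹) * σ b⁻¹ := by
                simp only [mul_assoc]
            _ = σ c * t * σ c⁻¹ := by rw [sigma_inv_mul, one_mul, mul_one, h]
        calc σ (c⁻¹ * (b * c * b⁻¹)) * t
            = σ c⁻¹ * (σ (b * c * b⁻¹) * t * σ (b * c * b⁻¹)⁻¹) * σ (b * c * b⁻¹) := by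
              simp only [mul_assoc, sigma_inv_mul, mul_one]
              rw [map_mul, mul_assoc]
          _ = t * σ (c⁻¹ * (b * c * b⁻¹)) := by
              rw [e, map_mul σ c⁻¹]
              simp only [← mul_assoc, sigma_inv_mul, one_mul]
      rcases C.qs _ hN with h | h
      · exfalso
        obtain ⟨g, hg, hgne⟩ := hcnc
        have hcK : c⁻¹ * (b * c * b⁻¹) ∈ K :=
          K.mul_mem (K.inv_mem hc) (not_moves (hBK b hb) hc)
        exact hgne (congrArg Subtype.val
          (Subgroup.mem_center_iff.mp (h (x := ⟨_, hcK⟩) hcN) ⟨g, hg⟩))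
      · intro r k hk
        exact (show (⟨k, hk⟩ : ↥K) ∈ N.subgroupOf K from h ▸ Subgroup.mem_top _) r
  have D : TraceData ↥R τ (Set.range β) :=
    { two := two
      anti := hanti
      invol := hinvol
      tr := hcentral
      comm_tau := by
        rintro _ ⟨b, rfl⟩ r
        apply hinj
        rw [hβ, hτ, hτ, hβ, ← Module.End.mul_apply, ← Module.End.mul_apply, ← map_mul, ← map_mul,
          C.comm b (hBA b.2) x hx]
      fix_tr := by rintro _ ⟨b, rfl⟩ r; exact hfix b r
      quad := by
        rintro _ ⟨b, rfl⟩ _ ⟨c, rfl⟩ r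
        apply hinj
        rw [hβ, map_add, hβ]
        have h := LinearMap.congr_fun (hBB c c.2 b b.2) (ev r)
        have h2 : ev r + ev r = 0 := LinearMap.congr_fun (hchar 1) (ev r)
        have h3 := congrArg (σ c) h2
        rw [map_add, map_zero] at h3
        simp only [Module.End.mul_apply, LinearMap.sub_apply, Module.End.one_apply, map_sub,
          LinearMap.zero_apply] at h
        rw [map_add]
        linear_combination (norm := abel) h + h3 - h2
      irr := by
        intro I hl ht hb
        let W : Submodule F U :=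
          { carrier := ev '' (I : Set ↥R)
            add_mem' := by
              rintro _ _ ⟨i, hi, rfl⟩ ⟨j, hj, rfl⟩; exact ⟨i + j, I.add_mem hi hj, map_add _ _ _⟩
            zero_mem' := ⟨0, I.zero_mem, map_zero _⟩
            smul_mem' := by
              rintro c _ ⟨i, hi, rfl⟩
              exact ⟨c • i, by rw [Algebra.smul_def]; exact hl _ _ hi, map_smul _ _ _⟩ }
        rcases hirr W
            (by rintro k hk _ ⟨i, hi, rfl⟩; exact ⟨⟨σ k, hKR k hk⟩ * i, hl _ _ hi, rfl⟩)
            (by rintro _ ⟨i, hi, rfl⟩; exact ⟨τ i, ht i hi, hτ i⟩)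
            (by rintro b hb' _ ⟨i, hi, rfl⟩; exact ⟨β ⟨b, hb'⟩ i, hb _ ⟨_, rfl⟩ i hi, hβ _ i⟩)
          with h | h
        · refine Or.inl ((AddSubgroup.eq_bot_iff_forall _).mpr fun i hi => hinj ?_)
          rw [map_zero]
          have hm : ev i ∈ W := ⟨i, hi, rfl⟩
          rw [h] at hm
          exact hm
        · refine Or.inr ((AddSubgroup.eq_top_iff' _).mpr fun i => ?_)
          obtain ⟨j, hj, hji⟩ : ev i ∈ W := h ▸ Submodule.mem_top
          exact hinj hji ▸ hj
      noncomm := by
        obtain ⟨f, hf, g, hg, hne⟩ := hnc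
        exact ⟨⟨σ f, hKR f hf⟩, ⟨σ g, hKR g hg⟩, fun h => hne (congrArg Subtype.val h)⟩ }
  have hq : Nat.card (Subring.center ↥R) ≤ 2 := by
    rcases hcase with ⟨w, hw⟩ | ⟨⟨b, hb, k, hk, hbk⟩, hcount⟩
    · have hyw : y = w := (hw u0).resolve_left hu0
      have ht01 : ∀ r, TraceData.trc τ r = 0 ∨ TraceData.trc τ r = 1 := fun r => by
        rcases hw (ev r) with h | h
        · left; exact hinj (by rw [map_zero]; exact (htr r).trans h)
        · right; exact hinj ((htr r).trans (h.trans hyw.symm))
      obtain ⟨i, hi⟩ : ∃ i, TraceData.trc τ i = 1 := by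
        by_contra h
        obtain ⟨a, c, hac⟩ := D.noncomm
        have hid : ∀ r, τ r = r := fun r => D.tau_eq ((ht01 r).resolve_right fun e => h ⟨r, e⟩)
        have := D.anti a c
        rw [hid, hid, hid] at this
        exact hac this
      let f : Subring.center ↥R → Bool := fun z =>
        @decide ((z : ↥R) = 0) (Classical.propDecidable _)
      have hf : Function.Injective f := by
        intro z z' h
        simp only [f, decide_eq_decide] at h
        have key : ∀ z : Subring.center ↥R, (z : ↥R) = 0 ∨ (z : ↥R) = 1 := fun z => by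
          have := D.trc_mul_central (Subring.mem_center_iff.mp z.2) i
          rw [hi, mul_one] at this
          rw [← this]; exact ht01 _
        haveI := D.nontriv
        apply Subtype.ext
        rcases key z with h1 | h1 <;> rcases key z' with h2 | h2
        · rw [h1, h2]
        · exact absurd ((h.mp h1).symm.trans h2) zero_ne_one
        · exact absurd ((h.mpr h2).symm.trans h1) zero_ne_one
        · rw [h1, h2]
      calc Nat.card (Subring.center ↥R) ≤ Nat.card Bool := Nat.card_le_card_of_injective f hf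
        _ = 2 := by simp
    · have hne : ∃ r, β ⟨b, hb⟩ r ≠ r := by
        by_contra h
        push_neg at h
        apply hbk
        have : σ b * σ k * σ b⁻¹ = σ k := congrArg Subtype.val (h ⟨σ k, hKR k hk⟩)
        calc σ b * σ k = σ b * σ k * (σ b⁻¹ * σ b) := by rw [sigma_inv_mul, mul_one]
          _ = σ k * σ b := by rw [← mul_assoc, this]
      refine D.center_le_two ⟨⟨b, hb⟩, rfl⟩ hne ?_
      have h1 : Nat.card U = Nat.card ↥R := Nat.card_congr e.symm.toEquiv
      let f : {u : U // ∀ b ∈ B, σ b u = u} → {r // β ⟨b, hb⟩ r = r} := fun u =>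
        ⟨e.symm u, hinj (by
          rw [hβ, show ev (e.symm u.1) = u.1 from e.apply_symm_apply _]; exact u.2 b hb)⟩
      have h2 := Nat.card_le_card_of_injective f fun u v h =>
        Subtype.ext (e.symm.injective (congrArg Subtype.val h))
      let φ : (σ '' (B : Set G)) → Set.range β := fun s =>
        ⟨β ⟨s.2.choose, s.2.choose_spec.1⟩, _, rfl⟩
      haveI : Finite (Set.range β) := by
        haveI : Finite (↥R →+* ↥R) := Finite.of_injective (fun f => (f : ↥R → ↥R)) DFunLike.coe_injective
        infer_instance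
      have hφ : Function.Injective φ := by
        intro s t h
        apply Subtype.ext
        rw [← s.2.choose_spec.2, ← t.2.choose_spec.2]
        refine LinearMap.ext fun u => ?_
        obtain ⟨r, rfl⟩ := hsurj u
        exact (hβ ⟨_, s.2.choose_spec.1⟩ r).symm.trans
          ((congrArg (fun f : ↥R →+* ↥R => ev (f r)) (congrArg Subtype.val h)).trans
            (hβ ⟨_, t.2.choose_spec.1⟩ r))
      have h3 := Nat.card_le_card_of_injective φ hφ
      rw [← h1]
      exact hcount.trans (Nat.mul_le_mul (Nat.mul_le_mul_left 2 h2) h3)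
  -- the image of `K` has exponent six
  let π : ↥K →* (Module.End F U)ˣ := (σ.comp K.subtype).toHomUnits
  have hπ : ∀ k : ↥K, ((π k : (Module.End F U)ˣ) : Module.End F U) = σ k := fun k => rfl
  haveI : Finite (Module.End F U) := Finite.of_injective (fun f => (f : U → U)) DFunLike.coe_injective
  have hperf : commutator ↥π.range = ⊤ := by
    have hk : commutator ↥K = ⊤ := by
      rw [← Subgroup.map_injective K.subtype_injective |>.eq_iff, Subgroup.map_subtype_commutator,
        ← MonoidHom.range_eq_map, Subgroup.range_subtype, C.perfect]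
    rw [← Subgroup.map_top_of_surjective π.rangeRestrict π.rangeRestrict_surjective]
    conv_rhs => rw [← hk]
    rw [commutator_def, commutator_def, Subgroup.map_commutator,
      Subgroup.map_top_of_surjective π.rangeRestrict π.rangeRestrict_surjective]
  have h6 : ∀ m : ↥π.range, m ^ 6 = 1 := by
    rintro ⟨_, k, rfl⟩
    apply Subtype.ext
    apply Units.ext
    have hnorm : (⟨σ k, hKR k k.2⟩ : ↥R) * τ ⟨σ k, hKR k k.2⟩ = 1 := by
      rw [hτk k k.2]; exact Subtype.ext (sigma_mul_inv σ _)
    have := congrArg Subtype.val (D.pow_six hq hnorm)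
    simpa [hπ] using this
  have := trivial_of_exponent_six hperf h6 ⟨π ⟨k0, hk0⟩, _, rfl⟩
  exact hk0ne (congrArg (fun m : ↥π.range => ((m : (Module.End F U)ˣ) : Module.End F U)) this)

end CfsgLib.PGV
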